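import Cfsg.Agent.H79.PSLTwoMax.Polyhedral

/-!
# Maximal `A₅` subgroups of `PSL₂(q)`
-/

set_option autoImplicit false

open Matrix MatrixGroups

namespace Cfsg.Agent.H79.PSLTwoMax

open Cfsg.Agent.H6

variable {F : Type*} [Field F] [Fintype F] (p : ℕ) [Fact p.Prime] [CharP F p]

omit [Fintype F] in
lemma sl2_trace_five {X : SL(2, F)} (h5 : X ^ 5 = 1) (hns : ¬ IsScal X) :
    tr X ^ 2 + tr X - 1 = 0 := by
  set t := tr X with ht
  have hc : ∀ i j : Fin 2, (X ^ 5) i j =
      (t ^ 4 - 3 * t ^ 2 + 1) * X i j - (t ^ 3 - 2 * t) * (1 : SL(2, F)) i j := by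
    intro i j
    have d := sl2_det X
    have e := sl2_sq X
    rw [show X ^ 5 = X * X * (X * X) * X by simp [pow_succ, mul_assoc]]
    simp only [sl2_mul (X * X * (X * X)), sl2_mul (X * X) (X * X), e, ← ht]
    simp only [tr] at ht
    fin_cases i <;> fin_cases j <;> simp <;> grind
  rw [h5] at hc
  have c00 := hc 0 0
  have c11 := hc 1 1
  have c01 := hc 0 1
  have c10 := hc 1 0
  simp at c00 c11 c01 c10
  have hA : t ^ 4 - 3 * t ^ 2 + 1 = 0 := by
    by_contra hA
    exact hns ⟨c01.resolve_left hA, c10.resolve_left hA,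
      mul_left_cancel₀ hA (by linear_combination c11 - c00)⟩
  have hB : (t - 1) * (t ^ 2 + t - 1) = 0 := by
    rw [hA, zero_mul, zero_sub] at c00
    linear_combination c00
  rcases mul_eq_zero.1 hB with h | h
  · exfalso
    rw [sub_eq_zero.1 h] at hA
    exact one_ne_zero (α := F) (by linear_combination (-1 : F) * hA)
  · exact h

omit [Fintype F] in
lemma sl2_trace_three {Z : SL(2, F)} (h3 : Z ^ 3 = 1 ∨ Z ^ 3 = -1) (hns : ¬ IsScal Z) :
    tr Z = 1 ∨ tr Z = -1 := by
  set s := tr Z with hs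
  have e := sl2_sq Z
  have hc : ∀ i j : Fin 2, (Z ^ 3) i j = (s ^ 2 - 1) * Z i j - s * (1 : SL(2, F)) i j := by
    intro i j
    have d := sl2_det Z
    rw [show Z ^ 3 = Z * Z * Z by simp [pow_succ, mul_assoc]]
    simp only [sl2_mul (Z * Z), e, ← hs]
    simp only [tr] at hs
    fin_cases i <;> fin_cases j <;> simp <;> grind
  have hd : (Z ^ 3) 0 1 = 0 ∧ (Z ^ 3) 1 0 = 0 ∧ (Z ^ 3) 0 0 = (Z ^ 3) 1 1 := by
    rcases h3 with h | h <;> rw [h] <;> simp [sl2_neg]
  obtain ⟨h01, h10, hdd⟩ := hd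
  rw [hc] at h01 h10
  rw [hc, hc] at hdd
  simp at h01 h10 hdd
  have h : s ^ 2 - 1 = 0 := by
    by_contra hne
    exact hns ⟨h01.resolve_left hne, h10.resolve_left hne, hdd.resolve_right hne⟩
  exact mul_self_eq_one_iff.1 (by linear_combination h)

omit [Fintype F] in
lemma not_isScal_of_π_ne {g : SL(2, F)} (h : π g ≠ 1) : ¬ IsScal g :=
  fun hs => h (π_eq_one_iff_isScal.2 hs)

/-- An icosahedral subgroup descends to every subfield containing its trace. -/
theorem alt_five_descend {M : Subgroup PSL(2, F)} (h5 : (5 : F) ≠ 0)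
    (hiso : Nonempty (M ≃* alternatingGroup (Fin 5))) :
    ∃ t : F, t ^ 2 + t - 1 = 0 ∧ ∀ (K : Type) (_ : Field K) (_ : Fintype K) (ι : K →+* F) (t₀ : K),
      ι t₀ = t → ∃ ψ : PSL(2, F) ≃* PSL(2, F), M ≤ ((pslMap ι).range).map ψ.toMonoidHom := by
  classical
  obtain ⟨e⟩ := hiso
  let x₀ : alternatingGroup (Fin 5) :=
    ⟨Equiv.swap 0 1 * Equiv.swap 1 2 * Equiv.swap 2 3 * Equiv.swap 3 4,
      Equiv.Perm.mem_alternatingGroup.2 (by decide)⟩
  let y₀ : alternatingGroup (Fin 5) :=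
    ⟨Equiv.swap 0 1 * Equiv.swap 2 3, Equiv.Perm.mem_alternatingGroup.2 (by decide)⟩
  have hx₀ : x₀ ^ 5 = 1 := by decide
  have hy₀ : y₀ ^ 2 = 1 := by decide
  have hz₀ : (x₀ * y₀) ^ 3 = 1 := by decide
  have hx₁ : x₀ ≠ 1 := by decide
  have hy₁ : y₀ ≠ 1 := by decide
  have hz₁ : x₀ * y₀ ≠ 1 := by decide
  let g : alternatingGroup (Fin 5) →* PSL(2, F) := M.subtype.comp e.symm.toMonoidHom
  have hg : Function.Injective g := Subtype.val_injective.comp e.symm.injective
  obtain ⟨X, hX⟩ := π_surjective (g x₀)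
  obtain ⟨Y, hY⟩ := π_surjective (g y₀)
  have hne : ∀ {z}, z ≠ 1 → g z ≠ 1 := fun h h' => h (hg (h'.trans (map_one g).symm))
  -- choose the lift of the rotation of order five
  obtain ⟨X, hX, hX5⟩ : ∃ X : SL(2, F), π X = g x₀ ∧ X ^ 5 = 1 := by
    have : π (X ^ 5) = 1 := by rw [map_pow, hX, ← map_pow, hx₀, map_one]
    rcases π_eq_one_iff.1 this with h | h
    · exact ⟨X, hX, h⟩
    · exact ⟨-X, (π_neg X).trans hX, by rw [Odd.neg_pow (by decide), h, neg_neg]⟩
  have hnX : ¬ IsScal X := not_isScal_of_π_ne (hX ▸ hne hx₁)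
  have ht := sl2_trace_five hX5 hnX
  refine ⟨tr X, ht, fun K _ _ ι t₀ ht₀ => ?_⟩
  have hY0 : tr Y = 0 := by
    have h : π (Y ^ 2) = 1 := by rw [map_pow, hY, ← map_pow, hy₀, map_one]
    have hnY : ¬ IsScal Y := not_isScal_of_π_ne (hY ▸ hne hy₁)
    have e' := sl2_sq Y
    rw [sq] at h
    obtain ⟨a, b, c⟩ := π_eq_one_iff_isScal.1 h
    simp [e'] at a b c
    by_contra hne0
    exact hnY ⟨a.resolve_left hne0, b.resolve_left hne0, c.resolve_right hne0⟩
  obtain ⟨Y, hY, hY0, hXY⟩ : ∃ Y : SL(2, F), π Y = g y₀ ∧ tr Y = 0 ∧ tr (X * Y) = 1 := by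
    have h3 : π ((X * Y) ^ 3) = 1 := by rw [map_pow, map_mul, hX, hY, ← map_mul, ← map_pow, hz₀, map_one]
    have hnZ : ¬ IsScal (X * Y) := not_isScal_of_π_ne (by rw [map_mul, hX, hY, ← map_mul]; exact hne hz₁)
    rcases sl2_trace_three (π_eq_one_iff.1 h3) hnZ with h | h
    · exact ⟨Y, hY, hY0, h⟩
    · exact ⟨-Y, (π_neg Y).trans hY, by rw [tr_neg, hY0, neg_zero], by rw [mul_neg, tr_neg, h, neg_neg]⟩
  -- solve the norm equation over `K`
  have hK : t₀ ^ 2 + t₀ - 1 = 0 := ι.injective (by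
    rw [map_sub, map_add, map_pow, map_one, map_zero, ht₀]; exact ht)
  have hD : t₀ ^ 2 - 4 ≠ 0 := by
    intro h
    apply h5
    have : (5 : K) = 0 := by linear_combination (t₀ - 2) * h - (t₀ - 3) * hK
    rw [← map_ofNat ι 5, this, map_zero]
  have hD' : (4 : K) - t₀ ^ 2 ≠ 0 := fun h => hD (by linear_combination (-1 : K) * h)
  set a₀ := -t₀ / (4 - t₀ ^ 2) with ha₀
  set c₀ := 2 / (4 - t₀ ^ 2) with hc₀
  have e1 : 2 * a₀ + t₀ * c₀ = 0 := by rw [ha₀, hc₀]; field_simp; ring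
  have e2 : t₀ * a₀ + 2 * c₀ - 1 = 0 := by rw [ha₀, hc₀]; field_simp; ring
  obtain ⟨A, C, hAC⟩ := exists_rep (1 : K) t₀ 1
    (-(a₀ ^ 2 + t₀ * a₀ * c₀ + c₀ ^ 2 - c₀ + 1)) (by simp)
    (Or.inl (by rw [mul_one, mul_one]; exact hD))
  set α := A + a₀
  set β := C + c₀
  have hαβ : α ^ 2 + t₀ * α * β + β ^ 2 - β + 1 = 0 := by
    linear_combination hAC + A * e1 + C * e2
  obtain ⟨ψ, Y₀, hψX, hψY, b1, b2, b3, b4⟩ := icosahedral_normal_form (t := tr X) (α := ι α)
    (β := ι β) rfl ht hY0 hXY (by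
      have := congrArg ι hαβ
      simp only [map_add, map_sub, map_mul, map_pow, map_one, map_zero, ht₀] at this
      exact this)
  refine ⟨ψ.symm, ?_⟩
  set R := ((pslMap ι).range).map ψ.symm.toMonoidHom
  have hmem : ∀ Z : SL(2, F), (∀ i j, ∃ z, ι z = Z i j) → π Z ∈ (pslMap ι).range := by
    intro Z hZ
    choose z hz using hZ
    let Z' : SL(2, K) := sl2 (z 0 0) (z 0 1) (z 1 0) (z 1 1) (ι.injective (by
      rw [map_sub, map_mul, map_mul, map_one, hz, hz, hz, hz]; exact sl2_det Z))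
    refine ⟨π Z', ?_⟩
    rw [pslMap_π]
    congr 1
    apply sl2_ext <;> simp [Z', hz]
  have hxR : g x₀ ∈ R := ⟨_, hmem (H6.comp (tr X)) (fun i j => by
    fin_cases i <;> fin_cases j
    · exact ⟨0, by simp [H6.comp]⟩
    · exact ⟨-1, by simp [H6.comp]⟩
    · exact ⟨1, by simp [H6.comp]⟩
    · exact ⟨t₀, by simp [H6.comp, ht₀]⟩), by
    rw [← hX]; exact ψ.symm_apply_eq.2 hψX.symm⟩
  have hyR : g y₀ ∈ R := ⟨_, hmem Y₀ (fun i j => by
    fin_cases i <;> fin_cases j
    · exact ⟨-α, by simp [b1]⟩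
    · exact ⟨1 - β - t₀ * α, by simp [b3, ht₀]⟩
    · exact ⟨-β, by simp [b2]⟩
    · exact ⟨α, by simp [b4]⟩), by
    rw [← hY]; exact ψ.symm_apply_eq.2 hψY.symm⟩
  -- the preimage of `R` in `A₅` has index at most two
  set S := R.comap g
  have hS : S = ⊤ := by
    have ho : ∀ z : alternatingGroup (Fin 5), ∀ n : ℕ, n.Prime → z ^ n = 1 → z ≠ 1 → z ∈ S →
        n ∣ Nat.card S := by
      intro z n hn hz hz1 hzS
      have : Fact n.Prime := ⟨hn⟩
      exact orderOf_eq_prime hz hz1 ▸ Subgroup.orderOf_dvd_natCard _ hzS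
    have h5' := ho x₀ 5 (by norm_num) hx₀ hx₁ hxR
    have h2' := ho y₀ 2 Nat.prime_two hy₀ hy₁ hyR
    have h3' := ho (x₀ * y₀) 3 Nat.prime_three hz₀ hz₁ (mul_mem hxR hyR)
    have h30 : 30 ∣ Nat.card S :=
      Nat.Coprime.mul_dvd_of_dvd_of_dvd (show Nat.Coprime 6 5 by norm_num)
        (Nat.Coprime.mul_dvd_of_dvd_of_dvd (show Nat.Coprime 2 3 by norm_num) h2' h3') h5'
    have hc := S.card_mul_index
    rw [show Nat.card (alternatingGroup (Fin 5)) = 60 by
      rw [nat_card_alternatingGroup, Nat.card_eq_fintype_card, Fintype.card_fin]; rfl] at hc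
    obtain ⟨k, hk⟩ := h30
    have hidx : S.index = 1 ∨ S.index = 2 := by
      rw [hk, mul_assoc] at hc
      have : S.index ∣ 2 := ⟨k, by
        have : k * S.index = 2 := by omega
        rw [← this, mul_comm]⟩
      exact (Nat.dvd_prime Nat.prime_two).1 this
    rcases hidx with h | h
    · exact Subgroup.index_eq_one.1 h
    · have := Subgroup.normal_of_index_eq_two h
      rcases (inferInstance : S.Normal).eq_bot_or_eq_top with e' | e'
      · exfalso
        exact hx₁ (Subgroup.mem_bot.1 (e' ▸ (show x₀ ∈ S from hxR)))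
      · exact e'
  intro m hm
  have := hS ▸ Subgroup.mem_top (e ⟨m, hm⟩)
  simpa [S, g] using this

/-- The roots of `t² + t - 1` are fixed by the square of Frobenius. -/
lemma pow_sq_eq_self {t : F} (ht : t ^ 2 + t - 1 = 0) : t ^ p ^ 2 = t := by
  have h : (t ^ p) ^ 2 + t ^ p - 1 = 0 := by
    have := congrArg (frobenius F p) ht
    simpa [frobenius_def, sub_pow_char, add_pow_char, ← pow_mul, mul_comm p 2,
      zero_pow (Fact.out : p.Prime).ne_zero] using this
  have hor : t ^ p = t ∨ t ^ p = -1 - t := by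
    have : (t ^ p - t) * (t ^ p - (-1 - t)) = 0 := by linear_combination h - ht
    exact (mul_eq_zero.1 this).imp sub_eq_zero.1 sub_eq_zero.1
  rw [pow_two, pow_mul]
  rcases hor with e | e
  · rw [e, e]
  · rw [e]
    have : (-1 - t) ^ p = -1 - t ^ p := by
      rw [sub_pow_char, neg_one_pow_char]
    rw [this, e]; ring

lemma pow_fix_mul {n m : ℕ} {t : F} (h : t ^ n = t) : t ^ n ^ m = t := by
  induction m with
  | zero => simp
  | succ m ih => rw [pow_succ, pow_mul, ih, h]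

/-- A maximal `A₅` satisfies the congruences of Dickson or is of subfield type. -/
theorem maximal_alt_five {a : ℕ} (hF : Fintype.card F = p ^ a) (hp2 : p ≠ 2) (hp5 : p ≠ 5)
    {M : Subgroup PSL(2, F)} (hM : IsCoatom M)
    (hiso : Nonempty (M ≃* alternatingGroup (Fin 5))) (ha : a ≠ 0) :
    ((a = 1 ∧ (p % 10 = 1 ∨ p % 10 = 9)) ∨ (a = 2 ∧ (p % 10 = 3 ∨ p % 10 = 7))) ∨
    ∃ (F₀ : Type) (_ : Field F₀) (_ : Fintype F₀) (r : ℕ), r.Prime ∧ Odd r ∧
      Fintype.card F = Fintype.card F₀ ^ r ∧ Nonempty (M ≃* PSL(2, F₀)) := by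
  classical
  have hp : p.Prime := Fact.out
  have hpo : p % 2 = 1 := Nat.odd_iff.1 (hp.odd_of_ne_two hp2)
  have h2 : (2 : F) ≠ 0 := two_ne_of_ne p hp2
  have h5 : (5 : F) ≠ 0 := fun e => hp5 ((Nat.prime_dvd_prime_iff_eq hp (by norm_num)).1
    ((CharP.cast_eq_zero_iff F p 5).1 (by exact_mod_cast e)))
  obtain ⟨t, ht, hdesc⟩ := alt_five_descend h5 hiso
  have hp5d : ¬ p % 5 = 0 := fun h =>
    hp5 ((Nat.prime_dvd_prime_iff_eq (by norm_num) hp).1 (Nat.dvd_of_mod_eq_zero h)).symm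
  -- descent to the subfield of index `r`
  have hstep : ∀ r j : ℕ, r.Prime → a = r * j → t ^ p ^ j = t →
      r ≠ 2 ∧ ∃ (F₀ : Type) (_ : Field F₀) (_ : Fintype F₀) (r : ℕ), r.Prime ∧ Odd r ∧
        Fintype.card F = Fintype.card F₀ ^ r ∧ Nonempty (M ≃* PSL(2, F₀)) := by
    intro r j hr hra htj
    have hj : j ≠ 0 := fun e => ha (by rw [hra, e, mul_zero])
    obtain ⟨_, ι, hK⟩ := exists_galois_emb (F := F) p hF ⟨r, by rw [hra, mul_comm]⟩ hj ha
    have hFK : Fintype.card F = Fintype.card (GaloisField p j) ^ r := by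
      rw [hF, hK, ← pow_mul, hra, mul_comm]
    obtain ⟨t₀, ht₀⟩ := mem_range_of_pow ι (x := t) (by rw [hK]; exact htj)
    obtain ⟨ψ, hle⟩ := hdesc _ inferInstance inferInstance ι t₀ ht₀
    have htop : ∀ S : Subgroup PSL(2, F), S ≠ ⊤ → S.map ψ.toMonoidHom ≠ ⊤ := fun S hne e =>
      hne (Subgroup.map_injective ψ.injective (e.trans
        (Subgroup.map_top_of_surjective ψ.toMonoidHom ψ.surjective).symm))
    have hMR := eq_of_coatom_le hM hle (htop _ (pslMap_range_ne_top ι hr.two_le h2 hFK))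
    have hr2 : r ≠ 2 := by
      rintro rfl
      have hsq := isSquare_of_even_degree (i := 1) ι (by rw [hFK, mul_one])
      have h1 : M ≤ ((pglMap ι hsq).range).map ψ.toMonoidHom :=
        hle.trans (Subgroup.map_mono (pslMap_range_le_pglMap ι hsq))
      have h2' := eq_of_coatom_le hM h1 (htop _ (pglMap_range_ne_top ι hsq le_rfl h2 hFK))
      have h3 := Subgroup.map_injective ψ.injective (hMR.symm.trans h2')
      have h4 := congrArg (fun S : Subgroup PSL(2, F) => Nat.card S) h3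
      simp only [card_pslMap_range, card_pglMap_range] at h4
      have h6 := two_mul_card_psl (F := GaloisField p j) rfl
        (by rw [hK]; exact Nat.odd_iff.1 (hp.odd_of_ne_two hp2).pow)
      have : 0 < Nat.card PSL(2, GaloisField p j) := Nat.card_pos
      omega
    refine ⟨hr2, ?_⟩
    obtain ⟨e'⟩ := nonempty_equiv_map ψ (pslMap ι).range
    exact ⟨GaloisField p j, inferInstance, inferInstance, r, hr, hr.odd_of_ne_two hr2, hFK,
      ⟨((MulEquiv.subgroupCongr hMR).trans e').trans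
        (MonoidHom.ofInjective (pslMap_injective ι)).symm⟩⟩
  by_cases ha1 : a = 1
  · left; left
    refine ⟨ha1, ?_⟩
    subst ha1
    rw [pow_one] at hF
    have hd : 5 ∣ p * (p ^ 2 - 1) := by
      rw [← two_mul_card_psl hF hpo]
      refine Dvd.dvd.mul_left ?_ _
      have h60 : Nat.card M = 60 := by
        obtain ⟨e⟩ := hiso
        rw [Nat.card_congr e.toEquiv, nat_card_alternatingGroup, Nat.card_eq_fintype_card,
          Fintype.card_fin]
        rfl
      exact (show 5 ∣ 60 by norm_num).trans (h60 ▸ M.card_subgroup_dvd_card)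
    rcases (Nat.Prime.dvd_mul (by norm_num)).1 hd with h | h
    · omega
    · rw [sq_sub_one_eq] at h
      rcases (Nat.Prime.dvd_mul (by norm_num)).1 h with h | h <;> omega
  rcases Nat.even_or_odd a with hev | hodd
  · obtain ⟨b, rfl⟩ := hev
    by_cases hb1 : b = 1
    · subst hb1
      left; right
      refine ⟨rfl, ?_⟩
      by_contra hcon
      have h5sq : IsSquare ((5 : ℕ) : ZMod p) := by
        have : Fact (Nat.Prime 5) := ⟨by norm_num⟩
        rw [← ZMod.exists_sq_eq_prime_iff_of_mod_four_eq_one (p := 5) (q := p) (by norm_num) hp2]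
        have hcase : (p : ZMod 5) = 1 ∨ (p : ZMod 5) = 4 := by
          rcases (show p % 5 = 1 ∨ p % 5 = 4 by omega) with h | h
          · left; rw [← ZMod.natCast_mod, h]; rfl
          · right; rw [← ZMod.natCast_mod, h]; rfl
        rcases hcase with h | h <;> rw [h]
        · exact ⟨1, by rw [one_mul]⟩
        · exact ⟨2, by norm_num⟩
      obtain ⟨s, hs⟩ := h5sq
      let σ : ZMod p →+* F := ZMod.castHom (dvd_refl p) F
      have hσ : σ s * σ s = 5 := by rw [← map_mul, ← hs, map_natCast]; norm_num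
      have hfix : ∀ z : ZMod p, σ z ^ p = σ z := fun z => by rw [← map_pow, ZMod.pow_card]
      have htp : t ^ p = t := by
        have h : (2 * t + 1) * (2 * t + 1) = σ s * σ s := by rw [hσ]; linear_combination 4 * ht
        obtain ⟨z, hz⟩ : ∃ z : ZMod p, 2 * t + 1 = σ z := by
          rcases mul_self_eq_mul_self_iff.1 h with e | e
          · exact ⟨s, e⟩
          · exact ⟨-s, by rw [e, map_neg]⟩
        have h2z : (2 : ZMod p) ≠ 0 := fun e => h2 (by rw [← map_ofNat σ 2, e, map_zero])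
        have : t = σ ((z - 1) / 2) := by
          rw [map_div₀, map_sub, map_one, map_ofNat, ← hz]; field_simp; ring
        rw [this, hfix]
      exact (hstep 2 1 Nat.prime_two rfl (by rw [pow_one]; exact htp)).1 rfl
    · right
      by_cases hb2 : b % 2 = 0
      · exfalso
        exact (hstep 2 b Nat.prime_two (by ring) (by
          obtain ⟨c, rfl⟩ : ∃ c, b = 2 * c := ⟨b / 2, by omega⟩
          rw [pow_mul]; exact pow_fix_mul (pow_sq_eq_self p ht))).1 rfl
      · obtain ⟨r, hr, hrb⟩ := Nat.exists_prime_and_dvd hb1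
        obtain ⟨c, rfl⟩ := hrb
        exact (hstep r (2 * c) hr (by ring) (by
          rw [pow_mul]; exact pow_fix_mul (pow_sq_eq_self p ht))).2
  · right
    obtain ⟨r, hr, hra⟩ := Nat.exists_prime_and_dvd ha1
    obtain ⟨j, rfl⟩ := hra
    have htp : t ^ p = t := by
      obtain ⟨i, hi⟩ := hodd
      have hq : t ^ p ^ (r * j) = t := by
        rw [← hF]; exact FiniteField.pow_card t
      rw [hi, pow_succ, pow_mul, pow_mul p 2 i, pow_fix_mul (pow_sq_eq_self p ht)] at hq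
      exact hq
    exact (hstep r j hr rfl (pow_fix_mul htp)).2

end Cfsg.Agent.H79.PSLTwoMax
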