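import Cfsg.Agent.H6.Applications
import Cfsg.Agent.H6.Exist

/-!
# Tools for maximal subgroups of `PSL₂(q)`
-/

set_option autoImplicit false

open Matrix MatrixGroups

namespace Cfsg.Agent.H79.PSLTwoMax

open Cfsg.Agent.H6

variable {F : Type*} [Field F]

/-- Two elements of order three whose commutator is an involution. -/
def HasA4 {G : Type*} [Group G] (H : Subgroup G) : Prop :=
  ∃ x ∈ H, ∃ y ∈ H, x ^ 3 = 1 ∧ y ^ 3 = 1 ∧ x * y ≠ y * x ∧
    orderOf (x * y * x⁻¹ * y⁻¹) = 2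

lemma hasA4_mono {G : Type*} [Group G] {H M : Subgroup G} (h : H ≤ M) (hH : HasA4 H) : HasA4 M := by
  obtain ⟨x, hx, y, hy, h'⟩ := hH
  exact ⟨x, h hx, y, h hy, h'⟩

lemma hasA4_map {G G' : Type*} [Group G] [Group G'] {H : Subgroup G} (f : G →* G')
    (hf : Function.Injective f) (hH : HasA4 H) : HasA4 (H.map f) := by
  obtain ⟨x, hx, y, hy, h1, h2, h3, h4⟩ := hH
  refine ⟨f x, Subgroup.mem_map_of_mem f hx, f y, Subgroup.mem_map_of_mem f hy,
    by rw [← map_pow, h1, map_one], by rw [← map_pow, h2, map_one], fun e => h3 (hf ?_), ?_⟩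
  · rw [map_mul, map_mul, e]
  · rw [← map_inv, ← map_inv, ← map_mul, ← map_mul, ← map_mul, orderOf_injective f hf, h4]

lemma hasA4_of_equiv {G A : Type*} [Group G] [Group A] {H : Subgroup G} (e : H ≃* A) (x y : A)
    (hx : x ^ 3 = 1) (hy : y ^ 3 = 1) (hxy : x * y ≠ y * x)
    (hz : orderOf (x * y * x⁻¹ * y⁻¹) = 2) : HasA4 H := by
  have h := hasA4_map (H := (⊤ : Subgroup A)) (H.subtype.comp e.symm.toMonoidHom)
    (Subtype.val_injective.comp e.symm.injective) ⟨x, trivial, y, trivial, hx, hy, hxy, hz⟩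
  refine hasA4_mono ?_ h
  rintro _ ⟨a, -, rfl⟩
  exact (e.symm a).2

lemma hasA4_alt_four {G : Type*} [Group G] {H : Subgroup G}
    (h : Nonempty (H ≃* alternatingGroup (Fin 4))) : HasA4 H := by
  obtain ⟨e⟩ := h
  refine hasA4_of_equiv e ⟨Equiv.swap 0 1 * Equiv.swap 1 2, Equiv.Perm.mem_alternatingGroup.2 (by decide)⟩
    ⟨Equiv.swap 0 1 * Equiv.swap 1 3, Equiv.Perm.mem_alternatingGroup.2 (by decide)⟩
    (by decide) (by decide) (by decide) (orderOf_eq_prime (by decide) (by decide))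

lemma hasA4_perm_four {G : Type*} [Group G] {H : Subgroup G}
    (h : Nonempty (H ≃* Equiv.Perm (Fin 4))) : HasA4 H := by
  obtain ⟨e⟩ := h
  exact hasA4_of_equiv e (Equiv.swap 0 1 * Equiv.swap 1 2) (Equiv.swap 0 1 * Equiv.swap 1 3)
    (by decide) (by decide) (by decide) (orderOf_eq_prime (by decide) (by decide))

lemma hasA4_alt_five {G : Type*} [Group G] {H : Subgroup G}
    (h : Nonempty (H ≃* alternatingGroup (Fin 5))) : HasA4 H := by
  obtain ⟨e⟩ := h
  refine hasA4_of_equiv e ⟨Equiv.swap 0 1 * Equiv.swap 1 2, Equiv.Perm.mem_alternatingGroup.2 (by decide)⟩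
    ⟨Equiv.swap 0 1 * Equiv.swap 1 3, Equiv.Perm.mem_alternatingGroup.2 (by decide)⟩
    (by decide) (by decide) (by decide) (orderOf_eq_prime (by decide) (by decide))

variable [Fintype F] {q : ℕ}

/-- An `A₄`-like configuration does not fit in a dihedral normaliser of a torus. -/
lemma not_le_torDih {H : Subgroup PSL(2, F)} (hH : HasA4 H) {g : SL(2, F)} (ht : tr g ^ 2 ≠ 4) :
    ¬ H ≤ torDih g := by
  intro hle
  obtain ⟨x, hx, y, hy, hx3, hy3, hne, -⟩ := hH
  have key : ∀ z ∈ H, z ^ 3 = 1 → z ∈ tor g := by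
    intro z hz h3
    by_contra hzt
    obtain ⟨h2, -, -⟩ := outside_torDih ht (hle hz) hzt
    rw [pow_succ, sq, h2, one_mul] at h3
    exact hzt (h3 ▸ one_mem _)
  have := tor_cyclic ht
  let := IsCyclic.commGroup (α := tor g)
  exact hne (congrArg Subtype.val
    (mul_comm (⟨x, key x hx hx3⟩ : tor g) ⟨y, key y hy hy3⟩))

/-- An `A₄`-like configuration does not fit in a Borel subgroup in odd characteristic. -/
lemma not_cj_le_borel (p : ℕ) [Fact p.Prime] [CharP F p] (hp2 : p ≠ 2)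
    {H : Subgroup PSL(2, F)} (hH : HasA4 H) (c : PSL(2, F)) : ¬ cj c H ≤ borel F := by
  intro hle
  obtain ⟨x, hx, y, hy, -, -, -, hz⟩ := hasA4_map (MulAut.conj c).toMonoidHom
    (MulEquiv.injective _) hH
  have hxb := hle hx
  have hyb := hle hy
  have hzb : x * y * x⁻¹ * y⁻¹ ∈ borel F :=
    mul_mem (mul_mem (mul_mem hxb hyb) (inv_mem hxb)) (inv_mem hyb)
  have h1 : chiB ⟨_, hzb⟩ = 1 := by
    have e : (⟨_, hzb⟩ : borel F) = ⟨x, hxb⟩ * ⟨y, hyb⟩ * ⟨x, hxb⟩⁻¹ * ⟨y, hyb⟩⁻¹ := rfl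
    rw [e, map_mul, map_mul, map_mul, map_inv, map_inv, mul_inv_cancel_comm, mul_inv_cancel]
  have hU := (chiB_eq_one_iff _).1 h1
  obtain ⟨a, ha⟩ := mem_Uinf.1 hU
  have ha' : π (up a) = x * y * x⁻¹ * y⁻¹ := ha
  have hpow : π (up a) ^ p = 1 := by
    rw [← map_pow, pow_char_of_tr_two p (tr_up a), map_one]
  have hd := orderOf_dvd_of_pow_eq_one hpow
  rw [ha', hz] at hd
  exact hp2 ((Nat.prime_dvd_prime_iff_eq Nat.prime_two Fact.out).1 hd).symm

lemma cj_top {G : Type*} [Group G] (c : G) : cj c (⊤ : Subgroup G) = ⊤ :=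
  Subgroup.map_top_of_surjective _ (MulEquiv.surjective _)

lemma cj_injective {G : Type*} [Group G] (c : G) : Function.Injective (cj c : Subgroup G → Subgroup G) :=
  Subgroup.map_injective (MulEquiv.injective _)

lemma cj_mono {G : Type*} [Group G] (c : G) {H M : Subgroup G} (h : H ≤ M) : cj c H ≤ cj c M :=
  Subgroup.map_mono h

/-- A criterion for maximality through Dickson's list. -/
lemma isCoatom_of_outcome (p : ℕ) [Fact p.Prime] [CharP F p] {H : Subgroup PSL(2, F)}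
    (hne : H ≠ ⊤)
    (hM : ∀ (c : PSL(2, F)) (M : Subgroup PSL(2, F)), cj c H ≤ M → Outcome M p →
      M = ⊤ ∨ Nat.card M ≤ Nat.card H) : IsCoatom H := by
  refine ⟨hne, fun M hlt => ?_⟩
  obtain ⟨c, hc⟩ := exists_outcome p M
  rcases hM c (cj c M) (cj_mono c hlt.le) hc with h | h
  · exact cj_injective c (h.trans (cj_top c).symm)
  · rw [card_cj] at h
    exact absurd (Subgroup.eq_of_le_of_card_ge hlt.le h) hlt.ne

lemma sq_sub_one_eq (r : ℕ) : r ^ 2 - 1 = (r + 1) * (r - 1) := by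
  rw [← Nat.sq_sub_sq, one_pow]

/-- Numerical facts about a subgroup of subfield type. -/
lemma gen_facts {M : Subgroup PSL(2, F)} {r k : ℕ} (hG : Gen M r k) (hF : Fintype.card F = q) :
    ∃ K : Subfield F, Nat.card K = r ∧ r ^ Module.finrank K F = q ∧ 1 ≤ Module.finrank K F ∧
      (∀ g : SL(2, F), π g ∈ M → tr g ^ 2 ∈ K) ∧ Nat.card M ∣ r * (r ^ 2 - 1) ∧
      Nat.card M ≤ r * (r ^ 2 - 1) ∧ (r = q → M = ⊤) := by
  classical
  obtain ⟨K, hKr, htr, -⟩ := gen_structure hG
  obtain ⟨-, -, -, hk1, hkr, hcard, -, -⟩ := hG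
  have := Fintype.ofFinite K
  have hrm : r ^ Module.finrank K F = q := by
    rw [← hKr, Nat.card_eq_fintype_card, ← Module.card_eq_pow_finrank, hF]
  have hq2 : 2 ≤ q := hF ▸ Fintype.one_lt_card
  have hdvd : Nat.card M ∣ r * (r ^ 2 - 1) := by
    rw [hcard, sq_sub_one_eq]
    rcases hkr with h | h
    · exact ⟨2, by rw [show r - 1 = 2 * k by omega]; ring⟩
    · exact ⟨1, by rw [show r - 1 = k by omega]; ring⟩
  refine ⟨K, hKr, hrm, Nat.one_le_iff_ne_zero.2 fun h => ?_, htr, hdvd,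
    Nat.le_of_dvd ?_ hdvd, fun hrq => ?_⟩
  · rw [h, pow_zero] at hrm; omega
  · rw [sq_sub_one_eq]; have hr : 2 ≤ r := by omega
    exact Nat.mul_pos (by omega) (Nat.mul_pos (by omega) (by omega))
  · subst hrq
    refine Subgroup.eq_top_of_le_card _ ?_
    have hpsl := card_psl2_mul (F := F) hF
    rw [hcard]
    rw [sq_sub_one_eq] at hpsl
    rcases Nat.mod_two_eq_zero_or_one r with hpar | hpar
    · rw [show r - 1 = k by omega, (Nat.prime_two.coprime_iff_not_dvd).2 (by omega)] at hpsl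
      nlinarith [hpsl]
    · rw [Nat.gcd_eq_left (show 2 ∣ r - 1 by omega)] at hpsl
      have := Nat.mul_le_mul_left (r * (r + 1)) (show r - 1 ≤ 2 * k by omega)
      nlinarith [hpsl]

/-- Over a prime field there are no proper subgroups of subfield type. -/
lemma gen_prime_eq_top {M : Subgroup PSL(2, F)} {r k : ℕ} (hG : Gen M r k)
    (hF : Fintype.card F = q) (hq : q.Prime) : M = ⊤ := by
  obtain ⟨K, -, hrm, hm, -, -, -, htop⟩ := gen_facts hG hF
  refine htop ?_
  have hr : r ∣ q := hrm ▸ dvd_pow_self r (by omega)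
  rcases (Nat.dvd_prime hq).1 hr with h | h
  · rw [h, one_pow] at hrm; exact absurd hrm.symm hq.ne_one
  · exact h

lemma two_mul_card_psl (hF : Fintype.card F = q) (hodd : q % 2 = 1) :
    2 * Nat.card PSL(2, F) = q * (q ^ 2 - 1) := by
  have hq2 : 2 ≤ q := hF ▸ Fintype.one_lt_card
  have h := card_psl2_mul (F := F) hF
  rw [Nat.gcd_eq_left (show 2 ∣ q - 1 by omega)] at h
  omega

lemma ne_top_of_card_lt {G : Type*} [Group G] [Finite G] {H : Subgroup G}
    (h : Nat.card H < Nat.card G) : H ≠ ⊤ := fun e => by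
  rw [e, Subgroup.card_top] at h; omega

lemma lt_card_psl (hF : Fintype.card F = q) (hodd : q % 2 = 1) {B n : ℕ} (hn : n ≤ q)
    (hB : 2 * B < n * (n ^ 2 - 1)) : B < Nat.card PSL(2, F) := by
  have := two_mul_card_psl hF hodd
  have := Nat.mul_le_mul hn (Nat.sub_le_sub_right (Nat.pow_le_pow_left hn 2) 1)
  omega

lemma card_pslMap_range {K : Type*} [Field K] (ι : K →+* F) :
    Nat.card (pslMap ι).range = Nat.card PSL(2, K) :=
  Nat.card_congr (MonoidHom.ofInjective (pslMap_injective ι)).symm.toEquiv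

/-- The field of a subgroup of subfield type sees every subfield subgroup inside it. -/
lemma field_le_of_trace {K : Type*} [Field K] [Finite K] (ι : K →+* F) (L : Subfield F)
    (c : PSL(2, F)) {M : Subgroup PSL(2, F)} (hle : cj c (pslMap ι).range ≤ M)
    (htr : ∀ g : SL(2, F), π g ∈ M → tr g ^ 2 ∈ L) (x : K) : ι x ∈ L := by
  have hsq : ∀ x : K, ι x ^ 2 ∈ L := by
    intro x
    obtain ⟨d, rfl⟩ := π_surjective c
    have hmem : π (d * SpecialLinearGroup.map ι (comp x) * d⁻¹) ∈ M := by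
      refine hle ?_
      rw [map_mul, map_mul, map_inv]
      exact Subgroup.mem_map_of_mem (MulAut.conj (π d)).toMonoidHom ⟨π (comp x), pslMap_π _ _⟩
    have h := htr _ hmem
    rw [tr_conj] at h
    have e : tr (SpecialLinearGroup.map ι (comp x)) = ι x := by simp [tr, H6.comp]
    rwa [e] at h
  by_cases h2 : (2 : K) = 0
  · have : CharP K 2 := (CharP.charP_iff_prime_eq_zero Nat.prime_two).2 (by exact_mod_cast h2)
    have := Fintype.ofFinite K
    obtain ⟨y, rfl⟩ := (bijective_frobenius K 2).surjective x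
    rw [frobenius_def, map_pow]
    exact hsq y
  · have e : x = ((x + 1) ^ 2 - x ^ 2 - 1) / 2 := by field_simp; ring
    rw [e, map_div₀, map_sub, map_sub, map_one, map_pow, map_pow, map_ofNat]
    exact div_mem (sub_mem (sub_mem (hsq _) (hsq _)) (one_mem _)) (ofNat_mem _ 2)

end Cfsg.Agent.H79.PSLTwoMax
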