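import Cfsg.Agent.H79.PSLTwoMax.AltFive

/-!
# The types of maximal subgroups of `PSL₂(q)`
-/

set_option autoImplicit false

open Matrix MatrixGroups

namespace Cfsg.Agent.H79.PSLTwoMax

open Cfsg.Agent.H6

variable {F : Type*} [Field F] [Fintype F] {q : ℕ}

/-- A coatom cannot be a Sylow subgroup of a larger proper subgroup. -/
lemma not_coatom_of_sylow {G : Type*} [Group G] [Finite G] {D H : Subgroup G} (hD : IsCoatom D)
    (ℓ n : ℕ) [Fact ℓ.Prime] (hDc : Nat.card D = ℓ ^ n) (hidx : ¬ ℓ ∣ D.index)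
    (hd : Nat.card D ∣ Nat.card H) (hlt : Nat.card D < Nat.card H)
    (hH : Nat.card H < Nat.card G) : False := by
  obtain ⟨P, hP⟩ := Sylow.exists_subgroup_card_pow_prime (G := H) ℓ (n := n) (hDc ▸ hd)
  set P' := P.map H.subtype
  have hP' : Nat.card P' = ℓ ^ n := by
    rw [Subgroup.card_map_of_injective H.subtype_injective, hP]
  have hidx' : ¬ ℓ ∣ P'.index := by
    have h1 := D.card_mul_index
    rw [← P'.card_mul_index, hP', hDc] at h1
    rwa [← Nat.eq_of_mul_eq_mul_left (pow_pos (Fact.out : ℓ.Prime).pos n) h1]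
  let S := (IsPGroup.of_card hDc).toSylow hidx
  let T := (IsPGroup.of_card hP').toSylow hidx'
  obtain ⟨g, hg⟩ := MulAction.exists_smul_eq G S T
  have e : D.map (MulAut.conj g).toMonoidHom = P' :=
    congrArg (fun X : Sylow ℓ G => (X : Subgroup G)) hg
  have hcoat : IsCoatom P' := e ▸ isCoatom_map (MulAut.conj g) hD
  have hle : P' ≤ H := Subgroup.map_subtype_le P
  have := eq_of_coatom_le hcoat hle (ne_top_of_card_lt hH)
  rw [← this, hP', ← hDc] at hlt
  omega

/-- A coatom of order `2ℓ` normalising a Sylow `ℓ`-subgroup is excluded by a suitable overgroup. -/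
lemma not_coatom_of_normalizer {G : Type*} [Group G] [Finite G] {D H T : Subgroup G}
    (hD : IsCoatom D) (ℓ : ℕ) [Fact ℓ.Prime] (hT : Nat.card T = ℓ) (hidx : ¬ ℓ ∣ T.index)
    (hN : Subgroup.normalizer (T : Set G) = D) (hDc : Nat.card D = 2 * ℓ)
    (hd : ℓ ∣ Nat.card H) (hmod : (Nat.card H / ℓ) % ℓ ≠ 1) (hlt : 2 * ℓ < Nat.card H)
    (hH : Nat.card H < Nat.card G) : False := by
  obtain ⟨P, hP⟩ := Sylow.exists_subgroup_card_pow_prime (G := H) ℓ (n := 1) (by rwa [pow_one])
  rw [pow_one] at hP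
  set P' := P.map H.subtype with hP'def
  have hP' : Nat.card P' = ℓ := by rw [Subgroup.card_map_of_injective H.subtype_injective, hP]
  have hidx' : ¬ ℓ ∣ P'.index := by
    have h1 := T.card_mul_index
    rw [← P'.card_mul_index, hP', hT] at h1
    rwa [← Nat.eq_of_mul_eq_mul_left (Fact.out : ℓ.Prime).pos h1]
  let S := (IsPGroup.of_card (n := 1) (hT.trans (pow_one ℓ).symm)).toSylow hidx
  let S' := (IsPGroup.of_card (n := 1) (hP'.trans (pow_one ℓ).symm)).toSylow hidx'
  obtain ⟨g, hg⟩ := MulAction.exists_smul_eq G S S'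
  have e : T.map (MulAut.conj g).toMonoidHom = P' :=
    congrArg (fun X : Sylow ℓ G => (X : Subgroup G)) hg
  set N := Subgroup.normalizer (P' : Set G)
  have hND : N = D.map (MulAut.conj g).toMonoidHom := by
    rw [← hN, Subgroup.map_equiv_normalizer_eq T (MulAut.conj g)]
    show Subgroup.normalizer (P' : Set G) = Subgroup.normalizer ((T.map (MulAut.conj g).toMonoidHom : Subgroup G) : Set G)
    rw [e]
  have hcoat : IsCoatom N := hND ▸ isCoatom_map (MulAut.conj g) hD
  have hNc : Nat.card N = 2 * ℓ := by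
    rw [hND, Subgroup.card_map_of_injective (MulEquiv.injective _), hDc]
  set NH := Subgroup.normalizer (P : Set H)
  have hle : NH.map H.subtype ≤ N := by
    exact Subgroup.le_normalizer_map (H := P) H.subtype
  have hNHd : Nat.card NH ∣ 2 * ℓ := by
    have e0 : Nat.card (NH.map H.subtype) = Nat.card NH :=
      Subgroup.card_map_of_injective H.subtype_injective
    rw [← hNc, ← e0]
    exact Subgroup.card_dvd_of_le hle
  have hPd : ℓ ∣ Nat.card NH := hP ▸ Subgroup.card_dvd_of_le Subgroup.le_normalizer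
  obtain ⟨i, hi⟩ := hPd
  rw [hi, mul_comm 2 ℓ] at hNHd
  have hi2 := Nat.dvd_of_mul_dvd_mul_left (Fact.out : ℓ.Prime).pos hNHd
  rcases (Nat.dvd_prime Nat.prime_two).1 hi2 with rfl | rfl
  · -- the number of Sylow subgroups of `H` would be `|H| / ℓ`
    have hPi : ¬ ℓ ∣ P.index := by
      intro h
      apply hidx'
      have h1 := P.card_mul_index
      rw [hP] at h1
      have h2 : ℓ * ℓ ∣ Nat.card G :=
        (h1 ▸ Nat.mul_dvd_mul_left ℓ h).trans H.card_subgroup_dvd_card
      rw [← P'.card_mul_index, hP'] at h2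
      exact Nat.dvd_of_mul_dvd_mul_left (Fact.out : ℓ.Prime).pos h2
    let Q := (IsPGroup.of_card (n := 1) (hP.trans (pow_one ℓ).symm)).toSylow hPi
    have hmod' : Nat.card (Sylow ℓ H) % ℓ = 1 := by
      have := card_sylow_modEq_one ℓ H
      unfold Nat.ModEq at this
      rwa [Nat.one_mod_eq_one.2 (Fact.out : ℓ.Prime).ne_one] at this
    rw [Sylow.card_eq_index_normalizer Q] at hmod'
    change NH.index % ℓ = 1 at hmod'
    have h3 := NH.card_mul_index
    rw [hi, mul_one] at h3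
    apply hmod
    rw [← h3, Nat.mul_div_cancel_left _ (Fact.out : ℓ.Prime).pos]
    exact hmod'
  · have e1 : NH.map H.subtype = N := Subgroup.eq_of_le_of_card_ge hle (by
      rw [hNc, Subgroup.card_map_of_injective H.subtype_injective, hi, mul_comm])
    have hNle : N ≤ H := e1 ▸ Subgroup.map_subtype_le NH
    have := eq_of_coatom_le hcoat hNle (ne_top_of_card_lt hH)
    rw [← this, hNc] at hlt
    omega

/-- The small dihedral exceptions are not maximal. -/
lemma small_torDih_not_coatom (hF : Fintype.card F = q) {g : SL(2, F)} (ht : tr g ^ 2 ≠ 4)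
    (h : (2 * Nat.card (tor g) = q - 1 ∧ (q = 5 ∨ q = 7 ∨ q = 9 ∨ q = 11)) ∨
      (2 * Nat.card (tor g) = q + 1 ∧ (q = 7 ∨ q = 9))) : ¬ IsCoatom (torDih g) := by
  intro hD
  have hodd : q % 2 = 1 := by omega
  have h2 : (2 : F) ≠ 0 := two_ne_of_odd hF (Nat.odd_iff.2 hodd)
  have hpsl := two_mul_card_psl hF hodd
  have hD' := card_torDih ht
  have hN : Subgroup.normalizer ((tor g : Subgroup PSL(2, F)) : Set PSL(2, F)) = torDih g :=
    normalizer_tor ht
  have hidxD := (torDih g).card_mul_index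
  have hidxT := (tor g).card_mul_index
  have hfour : (q % 8 = 1 ∨ q % 8 = 7) → ∃ H : Subgroup PSL(2, F), Nat.card H = 24 := fun h8 => by
    obtain ⟨V, hV⟩ := exists_four (F := F) h2
    exact ⟨_, card_normalizer_four_one h2 hF h8 hV⟩
  rcases h with ⟨ht', hq⟩ | ⟨ht', hq⟩ <;> [rcases hq with rfl | rfl | rfl | rfl;
    rcases hq with rfl | rfl] <;> norm_num [-Nat.card_eq_fintype_card] at hpsl
  · -- `q = 5`, order four
    obtain ⟨V, hV⟩ := exists_four (F := F) h2
    have hH := card_normalizer_four_three h2 hF (by norm_num) hV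
    have : Fact (Nat.Prime 2) := ⟨Nat.prime_two⟩
    have hc : Nat.card (torDih g) = 2 ^ 2 := by omega
    rw [hc] at hidxD
    exact not_coatom_of_sylow (H := Subgroup.normalizer (V : Set PSL(2, F))) hD 2 2 hc (by omega) (by rw [hc, hH]; norm_num) (by omega) (by omega)
  · -- `q = 7`, order six
    obtain ⟨H, hH⟩ := hfour (by norm_num)
    have : Fact (Nat.Prime 3) := ⟨Nat.prime_three⟩
    have hc : Nat.card (tor g) = 3 := by omega
    rw [hc] at hidxT
    exact not_coatom_of_normalizer (H := H) hD 3 hc (by omega) hN (by omega) (by omega)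
      (by rw [hH]; norm_num) (by omega) (by omega)
  · -- `q = 9`, order eight
    obtain ⟨H, hH⟩ := hfour (by norm_num)
    have : Fact (Nat.Prime 2) := ⟨Nat.prime_two⟩
    have hc : Nat.card (torDih g) = 2 ^ 3 := by omega
    rw [hc] at hidxD
    exact not_coatom_of_sylow (H := H) hD 2 3 hc (by omega) (by rw [hc, hH]; norm_num) (by omega) (by omega)
  · -- `q = 11`, order ten
    obtain ⟨H, hH, -⟩ := exists_alt_five hF (by norm_num)
    have : Fact (Nat.Prime 5) := ⟨by norm_num⟩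
    have hc : Nat.card (tor g) = 5 := by omega
    rw [hc] at hidxT
    exact not_coatom_of_normalizer (H := H) hD 5 hc (by omega) hN (by omega) (by omega)
      (by rw [hH]; norm_num) (by omega) (by omega)
  · -- `q = 7`, order eight
    obtain ⟨H, hH⟩ := hfour (by norm_num)
    have : Fact (Nat.Prime 2) := ⟨Nat.prime_two⟩
    have hc : Nat.card (torDih g) = 2 ^ 3 := by omega
    rw [hc] at hidxD
    exact not_coatom_of_sylow (H := H) hD 2 3 hc (by omega) (by rw [hc, hH]; norm_num) (by omega) (by omega)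
  · -- `q = 9`, order ten
    obtain ⟨H, hH, -⟩ := exists_alt_five hF (by norm_num)
    have : Fact (Nat.Prime 5) := ⟨by norm_num⟩
    have hc : Nat.card (tor g) = 5 := by omega
    rw [hc] at hidxT
    exact not_coatom_of_normalizer (H := H) hD 5 hc (by omega) hN (by omega) (by omega)
      (by rw [hH]; norm_num) (by omega) (by omega)

variable (p : ℕ) [Fact p.Prime] [CharP F p]

lemma borel_ne_top (hF : Fintype.card F = q) : H6.borel F ≠ ⊤ := fun e => by
  have h := index_borel (F := F) hF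
  rw [e, Subgroup.index_top] at h
  have : 2 ≤ q := hF ▸ Fintype.one_lt_card
  omega

lemma coatom_ne_bot (hF : Fintype.card F = q) {M : Subgroup PSL(2, F)} (hM : IsCoatom M) :
    Nat.card M ≠ 1 := fun h => by
  have hb : M = ⊥ := Subgroup.card_eq_one.1 h
  have := eq_of_coatom_le hM (hb ▸ bot_le : M ≤ Uinf F) (fun e =>
    borel_ne_top hF (top_le_iff.1 (e ▸ Uinf_le_borel)))
  rw [this, card_Uinf] at h
  exact Fintype.one_lt_card.ne' h

lemma torDih_ne_top (hF : Fintype.card F = q) (h3 : 3 ≤ q) {g : SL(2, F)} (ht : tr g ^ 2 ≠ 4) :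
    torDih g ≠ ⊤ := by
  intro e
  have h := card_torDih ht
  rw [e, Subgroup.card_top] at h
  have h2 := card_tor_mul hF g
  have hpsl := card_psl2_mul (F := F) hF
  rw [h, mul_assoc, h2, sq_sub_one_eq] at hpsl
  have h6 : 3 * ((q + 1) * 2) ≤ q * ((q + 1) * (q - 1)) :=
    Nat.mul_le_mul h3 (Nat.mul_le_mul_left _ (by omega))
  rcases card_cent_ss ht with ⟨-, e'⟩ | ⟨-, e'⟩ <;> rw [e', hF] at hpsl <;> omega

/-- The subfield case: only prime index subfields give maximal subgroups. -/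
theorem maximal_gen {a : ℕ} (hF : Fintype.card F = p ^ a) {M : Subgroup PSL(2, F)} (hM : IsCoatom M)
    {r k : ℕ} (hG : Gen M r k) :
    (∃ (F₀ : Type) (_ : Field F₀) (_ : Fintype F₀), Fintype.card F₀ = r ∧
      Fintype.card F = r ^ 2 ∧ k + 1 = r ∧ Nonempty (M ≃* PGL(2, F₀))) ∨
    ∃ (F₀ : Type) (_ : Field F₀) (_ : Fintype F₀) (m : ℕ), m.Prime ∧ Fintype.card F₀ = r ∧
      Fintype.card F = r ^ m ∧
      ((2 * k + 1 = r ∧ m ≠ 2 ∧ Nonempty (M ≃* PSL(2, F₀))) ∨
       (k + 1 = r ∧ Nonempty (M ≃* PGL(2, F₀)) ∧ ∀ i, m = i → (r % 2 = 1 → m = 2))) := by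
  classical
  obtain ⟨K, ψ, hKr, hK⟩ := gen_range hG
  obtain ⟨-, -, -, hk1, hkr, -, -, -⟩ := id hG
  have hp : p.Prime := Fact.out
  have := Fintype.ofFinite K
  have hKc : Fintype.card K = r := by rw [← hKr, Nat.card_eq_fintype_card]
  set m := Module.finrank K F with hmdef
  have hFm : Fintype.card F = r ^ m := by rw [Module.card_eq_pow_finrank (K := K), hKc]
  obtain ⟨f, -, hf⟩ := FiniteField.card K p
  rw [hKc] at hf
  have hfm : (f : ℕ) * m = a := by
    rw [hF, hf, ← pow_mul] at hFm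
    exact (Nat.pow_right_injective hp.two_le hFm).symm
  have hm1 : m ≠ 1 := fun h => hM.1 ((gen_facts hG rfl).elim fun K' h' =>
    h'.2.2.2.2.2.2 (by rw [hFm, h, pow_one]))
  have ha : a ≠ 0 := fun e => by
    have h1 : 1 < Fintype.card F := Fintype.one_lt_card
    rw [hF, e, pow_zero] at h1; omega
  have hm0 : m ≠ 0 := fun e => ha (by rw [← hfm, e, mul_zero])
  obtain ⟨F₀, _, _, ⟨φ⟩⟩ := exists_ringEquiv_type (K := K)
  have hF₀ : Fintype.card F₀ = r := (Fintype.card_congr φ.toEquiv).symm.trans hKc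
  have htop : ∀ S : Subgroup PSL(2, F), S ≠ ⊤ → S.map ψ.toMonoidHom ≠ ⊤ := fun S hne e =>
    hne (Subgroup.map_injective ψ.injective (e.trans
      (Subgroup.map_top_of_surjective ψ.toMonoidHom ψ.surjective).symm))
  have hr3 : 3 ≤ r := by omega
  -- an intermediate field
  have hmid : ∀ s : ℕ, s.Prime → s ∣ m → s ≠ m → ∃ (L : Type) (_ : Field L) (_ : Fintype L)
      (κ : L →+* F), Fintype.card L = r ^ (m / s) ∧ r * r ≤ Fintype.card L ∧
        Fintype.card F = Fintype.card L ^ s ∧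
        (∀ x : K, ∃ y, κ y = K.subtype x) ∧
        ((r % 2 = 0 ∨ (m / s) % 2 = 0) → ∀ x : K, ∃ y, κ (y * y) = K.subtype x) := by
    intro s hs hsm hne
    obtain ⟨u, hu⟩ := hsm
    have hu0 : u ≠ 0 := fun e => hm0 (by rw [hu, e, mul_zero])
    have hu1 : u ≠ 1 := fun e => hne (by rw [hu, e, mul_one])
    obtain ⟨_, κ, hL⟩ := exists_galois_emb (F := F) p hF (j := (f : ℕ) * u)
      ⟨s, by rw [← hfm, hu]; ring⟩ (Nat.mul_ne_zero f.ne_zero hu0) ha
    have hLr : Fintype.card (GaloisField p ((f : ℕ) * u)) = r ^ u := by rw [hL, hf, ← pow_mul]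
    have hdiv : m / s = u := by rw [hu, Nat.mul_div_cancel_left _ hs.pos]
    have hmem : ∀ x : K, ∃ y, κ y = K.subtype x := fun x => mem_range_of_pow κ (by
      rw [hLr, ← hKc, ← map_pow, FiniteField.pow_card_pow])
    refine ⟨_, inferInstance, inferInstance, κ, by rw [hdiv]; exact hLr, ?_, ?_, hmem, ?_⟩
    · rw [hLr, ← sq]; exact Nat.pow_le_pow_right (by omega) (by omega)
    · rw [hLr, ← pow_mul, hFm, hu, mul_comm]
    · intro hev x
      obtain ⟨τ, hτ⟩ := exists_factor K.subtype κ hmem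
      have hsq : IsSquare (τ x) := by
        rcases hev with h | h
        · have hc : ringChar (GaloisField p ((f : ℕ) * u)) = 2 := by
            rw [ringChar.eq (GaloisField p ((f : ℕ) * u)) p]
            rcases hp.eq_two_or_odd with e | e
            · exact e
            · rw [hf, Nat.pow_mod, e, one_pow] at h; simp at h
          exact FiniteField.isSquare_of_char_two hc _
        · rw [hdiv] at h
          exact isSquare_of_even_degree (i := u / 2) τ (by rw [hLr, hKc]; congr 1; omega) x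
      obtain ⟨y, hy⟩ := hsq
      exact ⟨y, by rw [← hy, hτ]⟩
  have hcardpgl : ∀ L : Type, [Field L] → [Fintype L] → r * r ≤ Fintype.card L →
      r * (r ^ 2 - 1) < Nat.card PSL(2, L) := by
    intro L _ _ hL
    have h1 := card_psl2_mul (F := L) rfl
    have h2 := Nat.mul_le_mul_left (Nat.card PSL(2, L)) (Nat.gcd_le_left (Fintype.card L - 1) two_pos)
    have h3 : 3 * r ≤ r * r := Nat.mul_le_mul_right _ hr3
    have h4 : r ^ 2 - 1 ≤ Fintype.card L ^ 2 - 1 :=
      Nat.sub_le_sub_right (Nat.pow_le_pow_left (by omega) 2) 1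
    have h5 : 8 ≤ r ^ 2 - 1 := by have := Nat.pow_le_pow_left hr3 2; omega
    have h6 : 2 * (r * (r ^ 2 - 1)) < Fintype.card L * (Fintype.card L ^ 2 - 1) := by
      calc 2 * (r * (r ^ 2 - 1)) = (2 * r) * (r ^ 2 - 1) := by ring
        _ < Fintype.card L * (r ^ 2 - 1) := Nat.mul_lt_mul_of_pos_right (by omega) (by omega)
        _ ≤ _ := Nat.mul_le_mul_left _ h4
    omega
  have hLtop : ∀ (L : Type) [Field L] [Fintype L] (κ : L →+* F) (s : ℕ), 2 ≤ s →
      Fintype.card F = Fintype.card L ^ s → (pslMap κ).range ≠ ⊤ := by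
    intro L _ _ κ s hs hFL e
    have h1 := congrArg (fun S : Subgroup PSL(2, F) => Nat.card S) e
    simp only [card_pslMap_range, Subgroup.card_top] at h1
    have h2 := card_psl2_mul (F := F) rfl
    have h3 := card_psl2_mul (F := L) rfl
    have hL2 : 2 ≤ Fintype.card L := Fintype.one_lt_card
    rw [← h1] at h2
    have h4 := Nat.mul_le_mul_left (Nat.card PSL(2, L)) (Nat.gcd_le_left (Fintype.card F - 1) two_pos)
    have h5 : Nat.card PSL(2, L) * 1 ≤ Nat.card PSL(2, L) * Nat.gcd 2 (Fintype.card L - 1) :=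
      Nat.mul_le_mul_left _ (Nat.gcd_pos_of_pos_left _ two_pos)
    rcases lt_pow_card hL2 hs with h' | h'
    · rw [← hFL] at h'; omega
    · rw [hFL, h'] at h2 h4
      rw [h'] at h3
      have : 4 * 15 ≤ 2 ^ s * ((2 ^ s) ^ 2 - 1) := Nat.mul_le_mul
        (show 4 ≤ 2 ^ s from le_trans (by norm_num) (Nat.pow_le_pow_right two_pos hs))
        (by have := Nat.pow_le_pow_left (show 4 ≤ 2 ^ s from le_trans (by norm_num)
              (Nat.pow_le_pow_right two_pos hs)) 2; omega)
      norm_num [-Nat.card_eq_fintype_card] at h3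
      omega
  obtain ⟨e'⟩ : Nonempty (PSL(2, K) ≃* PSL(2, F₀)) := ⟨pslEquiv φ⟩
  rcases hK with ⟨hk, hMeq⟩ | ⟨hk, hsq, hMeq⟩
  · right
    obtain ⟨e⟩ := nonempty_equiv_map ψ (pslMap K.subtype).range
    have hiso : Nonempty (M ≃* PSL(2, F₀)) := ⟨(((MulEquiv.subgroupCongr hMeq).trans e).trans
      (MonoidHom.ofInjective (pslMap_injective _)).symm).trans e'⟩
    obtain ⟨s, hs, hsm⟩ := Nat.exists_prime_and_dvd hm1
    have hprime : m.Prime := by
      by_contra hne
      have hne' : s ≠ m := fun e => hne (e ▸ hs)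
      obtain ⟨L, _, _, κ, -, hbig, hFL, hmem, -⟩ := hmid s hs hsm hne'
      have hle : M ≤ ((pslMap κ).range).map ψ.toMonoidHom :=
        hMeq ▸ Subgroup.map_mono (pslMap_range_mono _ κ hmem)
      have h1 := eq_of_coatom_le hM hle (htop _ (hLtop L κ s hs.two_le hFL))
      have h2 := congrArg (fun S : Subgroup PSL(2, F) => Nat.card S)
        (Subgroup.map_injective ψ.injective (hMeq.symm.trans h1))
      simp only [card_pslMap_range] at h2
      have h3 := hcardpgl L hbig
      have h4 := card_psl2_mul (F := K) hKc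
      have h5 : Nat.card PSL(2, K) * 1 ≤ Nat.card PSL(2, K) * Nat.gcd 2 (r - 1) :=
        Nat.mul_le_mul_left _ (Nat.gcd_pos_of_pos_left _ two_pos)
      omega
    refine ⟨F₀, inferInstance, inferInstance, m, hprime, hF₀, hFm, Or.inl ⟨hk, ?_, hiso⟩⟩
    intro hm2
    have hsq := isSquare_of_even_degree (i := 1) K.subtype (by rw [hFm, hKc, hm2])
    have hle : M ≤ ((pglMap K.subtype hsq).range).map ψ.toMonoidHom :=
      hMeq ▸ Subgroup.map_mono (pslMap_range_le_pglMap _ hsq)
    have h2ne : (2 : F) ≠ 0 := two_ne_of_odd hFm (Nat.odd_iff.2 (by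
      rw [Nat.pow_mod, show r % 2 = 1 by omega, one_pow] <;> rfl))
    have h1 := eq_of_coatom_le hM hle
      (htop _ (pglMap_range_ne_top _ hsq le_rfl h2ne (by rw [hFm, hKc, hm2])))
    have h2 := congrArg (fun S : Subgroup PSL(2, F) => Nat.card S)
      (Subgroup.map_injective ψ.injective (hMeq.symm.trans h1))
    simp only [card_pslMap_range, card_pglMap_range, hKc] at h2
    have h4 := two_mul_card_psl (F := K) hKc (by omega)
    have : 0 < Nat.card PSL(2, K) := Nat.card_pos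
    omega
  · obtain ⟨e⟩ := nonempty_equiv_map ψ (pglMap K.subtype hsq).range
    have hiso : Nonempty (M ≃* PGL(2, F₀)) := ⟨(((MulEquiv.subgroupCongr hMeq).trans e).trans
      (MonoidHom.ofInjective (pglMap_injective _ hsq)).symm).trans (pglEquiv φ)⟩
    have hev : r % 2 = 1 → m % 2 = 0 := by
      intro hr
      have hodd : Odd (r ^ m) := (Nat.odd_iff.2 hr).pow
      have := (S0805.result (K := K) hFm hodd m (by omega) (by rw [hKc])).2.1
        ⟨M, ⟨(((MulEquiv.subgroupCongr hMeq).trans e).trans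
          (MonoidHom.ofInjective (pglMap_injective _ hsq)).symm)⟩⟩
      exact Nat.even_iff.1 this
    have hexcl : ∀ s : ℕ, s.Prime → s ∣ m → s ≠ m → (r % 2 = 0 ∨ (m / s) % 2 = 0) → False := by
      intro s hs hsm hne hevs
      obtain ⟨L, _, _, κ, -, hbig, hFL, -, hsqs⟩ := hmid s hs hsm hne
      have hle : M ≤ ((pslMap κ).range).map ψ.toMonoidHom :=
        hMeq ▸ Subgroup.map_mono (pglMap_range_le_pslMap _ hsq κ (hsqs hevs))
      have h1 := eq_of_coatom_le hM hle (htop _ (hLtop L κ s hs.two_le hFL))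
      have h2 := congrArg (fun S : Subgroup PSL(2, F) => Nat.card S)
        (Subgroup.map_injective ψ.injective (hMeq.symm.trans h1))
      simp only [card_pslMap_range, card_pglMap_range, hKc] at h2
      have h3 := hcardpgl L hbig
      omega
    by_cases hm2 : m = 2
    · exact Or.inl ⟨F₀, inferInstance, inferInstance, hF₀, by rw [hFm, hm2], hk, hiso⟩
    right
    rcases Nat.mod_two_eq_zero_or_one r with hr | hr
    · have hprime : m.Prime := by
        obtain ⟨s, hs, hsm⟩ := Nat.exists_prime_and_dvd hm1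
        by_contra hne
        exact hexcl s hs hsm (fun e => hne (e ▸ hs)) (Or.inl hr)
      exact ⟨F₀, inferInstance, inferInstance, m, hprime, hF₀, hFm,
        Or.inr ⟨hk, hiso, fun i _ h => by omega⟩⟩
    · exfalso
      obtain ⟨b, hb⟩ : ∃ b, m = 2 * b := ⟨m / 2, by have := hev hr; omega⟩
      have hb1 : b ≠ 1 := fun e => hm2 (by rw [hb, e])
      by_cases hbe : b % 2 = 0
      · exact hexcl 2 Nat.prime_two ⟨b, hb⟩ (fun e => hm2 e.symm) (Or.inr (by
          rw [hb, Nat.mul_div_cancel_left _ two_pos]; exact hbe))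
      · obtain ⟨s, hs, c, rfl⟩ := Nat.exists_prime_and_dvd hb1
        refine hexcl s hs ⟨2 * c, by rw [hb]; ring⟩ (fun e => ?_) (Or.inr ?_)
        · have := hs.pos
          have hc : 1 * s ≤ c * s := Nat.mul_le_mul_right s (Nat.pos_of_ne_zero fun e' => hm0 (by
            rw [hb, e', mul_zero, mul_zero]))
          rw [mul_comm s c] at hb
          omega
        · rw [hb, show 2 * (s * c) = s * (2 * c) by ring, Nat.mul_div_cancel_left _ hs.pos]
          omega

/-- Maximal subgroups of `PSL₂(q)`, `q` odd. -/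
theorem maximal_odd (hF : Fintype.card F = q) (hodd : Odd q) (h5 : 5 ≤ q)
    (M : Subgroup PSL(2, F)) (hM : IsCoatom M) :
    2 * Nat.card M = q * (q - 1) ∨
    (13 ≤ q ∧ (∃ k : ℕ, 2 * k = q - 1 ∧ Nonempty (M ≃* DihedralGroup k))) ∨
    (q ≠ 7 ∧ q ≠ 9 ∧ (∃ k : ℕ, 2 * k = q + 1 ∧ Nonempty (M ≃* DihedralGroup k))) ∨
    (∃ (F₀ : Type) (_ : Field F₀) (_ : Fintype F₀), q = Fintype.card F₀ ^ 2 ∧
        Nonempty (M ≃* PGL(2, F₀))) ∨
    (∃ (F₀ : Type) (_ : Field F₀) (_ : Fintype F₀) (r : ℕ), r.Prime ∧ Odd r ∧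
        q = Fintype.card F₀ ^ r ∧ Nonempty (M ≃* PSL(2, F₀))) ∨
    ((q % 10 = 1 ∨ q % 10 = 9) ∧ (q = p ∨ (q = p ^ 2 ∧ (p % 10 = 3 ∨ p % 10 = 7))) ∧
        Nonempty (M ≃* alternatingGroup (Fin 5))) ∨
    (q = p ∧ (p % 8 = 3 ∨ p % 8 = 5) ∧ ¬ (p % 10 = 1 ∨ p % 10 = 9) ∧
        Nonempty (M ≃* alternatingGroup (Fin 4))) ∨
    (q = p ∧ (p % 8 = 1 ∨ p % 8 = 7) ∧ Nonempty (M ≃* Equiv.Perm (Fin 4))) := by
  classical
  have hp : p.Prime := Fact.out
  obtain ⟨a, -, hq⟩ := FiniteField.card F p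
  rw [hF] at hq
  have hqo := Nat.odd_iff.1 hodd
  have hp2 : p ≠ 2 := fun e => by
    have : 2 ∣ q := by rw [hq, e]; exact dvd_pow_self 2 a.ne_zero
    omega
  have hg2 : Nat.gcd 2 (q - 1) = 2 := Nat.gcd_eq_left (by omega)
  obtain ⟨c, hc⟩ := exists_outcome p M
  obtain ⟨e⟩ := cjEquiv_exists c M
  have hcM : IsCoatom (cj c M) := isCoatom_map (MulAut.conj c) hM
  cases hc with
  | triv h => exact absurd h (coatom_ne_bot hF hcM)
  | dih h =>
    obtain ⟨g, ht, hle⟩ := h
    have heq := eq_of_coatom_le hcM hle (torDih_ne_top hF (by omega) ht)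
    obtain ⟨ed⟩ := nonempty_torDih_equiv ht
    have hiso : Nonempty (M ≃* DihedralGroup (Nat.card (tor g))) :=
      ⟨(e.trans (MulEquiv.subgroupCongr heq)).trans ed⟩
    have hns := fun h => small_torDih_not_coatom hF ht h (heq ▸ hcM)
    have h2 := card_tor_mul hF g
    rw [hg2] at h2
    rcases card_cent_ss ht with ⟨-, e'⟩ | ⟨-, e'⟩ <;> rw [e', hF] at h2
    · refine Or.inr (Or.inl ⟨?_, _, by omega, hiso⟩)
      by_contra h13
      exact hns (Or.inl ⟨by omega, by omega⟩)
    · exact Or.inr (Or.inr (Or.inl ⟨fun e => hns (Or.inr ⟨by omega, Or.inl e⟩),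
        fun e => hns (Or.inr ⟨by omega, Or.inr e⟩), _, by omega, hiso⟩))
  | bor h =>
    obtain ⟨d, hd⟩ := h
    have heq := eq_of_coatom_le (isCoatom_map (MulAut.conj d) hcM) hd (borel_ne_top hF)
    left
    have h1 := card_borel_mul (F := F) hF
    rw [hg2] at h1
    have h2 : Nat.card M = Nat.card (H6.borel F) := by
      rw [← heq, Subgroup.card_map_of_injective (MulEquiv.injective _), card_cj]
    omega
  | a4 h h' =>
    rcases maximal_alt_four p (hF.trans hq) hp2 (hq ▸ h5) hcM h' with ⟨ha, h1, h2⟩ |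
      ⟨F₀, _, _, r, hr, hro, hc', hiso⟩
    · exact Or.inr (Or.inr (Or.inr (Or.inr (Or.inr (Or.inr (Or.inl
        ⟨by rw [hq, ha, pow_one], h1, h2, h'.map e.trans⟩))))))
    · exact Or.inr (Or.inr (Or.inr (Or.inr (Or.inl
        ⟨F₀, inferInstance, inferInstance, r, hr, hro, hF ▸ hc', hiso.map e.trans⟩))))
  | s4 h h' _ =>
    rcases maximal_perm_four p (hF.trans hq) hp2 a.ne_zero hcM h' with ⟨ha, h1⟩ |
      ⟨F₀, _, _, hc', hiso⟩ | ⟨F₀, _, _, r, hr, hro, hc', hiso⟩
    · exact Or.inr (Or.inr (Or.inr (Or.inr (Or.inr (Or.inr (Or.inr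
        ⟨by rw [hq, ha, pow_one], h1, h'.map e.trans⟩))))))
    · exact Or.inr (Or.inr (Or.inr (Or.inl
        ⟨F₀, inferInstance, inferInstance, hF ▸ hc', hiso.map e.trans⟩)))
    · exact Or.inr (Or.inr (Or.inr (Or.inr (Or.inl
        ⟨F₀, inferInstance, inferInstance, r, hr, hro, hF ▸ hc', hiso.map e.trans⟩))))
  | a5 h h' hp3 =>
    have hp5 : p ≠ 5 := fun e' => by
      have := hp3 (by rw [h, e']; norm_num)
      omega
    rcases maximal_alt_five p (hF.trans hq) hp2 hp5 hcM h' a.ne_zero with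
      (⟨ha, h1⟩ | ⟨ha, h1⟩) | ⟨F₀, _, _, r, hr, hro, hc', hiso⟩
    · have hqp : q = p := by rw [hq, ha, pow_one]
      exact Or.inr (Or.inr (Or.inr (Or.inr (Or.inr (Or.inl
        ⟨hqp ▸ h1, Or.inl hqp, h'.map e.trans⟩)))))
    · have hqp : q = p ^ 2 := by rw [hq, ha]
      exact Or.inr (Or.inr (Or.inr (Or.inr (Or.inr (Or.inl
        ⟨by right; rw [hqp, Nat.pow_mod]; rcases h1 with h1 | h1 <;> rw [h1],
          Or.inr ⟨hqp, h1⟩, h'.map e.trans⟩)))))
    · exact Or.inr (Or.inr (Or.inr (Or.inr (Or.inl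
        ⟨F₀, inferInstance, inferInstance, r, hr, hro, hF ▸ hc', hiso.map e.trans⟩))))
  | gen h =>
    obtain ⟨r, k, hG⟩ := h
    rcases maximal_gen p (hF.trans hq) hcM hG with ⟨F₀, _, _, hr, hFr, -, hiso⟩ |
      ⟨F₀, _, _, m, hm, hr, hFr, ⟨-, hm2, hiso⟩ | ⟨hk, hiso, himp⟩⟩
    · exact Or.inr (Or.inr (Or.inr (Or.inl
        ⟨F₀, inferInstance, inferInstance, by rw [hr, ← hFr, hF], hiso.map e.trans⟩)))
    · exact Or.inr (Or.inr (Or.inr (Or.inr (Or.inl ⟨F₀, inferInstance, inferInstance, m, hm,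
        hm.odd_of_ne_two hm2, by rw [hr, ← hFr, hF], hiso.map e.trans⟩))))
    · have hro : r % 2 = 1 := by
        by_contra hr0
        have : 2 ∣ q := by
          rw [← hF, hFr]
          exact (show 2 ∣ r by omega).trans (dvd_pow_self r hm.ne_zero)
        omega
      have := himp m rfl hro
      subst this
      exact Or.inr (Or.inr (Or.inr (Or.inl
        ⟨F₀, inferInstance, inferInstance, by rw [hr, ← hFr, hF], hiso.map e.trans⟩)))

/-- Maximal subgroups of `PSL₂(q)`, `q` even. -/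
theorem maximal_even (hF : Fintype.card F = q) (heven : Even q) (h4 : 4 ≤ q)
    (M : Subgroup PSL(2, F)) (hM : IsCoatom M) :
    Nat.card M = q * (q - 1) ∨
    Nonempty (M ≃* DihedralGroup (q - 1)) ∨
    Nonempty (M ≃* DihedralGroup (q + 1)) ∨
    (∃ (F₀ : Type) (_ : Field F₀) (_ : Fintype F₀) (r : ℕ), r.Prime ∧ Fintype.card F₀ ≠ 2 ∧
        q = Fintype.card F₀ ^ r ∧ Nonempty (M ≃* PSL(2, F₀))) := by
  classical
  obtain ⟨p, hpc⟩ := CharP.exists F
  have := Fact.mk (CharP.char_is_prime F p)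
  have hp : p.Prime := Fact.out
  obtain ⟨a, -, hq⟩ := FiniteField.card F p
  rw [hF] at hq
  have h2q := heven.two_dvd
  have hp2 : p = 2 := ((Nat.prime_dvd_prime_iff_eq Nat.prime_two hp).1
    (Nat.prime_two.dvd_of_dvd_pow (hq ▸ h2q))).symm
  subst hp2
  have hg1 : Nat.gcd 2 (q - 1) = 1 := (Nat.prime_two.coprime_iff_not_dvd).2 (by omega)
  obtain ⟨c, hc⟩ := exists_outcome 2 M
  obtain ⟨e⟩ := cjEquiv_exists c M
  have hcM : IsCoatom (cj c M) := isCoatom_map (MulAut.conj c) hM
  have hborel : ∀ d : PSL(2, F), cj d (cj c M) ≤ H6.borel F → Nat.card M = q * (q - 1) := by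
    intro d hd
    have heq := eq_of_coatom_le (isCoatom_map (MulAut.conj d) hcM) hd (borel_ne_top hF)
    have h1 := card_borel_mul (F := F) hF
    rw [hg1, mul_one] at h1
    rw [← h1, ← heq, Subgroup.card_map_of_injective (MulEquiv.injective _), card_cj]
  cases hc with
  | triv h => exact absurd h (coatom_ne_bot hF hcM)
  | dih h =>
    obtain ⟨g, ht, hle⟩ := h
    have heq := eq_of_coatom_le hcM hle (torDih_ne_top hF (by omega) ht)
    obtain ⟨ed⟩ := nonempty_torDih_equiv ht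
    have hiso := (e.trans (MulEquiv.subgroupCongr heq)).trans ed
    have h2 := card_tor_mul hF g
    rw [hg1, mul_one] at h2
    rcases card_cent_ss ht with ⟨-, e'⟩ | ⟨-, e'⟩ <;> rw [e', hF] at h2
    · exact Or.inr (Or.inl ⟨h2 ▸ hiso⟩)
    · exact Or.inr (Or.inr (Or.inl ⟨h2 ▸ hiso⟩))
  | bor h =>
    obtain ⟨d, hd⟩ := h
    exact Or.inl (hborel d hd)
  | a4 h h' =>
    left
    obtain ⟨V, hV, hle⟩ := exists_four_alt h'
    obtain ⟨x, hx, hx1⟩ := H29.exists_ne_one_of_one_lt_card (A := V) (by rw [hV.card_four]; norm_num)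
    have hxns : ¬ IsSS x := by
      intro hs
      refine not_dvd_card_mx 2 hs ?_
      have ho : orderOf x = 2 := orderOf_eq_prime (H29.sq_eq_one_of_mem_kleinFour hx) hx1
      have h' := Subgroup.orderOf_dvd_natCard _ (self_mem_mx x)
      rwa [ho] at h'
    obtain ⟨d, hd⟩ := exists_conj_Uinf hx1 hxns
    refine hborel d ?_
    rw [← normalizer_Uinf]
    intro z hz
    obtain ⟨m, hm, rfl⟩ := hz
    -- the four-group determines its maximal abelian overgroup
    have hVU : ∀ v ∈ V, v ≠ 1 → mx v = mx x := by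
      intro v hv hv1
      refine mx_eq_of_mem hx1 ?_ hv1
      have hc := H29.comm_of_mem_kleinFour hx hv
      obtain ⟨A, rfl⟩ := π_surjective x
      obtain ⟨B, rfl⟩ := π_surjective v
      rw [mx_π, mem_tor, mem_cent]
      rw [← map_mul, ← map_mul, π_eq_iff] at hc
      rcases hc with hc | hc
      · exact hc
      · rw [hc, ← neg_one_mul, neg_one_eq_one_of_two (by simpa using CharP.cast_eq_zero F 2), one_mul]
    have hmV : m * x * m⁻¹ ∈ V := (Subgroup.mem_normalizer_iff.1 (hle hm) x).1 hx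
    have hmx : (mx x).map (MulAut.conj m).toMonoidHom = mx x := by
      rw [← mx_conj]
      exact hVU _ hmV fun h => hx1 (by simpa using h)
    have hmN : m ∈ Subgroup.normalizer ((mx x : Subgroup PSL(2, F)) : Set PSL(2, F)) :=
      cj_eq_iff_mem_normalizer.1 hmx
    rw [← hd]
    exact Subgroup.le_normalizer_map (H := mx x) (MulAut.conj d).toMonoidHom
      (Subgroup.mem_map_of_mem _ hmN)
  | s4 h _ hp' => exact absurd (h ▸ (show 2 ∣ 24 by norm_num)) hp'
  | a5 h _ hp' => exact absurd (hp' (h ▸ (show 2 ∣ 60 by norm_num))) (by norm_num)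
  | gen h =>
    obtain ⟨r, k, hG⟩ := h
    have hiso2 : ∀ (F₀ : Type) [Field F₀] [Fintype F₀], Fintype.card F₀ % 2 = 0 →
        Nonempty (PGL(2, F₀) ≃* PSL(2, F₀)) := by
      intro F₀ _ _ h
      have hinj : Function.Injective
          (ProjectiveSpecialLinearGroup.toPGL (n := Fin 2) (R := F₀)) :=
        fun x y e => pslMap_injective (RingHom.id F₀) (by
          have hsq : ∀ z : F₀, IsSquare (RingHom.id F₀ z) := fun z =>
            FiniteField.isSquare_of_char_two (FiniteField.even_card_iff_char_two.2 h) _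
          rw [← pglMap_toPGL _ hsq, ← pglMap_toPGL _ hsq, e])
      have hcard : Nat.card PGL(2, F₀) ≤ Nat.card PSL(2, F₀) := by
        have h1 := card_psl2_mul (F := F₀) rfl
        rw [(Nat.prime_two.coprime_iff_not_dvd).2 (by
          have : 1 < Fintype.card F₀ := Fintype.one_lt_card
          omega), mul_one] at h1
        rw [Cfsg.Agent.H1.card_PGL, card_sl2 rfl, h1]
      have : Finite PGL(2, F₀) := Finite.of_surjective _ Matrix.ProjGenLinGroup.mk_surjective
      exact ⟨(MulEquiv.ofBijective _ (hinj.bijective_of_nat_card_le hcard)).symm⟩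
    obtain ⟨-, -, -, hk1, hkr, -, -, -⟩ := id hG
    rcases maximal_gen 2 (hF.trans hq) hcM hG with ⟨F₀, _, _, hr, hFr, -, hiso⟩ |
      ⟨F₀, _, _, m, hm, hr, hFr, ⟨hk, -, -⟩ | ⟨hk, hiso, -⟩⟩
    · have hre : r % 2 = 0 := by
        by_contra h'
        have : q % 2 = 1 := by rw [← hF, hFr, Nat.pow_mod, show r % 2 = 1 by omega] <;> rfl
        omega
      obtain ⟨e2⟩ := hiso2 F₀ (hr ▸ hre)
      obtain ⟨e1⟩ := hiso
      exact Or.inr (Or.inr (Or.inr ⟨F₀, inferInstance, inferInstance, 2, Nat.prime_two, by omega,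
        by rw [hr, ← hFr, hF], ⟨(e.trans e1).trans e2⟩⟩))
    · exfalso
      have : q % 2 = 1 := by rw [← hF, hFr, Nat.pow_mod, show r % 2 = 1 by omega, one_pow] <;> rfl
      omega
    · have hre : r % 2 = 0 := by
        by_contra h'
        have : q % 2 = 1 := by rw [← hF, hFr, Nat.pow_mod, show r % 2 = 1 by omega, one_pow] <;> rfl
        omega
      obtain ⟨e2⟩ := hiso2 F₀ (hr ▸ hre)
      obtain ⟨e1⟩ := hiso
      exact Or.inr (Or.inr (Or.inr ⟨F₀, inferInstance, inferInstance, m, hm, by omega,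
        by rw [hr, ← hFr, hF], ⟨(e.trans e1).trans e2⟩⟩))

end Cfsg.Agent.H79.PSLTwoMax
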