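import Cfsg.Agent.H79.PSLTwoMax.Basic
import Cfsg.Agent.S0805
import Cfsg.Agent.S0810

/-!
# Existence of maximal subgroups of `PSL₂(q)`
-/

set_option autoImplicit false

open Matrix MatrixGroups

namespace Cfsg.Agent.H79.PSLTwoMax

open Cfsg.Agent.H6

variable {F : Type*} [Field F] [Fintype F] {q : ℕ}

/-- In odd characteristic only the polyhedral and subfield types contain an `A₄`-configuration. -/
lemma isCoatom_of_hasA4 (p : ℕ) [Fact p.Prime] [CharP F p] (hp2 : p ≠ 2)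
    {H : Subgroup PSL(2, F)} (hH : HasA4 H) (hne : H ≠ ⊤)
    (hM : ∀ M : Subgroup PSL(2, F), Nat.card H ∣ Nat.card M → Nat.card H < Nat.card M →
      (Nat.card M = 12 → False) ∧ (Nat.card M = 24 → ¬ p ∣ 24 → False) ∧
      (Nat.card M = 60 → (p ∣ 60 → p = 3) → M = ⊤) ∧ (∀ r k, Gen M r k → M = ⊤)) :
    IsCoatom H := by
  refine isCoatom_of_outcome p hne fun c M hle hc => ?_
  by_cases hlt : Nat.card M ≤ Nat.card H
  · exact Or.inr hlt
  left
  have hHM : HasA4 M := hasA4_mono hle (hasA4_map (MulAut.conj c).toMonoidHom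
    (MulEquiv.injective _) hH)
  have hd : Nat.card H ∣ Nat.card M := card_cj c H ▸ Subgroup.card_dvd_of_le hle
  obtain ⟨h12, h24, h60, hgen⟩ := hM M hd (not_le.1 hlt)
  cases hc with
  | triv h => have := Nat.card_pos (α := H); omega
  | dih h => obtain ⟨g, ht, hg⟩ := h; exact absurd hg (not_le_torDih hHM ht)
  | bor h => obtain ⟨d, hd⟩ := h; exact absurd hd (not_cj_le_borel p hp2 hHM d)
  | a4 h _ => exact (h12 h).elim
  | s4 h _ hp => exact (h24 h (h ▸ hp)).elim
  | a5 h _ hp => exact h60 h (h ▸ hp)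
  | gen h => obtain ⟨r, k, hG⟩ := h; exact hgen r k hG

lemma card_alt_four {H : Subgroup PSL(2, F)} (h : Nonempty (H ≃* alternatingGroup (Fin 4))) :
    Nat.card H = 12 := by
  obtain ⟨e⟩ := h
  rw [Nat.card_congr e.toEquiv, nat_card_alternatingGroup, Nat.card_eq_fintype_card,
    Fintype.card_fin]
  rfl

lemma card_perm_four {H : Subgroup PSL(2, F)} (h : Nonempty (H ≃* Equiv.Perm (Fin 4))) :
    Nat.card H = 24 := by
  obtain ⟨e⟩ := h
  rw [Nat.card_congr e.toEquiv, Nat.card_perm, Nat.card_eq_fintype_card, Fintype.card_fin]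
  rfl

lemma prime_pow_unique {p a b : ℕ} (hp : p.Prime) (h : p ^ a = p ^ b) : a = b :=
  Nat.pow_right_injective hp.two_le h

lemma charP_of_card (p : ℕ) [Fact p.Prime] (hF : Fintype.card F = p) : CharP F p :=
  (CharP.charP_iff_prime_eq_zero Fact.out).2 (hF ▸ Nat.cast_card_eq_zero F)

/-- `S₄` is maximal in `PSL₂(p)` for `p ≡ ±1 (mod 8)`. -/
theorem exists_perm_four_coatom (p : ℕ) [Fact p.Prime] (hF : Fintype.card F = p)
    (hp : p % 8 = 1 ∨ p % 8 = 7) :
    ∃ H : Subgroup PSL(2, F), IsCoatom H ∧ Nonempty (H ≃* Equiv.Perm (Fin 4)) := by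
  have := charP_of_card p hF
  have hodd : p % 2 = 1 := by omega
  have h2 : (2 : F) ≠ 0 := two_ne_of_odd hF (Nat.odd_iff.2 hodd)
  obtain ⟨V, hV⟩ := exists_four (F := F) h2
  have hiso := (normalizer_four_iso hF h2 hV).1 hp
  refine ⟨_, ?_, hiso⟩
  have hc := card_perm_four hiso
  have hp7 : 7 ≤ p := by have := (Fact.out : p.Prime).two_le; omega
  refine isCoatom_of_hasA4 p (by omega) (hasA4_perm_four hiso)
    (ne_top_of_card_lt (hc ▸ lt_card_psl hF hodd hp7 (by norm_num))) fun M hd hlt => ?_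
  rw [hc] at hd hlt
  exact ⟨fun h => by omega, fun h _ => by omega, fun h _ => by omega,
    fun r k hG => gen_prime_eq_top hG hF Fact.out⟩

/-- `A₄` is maximal in `PSL₂(p)` for `p ≡ ±3 (mod 8)`, `p ≢ ±1 (mod 10)`. -/
theorem exists_alt_four_coatom (p : ℕ) [Fact p.Prime] (hF : Fintype.card F = p) (h5 : 5 ≤ p)
    (h8 : p % 8 = 3 ∨ p % 8 = 5) (h10 : p % 10 ≠ 1 ∧ p % 10 ≠ 9) :
    ∃ H : Subgroup PSL(2, F), IsCoatom H ∧ Nonempty (H ≃* alternatingGroup (Fin 4)) := by
  have := charP_of_card p hF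
  have hodd : p % 2 = 1 := by omega
  have h2 : (2 : F) ≠ 0 := two_ne_of_odd hF (Nat.odd_iff.2 hodd)
  obtain ⟨V, hV⟩ := exists_four (F := F) h2
  have hiso := (normalizer_four_iso hF h2 hV).2 h8
  refine ⟨_, ?_, hiso⟩
  have hc := card_alt_four hiso
  have hpsl := two_mul_card_psl hF hodd
  refine isCoatom_of_hasA4 p (by omega) (hasA4_alt_four hiso)
    (ne_top_of_card_lt (hc ▸ lt_card_psl hF hodd h5 (by norm_num))) fun M hd hlt => ?_
  rw [hc] at hd hlt
  have hdvd := M.card_subgroup_dvd_card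
  refine ⟨fun h => by omega, fun h _ => ?_, fun h _ => ?_, fun r k hG => gen_prime_eq_top hG hF Fact.out⟩
  · rw [h] at hdvd
    have := (sq_sub_one_mod p).1 h8
    omega
  · rw [h] at hdvd
    by_cases hp5 : p = 5
    · refine Subgroup.eq_top_of_le_card _ ?_
      rw [hp5] at hpsl
      norm_num at hpsl
      omega
    · exfalso
      have h' : 5 ∣ p * (p ^ 2 - 1) := hpsl ▸ ((show 5 ∣ 60 by norm_num).trans hdvd).mul_left 2
      rcases (Nat.Prime.dvd_mul (by norm_num)).1 h' with h | h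
      · exact hp5 ((Nat.prime_dvd_prime_iff_eq (by norm_num) Fact.out).1 h).symm
      · rw [sq_sub_one_eq] at h
        rcases (Nat.Prime.dvd_mul (by norm_num)).1 h with h | h <;> omega

/-- `A₅` is maximal in `PSL₂(q)` for `q = p ≡ ±1 (mod 10)` or `q = p²`, `p ≡ ±3 (mod 10)`. -/
theorem exists_alt_five_coatom (p : ℕ) [Fact p.Prime] [CharP F p]
    (h : (Fintype.card F = p ∧ (p % 10 = 1 ∨ p % 10 = 9)) ∨
      (Fintype.card F = p ^ 2 ∧ (p % 10 = 3 ∨ p % 10 = 7))) :
    ∃ H : Subgroup PSL(2, F), IsCoatom H ∧ Nonempty (H ≃* alternatingGroup (Fin 5)) := by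
  have hp : p.Prime := Fact.out
  set Q := Fintype.card F with hQ
  have hp2 : p ≠ 2 := by omega
  have hQodd : Q % 2 = 1 := by
    rcases h with ⟨e, h⟩ | ⟨e, h⟩
    · omega
    · rw [e, Nat.pow_mod, show p % 2 = 1 by omega]
  have h5d : 5 ∣ Q * (Q ^ 2 - 1) := by
    refine Dvd.dvd.mul_left ?_ _
    rcases h with ⟨e, h⟩ | ⟨e, h⟩
    · rw [e, sq_sub_one_eq]
      rcases h with h | h
      · exact dvd_mul_of_dvd_right (by omega) _
      · exact dvd_mul_of_dvd_left (by omega) _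
    · rw [e, ← pow_mul]
      have : p ^ (2 * 2) % 5 = 1 := by
        rw [Nat.pow_mod]
        rcases (show p % 5 = 3 ∨ p % 5 = 2 by omega) with h | h <;> rw [h] <;> rfl
      omega
  have hQ8 : 8 ≤ Q := by
    rcases h with ⟨e, h⟩ | ⟨e, h⟩
    · have := hp.two_le; omega
    · rw [e]
      calc 8 ≤ 3 ^ 2 := by norm_num
        _ ≤ p ^ 2 := Nat.pow_le_pow_left (by omega) 2
  obtain ⟨H, hc, hiso⟩ := exists_alt_five hQ.symm h5d
  refine ⟨H, ?_, hiso⟩
  refine isCoatom_of_hasA4 p hp2 (hasA4_alt_five hiso)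
    (ne_top_of_card_lt (hc ▸ lt_card_psl hQ.symm hQodd hQ8 (by norm_num))) fun M hd hlt => ?_
  rw [hc] at hd hlt
  refine ⟨fun h => by omega, fun h _ => by omega, fun h _ => by omega, fun r k hG => ?_⟩
  rcases h with ⟨e, -⟩ | ⟨e, h⟩
  · exact gen_prime_eq_top hG (hQ.symm.trans e) hp
  obtain ⟨K, -, hrm, hm, -, hdvd, -, htop⟩ := gen_facts hG hQ.symm
  obtain ⟨i, hi, rfl⟩ := (Nat.dvd_prime_pow hp).1 (e ▸ hrm ▸ dvd_pow_self r (by omega) : r ∣ p ^ 2)
  interval_cases i
  · rw [pow_zero, one_pow] at hrm; omega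
  · exfalso
    rw [pow_one] at hdvd
    have h5 : 5 ∣ p * (p ^ 2 - 1) := ((show 5 ∣ 60 by norm_num).trans hd).trans hdvd
    rcases (Nat.Prime.dvd_mul (by norm_num)).1 h5 with h' | h'
    · omega
    · rw [sq_sub_one_eq] at h'
      rcases (Nat.Prime.dvd_mul (by norm_num)).1 h' with h' | h' <;> omega
  · exact htop e.symm

/-- `PGL₂(q)` is maximal in `PSL₂(q²)`, `q` odd. -/
theorem exists_pgl_coatom {K : Type*} [Field K] [Fintype K] (hK : Fintype.card K = q)
    (hF : Fintype.card F = q ^ 2) (hq : Odd q) :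
    ∃ H : Subgroup PSL(2, F), IsCoatom H ∧ Nonempty (H ≃* PGL(2, K)) := by
  classical
  obtain ⟨p, hpc⟩ := CharP.exists F
  have := Fact.mk (CharP.char_is_prime F p)
  have hQodd : q ^ 2 % 2 = 1 := Nat.odd_iff.1 hq.pow
  obtain ⟨H, ⟨e⟩⟩ := (S0805.result (K := K) hF hq.pow 2 (by norm_num) (by rw [hK])).2.2 even_two
  refine ⟨H, ?_, ⟨e⟩⟩
  have hH : Nat.card H = q * (q ^ 2 - 1) := by
    rw [Nat.card_congr e.toEquiv, Cfsg.Agent.H1.card_PGL, card_sl2 hK]
  have hq3 : 3 ≤ q := by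
    have := Nat.odd_iff.1 hq
    have : 2 ≤ q := hK ▸ Fintype.one_lt_card
    omega
  have hq9 : 9 ≤ q ^ 2 := le_trans (by norm_num) (Nat.pow_le_pow_left hq3 2)
  have hbig : 24 ≤ q * (q ^ 2 - 1) := le_trans (by norm_num) (Nat.mul_le_mul hq3 (show 8 ≤ q ^ 2 - 1 by omega))
  have hne : H ≠ ⊤ := by
    apply ne_top_of_card_lt
    have h := two_mul_card_psl hF hQodd
    rw [hH]
    have h1 : 2 * (q * (q ^ 2 - 1)) < q ^ 2 * ((q ^ 2) ^ 2 - 1) := by
      have h' : (q ^ 2 - 1) ≤ (q ^ 2) ^ 2 - 1 := Nat.sub_le_sub_right (Nat.le_self_pow two_ne_zero _) 1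
      calc 2 * (q * (q ^ 2 - 1)) = (2 * q) * (q ^ 2 - 1) := by ring
        _ < (q * q) * (q ^ 2 - 1) := Nat.mul_lt_mul_of_pos_right (Nat.mul_lt_mul_of_pos_right (by omega) (by omega)) (by omega)
        _ ≤ q ^ 2 * ((q ^ 2) ^ 2 - 1) := by rw [← sq]; exact Nat.mul_le_mul_left _ h'
    omega
  refine isCoatom_of_outcome p hne fun c M hle hc => ?_
  have hd : q * (q ^ 2 - 1) ∣ Nat.card M := hH ▸ card_cj c H ▸ Subgroup.card_dvd_of_le hle
  have hge := Nat.le_of_dvd Nat.card_pos hd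
  rw [hH]
  cases hc with
  | triv h => right; omega
  | dih h =>
    obtain ⟨g, ht, hg⟩ := h
    have h1 := Nat.le_of_dvd Nat.card_pos (hd.trans (Subgroup.card_dvd_of_le hg))
    rw [card_torDih ht] at h1
    have h2 := card_tor_mul hF g
    rw [Nat.gcd_eq_left (show 2 ∣ q ^ 2 - 1 by omega)] at h2
    have h3 : 3 * (q ^ 2 - 1) ≤ q * (q ^ 2 - 1) := Nat.mul_le_mul_right _ hq3
    rcases card_cent_ss ht with ⟨-, e⟩ | ⟨-, e⟩ <;> rw [e, hF] at h2 <;> omega
  | bor h =>
    exfalso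
    obtain ⟨d, hd'⟩ := h
    have h1 : q * (q ^ 2 - 1) ∣ Nat.card (H6.borel F) :=
      hd.trans (card_cj d M ▸ Subgroup.card_dvd_of_le hd')
    have h2 := Nat.mul_dvd_mul_right h1 2
    have h3 := card_borel_mul (F := F) hF
    rw [Nat.gcd_eq_left (show 2 ∣ q ^ 2 - 1 by omega)] at h3
    rw [h3, show q * (q ^ 2 - 1) * 2 = (q * (q ^ 2 - 1)) * 2 by ring,
      show q ^ 2 * (q ^ 2 - 1) = (q * (q ^ 2 - 1)) * q by ring] at h2
    have := (Nat.mul_dvd_mul_iff_left (by omega)).1 h2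
    have := Nat.odd_iff.1 hq
    omega
  | a4 h _ => right; omega
  | s4 h _ _ => right; omega
  | a5 h _ _ =>
    right
    by_cases hq' : q = 3
    · subst hq'; rw [h] at hd; norm_num at hd
    · have h5 : 5 ≤ q := by have := Nat.odd_iff.1 hq; omega
      have : 5 * 24 ≤ q * (q ^ 2 - 1) :=
        Nat.mul_le_mul h5 (by have := Nat.pow_le_pow_left h5 2; omega)
      omega
  | gen h =>
    obtain ⟨r, k, hG⟩ := h
    obtain ⟨L, -, hrm, hm, -, -, hMle, htop⟩ := gen_facts hG hF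
    by_cases h1 : Module.finrank L F = 1
    · rw [h1, pow_one] at hrm; exact Or.inl (htop hrm)
    · right
      have hr0 : 0 < r := Nat.pos_of_ne_zero fun e => by rw [e, zero_pow (by omega)] at hrm; omega
      have hr : r ≤ q := by
        by_contra hr
        have h2 := Nat.pow_lt_pow_left (not_le.1 hr) two_ne_zero
        have h3 := Nat.pow_le_pow_right hr0 (show 2 ≤ Module.finrank L F by omega)
        omega
      exact hMle.trans (Nat.mul_le_mul hr (Nat.sub_le_sub_right (Nat.pow_le_pow_left hr 2) 1))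

/-- A subfield `L` with `r' = |L|` seeing `ι K` has `r' = |F|` or `r' = |K|` when `[F : K]` is prime. -/
lemma card_eq_or_of_prime_degree {K : Type*} [Field K] [Fintype K] (ι : K →+* F) {r r' : ℕ}
    (L : Subfield F) (hK : Fintype.card K = q) (hF : Fintype.card F = q ^ r) (hr : r.Prime)
    (hι : ∀ x, ι x ∈ L) (hL : Nat.card L = r') : r' = q ∨ r' = q ^ r := by
  classical
  have := Fintype.ofFinite L
  let ι' : K →+* L := ι.codRestrict L hι
  let := ι'.toAlgebra
  have hr' : r' = q ^ Module.finrank K L := by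
    rw [← hL, Nat.card_eq_fintype_card, Module.card_eq_pow_finrank (K := K), hK]
  have hd : Module.finrank L F * Module.finrank K L = r := by
    have h1 := Module.card_eq_pow_finrank (K := L) (V := F)
    rw [hF, ← Nat.card_eq_fintype_card, hL, hr', ← pow_mul] at h1
    have h2 : 2 ≤ q := hK ▸ Fintype.one_lt_card
    rw [Nat.pow_right_injective h2 h1, mul_comm]
  rcases (Nat.dvd_prime hr).1 (Dvd.intro_left _ hd : Module.finrank K L ∣ r) with h | h
  · left; rw [hr', h, pow_one]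
  · right; rw [hr', h]

lemma psl_card_facts {K : Type*} [Field K] [Fintype K] (hK : Fintype.card K = q) (hq : q % 2 = 1)
    (ι : K →+* F) : 2 * Nat.card (pslMap ι).range = q * (q ^ 2 - 1) := by
  rw [card_pslMap_range]; exact two_mul_card_psl hK hq

/-- The image of `PSL₂(q)` is maximal in `PSL₂(q^r)`, `q` odd, `r` an odd prime. -/
theorem isCoatom_pslMap_range_odd {K : Type*} [Field K] [Fintype K] {r : ℕ} (ι : K →+* F)
    (hK : Fintype.card K = q) (hF : Fintype.card F = q ^ r) (hq : Odd q) (hr : r.Prime)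
    (hr2 : r ≠ 2) : IsCoatom (pslMap ι).range := by
  classical
  obtain ⟨p, hpc⟩ := CharP.exists F
  have := Fact.mk (CharP.char_is_prime F p)
  have hp : p.Prime := Fact.out
  have hqo := Nat.odd_iff.1 hq
  have hH := psl_card_facts hK hqo ι
  have hQodd : q ^ r % 2 = 1 := Nat.odd_iff.1 hq.pow
  have hq3 : 3 ≤ q := by
    have : 2 ≤ q := hK ▸ Fintype.one_lt_card
    omega
  have hr3 : 3 ≤ r := by have := hr.two_le; omega
  have hbig : 3 * 8 ≤ q * (q ^ 2 - 1) :=
    Nat.mul_le_mul hq3 (by have := Nat.pow_le_pow_left hq3 2; omega)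
  have hqQ : q ∣ q ^ r := dvd_pow_self q hr.ne_zero
  obtain ⟨j, hj⟩ : Odd r := hr.odd_of_ne_two hr2
  have hne : (pslMap ι).range ≠ ⊤ := by
    apply ne_top_of_card_lt
    have h := two_mul_card_psl hF hQodd
    have h1 : q < q ^ r := lt_self_pow₀ (by omega) hr.one_lt
    have h2 : q * (q ^ 2 - 1) < q ^ r * ((q ^ r) ^ 2 - 1) :=
      Nat.mul_lt_mul_of_lt_of_le h1 (Nat.sub_le_sub_right (Nat.pow_le_pow_left h1.le 2) 1) (by
        have := Nat.pow_le_pow_left (show 3 ≤ q ^ r by omega) 2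
        omega)
    omega
  refine isCoatom_of_outcome p hne fun c M hle hc => ?_
  by_cases hlt : Nat.card M ≤ Nat.card (pslMap ι).range
  · exact Or.inr hlt
  left
  have hd : q * (q ^ 2 - 1) ∣ 2 * Nat.card M :=
    hH ▸ Nat.mul_dvd_mul_left 2 (card_cj c _ ▸ Subgroup.card_dvd_of_le hle)
  cases hc with
  | triv h => omega
  | dih h =>
    exfalso
    obtain ⟨g, ht, hg⟩ := h
    have h1 : q ∣ 2 * (2 * Nat.card (tor g)) := by
      rw [← card_torDih ht]
      exact ((dvd_mul_right q _).trans hd).trans (Nat.mul_dvd_mul_left 2 (Subgroup.card_dvd_of_le hg))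
    have h2 := card_tor_mul hF g
    rw [Nat.gcd_eq_left (show 2 ∣ q ^ r - 1 by omega)] at h2
    have h3 : q ∣ 2 * (q ^ r - 1) ∨ q ∣ 2 * (q ^ r + 1) := by
      rcases card_cent_ss ht with ⟨-, e⟩ | ⟨-, e⟩ <;> rw [e, hF] at h2
      · left; rwa [← h2, mul_comm (Nat.card (tor g)) 2]
      · right; rwa [← h2, mul_comm (Nat.card (tor g)) 2]
    have h4 : q ∣ 2 := by
      have hQ1 : 1 ≤ q ^ r := Nat.one_le_pow _ _ (by omega)
      rcases h3 with h | h
      · have := Nat.dvd_sub (hqQ.mul_left 2) h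
        rwa [show 2 * q ^ r - 2 * (q ^ r - 1) = 2 by omega] at this
      · have := Nat.dvd_sub h (hqQ.mul_left 2)
        rwa [show 2 * (q ^ r + 1) - 2 * q ^ r = 2 by omega] at this
    have := Nat.le_of_dvd two_pos h4
    omega
  | bor h =>
    exfalso
    obtain ⟨d, hd'⟩ := h
    have h1 : q * (q ^ 2 - 1) ∣ q ^ r * (q ^ r - 1) := by
      have h3 := card_borel_mul (F := F) hF
      rw [Nat.gcd_eq_left (show 2 ∣ q ^ r - 1 by omega)] at h3
      rw [← h3, mul_comm _ 2]
      exact hd.trans (Nat.mul_dvd_mul_left 2 (card_cj d M ▸ Subgroup.card_dvd_of_le hd'))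
    have hcop : Nat.Coprime (q ^ 2 - 1) (q ^ r) := by
      refine Nat.Coprime.pow_right _ (Nat.Coprime.symm ?_)
      have h1 : 1 ≤ q ^ 2 := Nat.one_le_pow _ _ (by omega)
      refine Nat.Coprime.coprime_dvd_left (dvd_pow_self q two_ne_zero) ?_
      have := Nat.coprime_self_add_right (m := q ^ 2 - 1) (n := 1)
      rw [Nat.sub_add_cancel h1] at this
      exact (Nat.Coprime.symm (this.2 (Nat.coprime_one_right _)))
    have h4 : q ^ 2 - 1 ∣ q ^ r - 1 := hcop.dvd_of_dvd_mul_left ((dvd_mul_left _ q).trans h1)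
    obtain ⟨s, hs, -⟩ := S0805.exists_sub_one hq j
    have e : q ^ r - 1 = (q ^ 2 - 1) * (q * s) + (q - 1) := by
      obtain ⟨A, hA⟩ : ∃ A, (q ^ 2) ^ j = A + 1 :=
        ⟨_, (Nat.sub_add_cancel (Nat.one_le_pow _ _ (by positivity))).symm⟩
      rw [hA, Nat.add_sub_cancel] at hs
      rw [hj, pow_succ, pow_mul, hA, add_mul, one_mul, hs,
        show (q ^ 2 - 1) * (q * s) = (q ^ 2 - 1) * s * q by ring]
      omega
    rw [e, Nat.dvd_add_right (dvd_mul_right _ _)] at h4
    have := Nat.le_of_dvd (by omega) h4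
    have : 3 * q ≤ q ^ 2 := by rw [sq]; exact Nat.mul_le_mul_right q hq3
    omega
  | a4 h _ => omega
  | s4 h _ hp' =>
    exfalso
    have hq5 : q = 3 := by
      by_contra hne3
      have : 5 * 24 ≤ q * (q ^ 2 - 1) :=
        Nat.mul_le_mul (show 5 ≤ q by omega) (by have := Nat.pow_le_pow_left (show 5 ≤ q by omega) 2; omega)
      omega
    apply hp'
    rw [h]
    have hp3 : p ∣ 3 ^ r := by
      rw [← hq5, ← hF, ← CharP.cast_eq_zero_iff F p]
      exact Nat.cast_card_eq_zero F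
    rw [(Nat.prime_dvd_prime_iff_eq hp Nat.prime_three).1 (hp.dvd_of_dvd_pow hp3)]
    norm_num
  | a5 h _ _ =>
    exfalso
    have hq5 : q = 3 := by
      by_contra hne3
      by_cases h5 : q = 5
      · subst h5
        rw [show (5 : ℕ) * (5 ^ 2 - 1) = 120 by norm_num] at hH
        omega
      · have : 7 * 48 ≤ q * (q ^ 2 - 1) :=
          Nat.mul_le_mul (show 7 ≤ q by omega) (by have := Nat.pow_le_pow_left (show 7 ≤ q by omega) 2; omega)
        omega
    have h5 : 5 ∣ q ^ r * ((q ^ r) ^ 2 - 1) := by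
      rw [← two_mul_card_psl hF hQodd]
      exact ((show 5 ∣ 60 by norm_num).trans (h ▸ M.card_subgroup_dvd_card)).mul_left 2
    rw [hq5, hj] at h5
    have h9 : (3 ^ (2 * j + 1)) ^ 2 % 5 = 4 := by
      rw [← pow_mul, show (2 * j + 1) * 2 = 4 * j + 2 by ring, pow_add, pow_mul, Nat.mul_mod,
        Nat.pow_mod]
      norm_num
    rcases (Nat.Prime.dvd_mul (by norm_num)).1 h5 with h | h
    · have := (Nat.prime_dvd_prime_iff_eq (by norm_num) Nat.prime_three).1
        ((show Nat.Prime 5 by norm_num).dvd_of_dvd_pow h)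
      omega
    · omega
  | gen h =>
    obtain ⟨r', k, hG⟩ := h
    obtain ⟨L, hLr, hrm, hm, htr, hdvd, -, htop⟩ := gen_facts hG hF
    rcases card_eq_or_of_prime_degree ι L hK hF hr (field_le_of_trace ι L c hle htr) hLr with e | e
    swap
    · exact htop e
    exfalso
    rw [e] at hG
    obtain ⟨L', hL', -, hiso⟩ := gen_structure hG
    obtain ⟨-, -, -, -, -, hcard, -, -⟩ := hG
    rcases hiso with ⟨hk, -⟩ | ⟨-, ⟨g⟩, -⟩
    · have e1 : q * (q ^ 2 - 1) = 2 * ((q + 1) * (q * k)) := by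
        rw [sq_sub_one_eq, show q - 1 = 2 * k by omega]; ring
      omega
    · have := Fintype.ofFinite L'
      have hL'c : Fintype.card L' = q := by rw [← hL', Nat.card_eq_fintype_card]
      have hev : Even r :=
        (S0805.result (K := L') hF hq.pow r hr.one_lt.le (by rw [hL'c])).2.1 ⟨M, ⟨g⟩⟩
      exact Nat.not_even_iff_odd.2 ⟨j, hj⟩ hev

/-- `PSL₂(q)` is maximal in `PSL₂(q^r)`, `q` odd, `r` an odd prime. -/
theorem exists_psl_coatom_odd {K : Type*} [Field K] [Fintype K] {r : ℕ}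
    (hK : Fintype.card K = q) (hF : Fintype.card F = q ^ r) (hq : Odd q) (hr : r.Prime)
    (hr2 : r ≠ 2) :
    ∃ H : Subgroup PSL(2, F), IsCoatom H ∧ Nonempty (H ≃* PSL(2, K)) := by
  obtain ⟨ι⟩ := S0805.exists_ringHom (F := F) (K := K) hr.one_lt.le (by rw [hK, hF])
  exact ⟨_, isCoatom_pslMap_range_odd ι hK hF hq hr hr2,
    ⟨(MonoidHom.ofInjective (pslMap_injective ι)).symm⟩⟩

/-- `PSL₂(q)` is maximal in `PSL₂(q^r)`, `q > 2` even, `r` prime. -/
theorem exists_psl_coatom_even {K : Type*} [Field K] [Fintype K] {r : ℕ}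
    (hK : Fintype.card K = q) (hF : Fintype.card F = q ^ r) (hq : Even q) (hq2 : q ≠ 2)
    (hr : r.Prime) :
    ∃ H : Subgroup PSL(2, F), IsCoatom H ∧ Nonempty (H ≃* PSL(2, K)) := by
  classical
  obtain ⟨p, hpc⟩ := CharP.exists F
  have := Fact.mk (CharP.char_is_prime F p)
  obtain ⟨ι⟩ := S0805.exists_ringHom (F := F) (K := K) hr.one_lt.le (by rw [hK, hF])
  refine ⟨(pslMap ι).range, ?_, ⟨(MonoidHom.ofInjective (pslMap_injective ι)).symm⟩⟩
  have h4 : 4 ≤ q := by
    have : 2 ≤ q := hK ▸ Fintype.one_lt_card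
    have := hq.two_dvd
    omega
  have hqd := hq.two_dvd
  have hH : Nat.card (pslMap ι).range = q * (q ^ 2 - 1) := by
    have h := card_psl2_mul (F := K) hK
    rw [(Nat.prime_two.coprime_iff_not_dvd).2 (by omega), mul_one] at h
    rw [card_pslMap_range, h]
  have hbig : 60 ≤ q * (q ^ 2 - 1) :=
    le_trans (by norm_num) (Nat.mul_le_mul h4 (show 15 ≤ q ^ 2 - 1 by
      have := Nat.pow_le_pow_left h4 2; omega))
  have hns : ∀ {T : Subgroup PSL(2, F)}, Group.IsSolvable T → ∀ c, ¬ cj c (pslMap ι).range ≤ T := by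
    intro T hT c hle
    have h1 := S0810.solvable_of_cj_le hT hle
    exact S0810.not_isSolvable hK h4 (Group.isSolvable_of_isSolvable_injective
      (f := (MonoidHom.ofInjective (pslMap_injective ι)).toMonoidHom) (MulEquiv.injective _))
  have hne : (pslMap ι).range ≠ ⊤ := by
    apply ne_top_of_card_lt
    rw [hH]
    have h := card_psl2_mul (F := F) hF
    have hQ : 2 ∣ q ^ r := hqd.trans (dvd_pow_self q hr.ne_zero)
    have h1 : q < q ^ r := lt_self_pow₀ (by omega) hr.one_lt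
    rw [(Nat.prime_two.coprime_iff_not_dvd).2 (by omega), mul_one] at h
    rw [h]
    exact Nat.mul_lt_mul_of_lt_of_le h1 (Nat.sub_le_sub_right (Nat.pow_le_pow_left h1.le 2) 1) (by
      have := Nat.pow_le_pow_left (show 2 ≤ q ^ r by omega) 2
      omega)
  refine isCoatom_of_outcome p hne fun c M hle hc => ?_
  rw [hH]
  cases hc with
  | triv h => right; omega
  | dih h =>
    obtain ⟨g, ht, hg⟩ := h
    exact absurd (hle.trans hg) (hns (S0810.solvable_torDih ht) c)
  | bor h =>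
    obtain ⟨d, hd⟩ := h
    refine absurd ?_ (hns S0810.solvable_borel (d * c))
    rw [← cj_cj]
    exact (cj_mono d hle).trans hd
  | a4 h _ => right; omega
  | s4 h _ _ => right; omega
  | a5 h _ _ => right; omega
  | gen h =>
    obtain ⟨r', k, hG⟩ := h
    obtain ⟨L, hLr, hrm, hm, htr, -, hMle, htop⟩ := gen_facts hG hF
    rcases card_eq_or_of_prime_degree ι L hK hF hr (field_le_of_trace ι L c hle htr) hLr with e | e
    · exact Or.inr (e ▸ hMle)
    · exact Or.inl (htop e)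

end Cfsg.Agent.H79.PSLTwoMax
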