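import Cfsg.Agent.H79.PSLTwoMax.Basic

/-!
# Automorphisms of `PSL₂(F)` from `GL₂(F)`
-/

set_option autoImplicit false

open Matrix MatrixGroups

namespace Cfsg.Agent.H79.PSLTwoMax

open Cfsg.Agent.H6

variable {F : Type*} [Field F]

/-- Conjugation of `SL₂` by an element of `GL₂`. -/
def conjGSL (P : GL (Fin 2) F) : SL(2, F) →* SL(2, F) where
  toFun g := ⟨(P : Matrix (Fin 2) (Fin 2) F) * g.1 * ((P⁻¹ : GL (Fin 2) F) : Matrix (Fin 2) (Fin 2) F),
    by rw [Matrix.det_units_conj, g.2]⟩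
  map_one' := by
    apply Subtype.ext
    simp [← Matrix.GeneralLinearGroup.coe_mul]
  map_mul' g h := by
    apply Subtype.ext
    show (P : Matrix (Fin 2) (Fin 2) F) * (g.1 * h.1) * _ = (_ * g.1 * _) * (_ * h.1 * _)
    simp only [Matrix.mul_assoc]
    rw [← Matrix.mul_assoc ((P⁻¹ : GL (Fin 2) F) : Matrix (Fin 2) (Fin 2) F) (P : Matrix (Fin 2) (Fin 2) F),
      Units.inv_mul, Matrix.one_mul]

/-- Conjugation of `PSL₂` by an element of `GL₂`. -/
def conjGP (P : GL (Fin 2) F) : PSL(2, F) →* PSL(2, F) :=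
  QuotientGroup.lift _ (π.comp (conjGSL P)) (fun g hg => by
    rw [MonoidHom.mem_ker, MonoidHom.comp_apply, π_eq_one_iff]
    rcases mem_center_sl2.1 hg with rfl | rfl
    · left; exact map_one _
    · right
      apply Subtype.ext
      show (P : Matrix (Fin 2) (Fin 2) F) * ((-1 : SL(2, F)) : Matrix (Fin 2) (Fin 2) F) * _ =
        ((-1 : SL(2, F)) : Matrix (Fin 2) (Fin 2) F)
      rw [Matrix.SpecialLinearGroup.coe_neg, Matrix.SpecialLinearGroup.coe_one, Matrix.mul_neg,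
        Matrix.neg_mul, Matrix.mul_one, Units.mul_inv])

lemma conjGP_π (P : GL (Fin 2) F) (g : SL(2, F)) : conjGP P (π g) = π (conjGSL P g) := rfl

lemma conjGSL_injective (P : GL (Fin 2) F) : Function.Injective (conjGSL P) := by
  intro g h e
  have e' : (P : Matrix (Fin 2) (Fin 2) F) * g.1 * _ = (P : Matrix (Fin 2) (Fin 2) F) * h.1 * _ :=
    congrArg Subtype.val e
  have h1 := P.mul_right_inj.1 ((P⁻¹).mul_left_inj.1 e')
  exact Subtype.ext h1

lemma conjGP_injective (P : GL (Fin 2) F) : Function.Injective (conjGP P) := by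
  refine (injective_iff_map_eq_one _).2 fun x hx => ?_
  obtain ⟨g, rfl⟩ := π_surjective x
  rw [conjGP_π, π_eq_one_iff] at hx
  rw [π_eq_one_iff]
  refine hx.imp (fun e => conjGSL_injective P (e.trans (map_one _).symm)) fun e =>
    conjGSL_injective P (e.trans (Subtype.ext ?_))
  show ((-1 : SL(2, F)) : Matrix (Fin 2) (Fin 2) F) =
    (P : Matrix (Fin 2) (Fin 2) F) * ((-1 : SL(2, F)) : Matrix (Fin 2) (Fin 2) F) * _
  rw [Matrix.SpecialLinearGroup.coe_neg, Matrix.SpecialLinearGroup.coe_one, Matrix.mul_neg,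
    Matrix.neg_mul, Matrix.mul_one, Units.mul_inv]

lemma conjGSL_mul (P Q : GL (Fin 2) F) (g : SL(2, F)) :
    conjGSL (P * Q) g = conjGSL P (conjGSL Q g) := by
  apply Subtype.ext
  show ((P * Q : GL (Fin 2) F) : Matrix (Fin 2) (Fin 2) F) * g.1 * (((P * Q)⁻¹ : GL (Fin 2) F) :
      Matrix (Fin 2) (Fin 2) F) = (P : Matrix (Fin 2) (Fin 2) F) * ((Q : Matrix (Fin 2) (Fin 2) F) *
      g.1 * ((Q⁻¹ : GL (Fin 2) F) : Matrix (Fin 2) (Fin 2) F)) * _
  rw [_root_.mul_inv_rev, Units.val_mul, Units.val_mul]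
  simp [Matrix.mul_assoc]

lemma conjGP_mul (P Q : GL (Fin 2) F) (x : PSL(2, F)) :
    conjGP (P * Q) x = conjGP P (conjGP Q x) := by
  obtain ⟨g, rfl⟩ := π_surjective x
  rw [conjGP_π, conjGP_π, conjGP_π, conjGSL_mul]

lemma conjGP_one (x : PSL(2, F)) : conjGP (1 : GL (Fin 2) F) x = x := by
  obtain ⟨g, rfl⟩ := π_surjective x
  rw [conjGP_π]
  congr 1
  apply Subtype.ext
  show ((1 : GL (Fin 2) F) : Matrix (Fin 2) (Fin 2) F) * g.1 * ((1⁻¹ : GL (Fin 2) F) :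
    Matrix (Fin 2) (Fin 2) F) = g.1
  simp

lemma conjGP_toGL (s : SL(2, F)) (x : PSL(2, F)) :
    conjGP (SpecialLinearGroup.toGL s) x = π s * x * (π s)⁻¹ := by
  obtain ⟨g, rfl⟩ := π_surjective x
  rw [conjGP_π, ← map_inv, ← map_mul, ← map_mul]
  congr 1

/-- `diag(a, 1)`. -/
def diagGL (a : Fˣ) : GL (Fin 2) F :=
  ⟨!![(a : F), 0; 0, 1], !![((a⁻¹ : Fˣ) : F), 0; 0, 1],
    by ext i j; fin_cases i <;> fin_cases j <;> simp,
    by ext i j; fin_cases i <;> fin_cases j <;> simp⟩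

lemma conjGP_diagGL (a : Fˣ) (x : PSL(2, F)) : conjGP (diagGL a) x = conjDP a x := by
  obtain ⟨g, rfl⟩ := π_surjective x
  rw [conjGP_π, conjDP_π]
  congr 1
  apply Subtype.ext
  show (!![(a : F), 0; 0, 1] : Matrix (Fin 2) (Fin 2) F) * g.1 * !![((a⁻¹ : Fˣ) : F), 0; 0, 1] =
    !![g 0 0, (a : F) * g 0 1; ((a⁻¹ : Fˣ) : F) * g 1 0, g 1 1]
  rw [Matrix.eta_fin_two g.1, Matrix.mul_fin_two, Matrix.mul_fin_two]
  ext i j
  fin_cases i <;> fin_cases j <;> simp <;> field_simp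

/-- A pair with a common `A`-cyclic vector has a normal form. -/
lemma pair_normal_form [Finite F] (A B : SL(2, F)) (a b v₀ v₁ : F)
    (hD : v₀ * (A 1 0 * v₀ + A 1 1 * v₁) - v₁ * (A 0 0 * v₀ + A 0 1 * v₁) ≠ 0)
    (h₀ : B 0 0 * v₀ + B 0 1 * v₁ = a * v₀ + b * (A 0 0 * v₀ + A 0 1 * v₁))
    (h₁ : B 1 0 * v₀ + B 1 1 * v₁ = a * v₁ + b * (A 1 0 * v₀ + A 1 1 * v₁)) :
    ∃ (ψ : PSL(2, F) ≃* PSL(2, F)) (B₀ : SL(2, F)), ψ (π A) = π (comp (tr A)) ∧ ψ (π B) = π B₀ ∧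
      B₀ 0 0 = a ∧ B₀ 1 0 = b ∧ B₀ 0 1 = tr (A * B) + b - tr A * (tr B - a) ∧
      B₀ 1 1 = tr B - a := by
  let P : GL (Fin 2) F := Matrix.GeneralLinearGroup.mkOfDetNeZero
    !![v₀, A 0 0 * v₀ + A 0 1 * v₁; v₁, A 1 0 * v₀ + A 1 1 * v₁]
    (by rw [Matrix.det_fin_two_of]; intro e; exact hD (by linear_combination e))
  let c : F := tr (A * B) + b - tr A * (tr B - a)
  let d : F := tr B - a
  have dA := sl2_det A
  have hA : (P : Matrix (Fin 2) (Fin 2) F) * (H6.comp (tr A)).1 = A.1 * (P : Matrix (Fin 2) (Fin 2) F) := by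
    ext i j
    fin_cases i <;> fin_cases j <;>
      simp [P, Matrix.mul_apply, Fin.sum_univ_two, H6.comp, sl2, tr,
        Matrix.GeneralLinearGroup.mkOfDetNeZero] <;> grind
  have hB : (P : Matrix (Fin 2) (Fin 2) F) * !![a, c; b, d] = B.1 * (P : Matrix (Fin 2) (Fin 2) F) := by
    ext i j
    fin_cases i <;> fin_cases j <;>
      simp [P, c, d, Matrix.mul_apply, Fin.sum_univ_two, tr, sl2_mul,
        Matrix.GeneralLinearGroup.mkOfDetNeZero] <;> grind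
  have hdet : a * d - c * b = 1 := by
    have e := congrArg Matrix.det hB
    rw [Matrix.det_mul, Matrix.det_mul, B.2, one_mul, Matrix.det_fin_two_of] at e
    have h0 : (P : Matrix (Fin 2) (Fin 2) F).det ≠ 0 := (Matrix.GeneralLinearGroup.det P).ne_zero
    exact mul_left_cancel₀ h0 (by rw [e, mul_one])
  let B₀ : SL(2, F) := sl2 a c b d hdet
  have hinj := conjGP_injective P⁻¹
  let ψ := MulEquiv.ofBijective (conjGP P⁻¹) ⟨hinj, Finite.injective_iff_surjective.1 hinj⟩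
  have hconv : ∀ (G G₀ : SL(2, F)),
      (P : Matrix (Fin 2) (Fin 2) F) * G₀.1 = G.1 * (P : Matrix (Fin 2) (Fin 2) F) →
      ψ (π G) = π G₀ := by
    intro G G₀ e
    show conjGP P⁻¹ (π G) = π G₀
    rw [conjGP_π]
    congr 1
    apply Subtype.ext
    show ((P⁻¹ : GL (Fin 2) F) : Matrix (Fin 2) (Fin 2) F) * G.1 *
      (((P⁻¹)⁻¹ : GL (Fin 2) F) : Matrix (Fin 2) (Fin 2) F) = G₀.1
    rw [inv_inv, Matrix.mul_assoc, ← e, ← Matrix.mul_assoc, Units.inv_mul, Matrix.one_mul]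
  exact ⟨ψ, B₀, hconv A _ hA, hconv B B₀ hB, rfl, rfl, rfl, rfl⟩

/-- A singular matrix kills a nonzero vector. -/
lemma exists_kernel_vec {a b c d : F} (h : a * d - b * c = 0) :
    ∃ v₀ v₁ : F, ¬ (v₀ = 0 ∧ v₁ = 0) ∧ a * v₀ + b * v₁ = 0 ∧ c * v₀ + d * v₁ = 0 := by
  by_cases hb : b = 0 ∧ a = 0
  · by_cases hd : d = 0 ∧ c = 0
    · exact ⟨1, 0, by simp, by simp [hb.1, hb.2], by simp [hd.1, hd.2]⟩
    · exact ⟨d, -c, fun e => hd ⟨e.1, neg_eq_zero.1 e.2⟩, by simp [hb.1, hb.2], by ring⟩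
  · exact ⟨b, -a, fun e => hb ⟨e.1, neg_eq_zero.1 e.2⟩, by ring, by linear_combination (-1 : F) * h⟩

/-- Two anticommuting elements of square `-1` have a normal form. -/
lemma four_normal_form [Finite F] (h2 : (2 : F) ≠ 0) {A B : SL(2, F)} (hA : tr A = 0)
    (hB : tr B = 0) (hAB : A * B = -(B * A)) {x y : F} (hxy : x ^ 2 + y ^ 2 = -1) :
    ∃ (ψ : PSL(2, F) ≃* PSL(2, F)) (B₀ : SL(2, F)), ψ (π A) = π (comp 0) ∧ ψ (π B) = π B₀ ∧
      B₀ 0 0 = x ∧ B₀ 1 0 = y ∧ B₀ 0 1 = y ∧ B₀ 1 1 = -x := by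
  have hs : tr (A * B) = 0 := by
    have h1 : tr (A * B) = -tr (A * B) := by
      nth_rewrite 1 [hAB]; rw [tr_neg, tr_mul_comm]
    have : (2 : F) * tr (A * B) = 0 := by linear_combination h1
    exact (mul_eq_zero.1 this).resolve_left h2
  have dA := sl2_det A
  have dB := sl2_det B
  have e00 := congrArg (fun g : SL(2, F) => g 0 0) hAB
  have e01 := congrArg (fun g : SL(2, F) => g 0 1) hAB
  have e10 := congrArg (fun g : SL(2, F) => g 1 0) hAB
  have e11 := congrArg (fun g : SL(2, F) => g 1 1) hAB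
  simp only [sl2_mul, sl2_neg] at e00 e01 e10 e11
  simp only [tr, sl2_mul] at hA hB hs
  obtain ⟨v₀, v₁, hv, k₀, k₁⟩ := exists_kernel_vec
    (a := B 0 0 - y * A 0 0 - x) (b := B 0 1 - y * A 0 1) (c := B 1 0 - y * A 1 0)
    (d := B 1 1 - y * A 1 1 - x) (by grind)
  have hD : v₀ * (A 1 0 * v₀ + A 1 1 * v₁) - v₁ * (A 0 0 * v₀ + A 0 1 * v₁) ≠ 0 := by
    intro hD
    -- `v` would be a common eigenvector
    obtain ⟨μ, m₀, m₁⟩ : ∃ μ, A 0 0 * v₀ + A 0 1 * v₁ = μ * v₀ ∧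
        A 1 0 * v₀ + A 1 1 * v₁ = μ * v₁ := by
      by_cases h0 : v₀ = 0
      · have h1 : v₁ ≠ 0 := fun e => hv ⟨h0, e⟩
        refine ⟨A 1 1, ?_, by rw [h0]; ring⟩
        rw [h0] at hD
        have h01 : A 0 1 * (v₁ * v₁) = 0 := by linear_combination (-1 : F) * hD
        rw [h0, (mul_eq_zero.1 h01).resolve_right (mul_ne_zero h1 h1)]
        ring
      · exact ⟨(A 0 0 * v₀ + A 0 1 * v₁) / v₀, by field_simp, by field_simp; linear_combination hD⟩
    have hμ : μ * μ = -1 := by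
      by_cases h0 : v₀ = 0
      · have h1 : v₁ ≠ 0 := fun e => hv ⟨h0, e⟩
        apply mul_right_cancel₀ h1; grind
      · apply mul_right_cancel₀ h0; grind
    have hν : (x + y * μ) * μ = 0 := by
      have h4 : (2 : F) * ((x + y * μ) * μ) * v₀ = 0 := by grind
      have h5 : (2 : F) * ((x + y * μ) * μ) * v₁ = 0 := by grind
      by_cases h0 : v₀ = 0
      · have h1 : v₁ ≠ 0 := fun e => hv ⟨h0, e⟩
        exact (mul_eq_zero.1 ((mul_eq_zero.1 h5).resolve_right h1)).resolve_left h2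
      · exact (mul_eq_zero.1 ((mul_eq_zero.1 h4).resolve_right h0)).resolve_left h2
    rcases mul_eq_zero.1 hν with e | e
    · grind
    · rw [e, mul_zero] at hμ
      exact one_ne_zero (α := F) (by linear_combination hμ)
  obtain ⟨ψ, B₀, h1, h2', a1, a2, a3, a4⟩ := pair_normal_form A B x y v₀ v₁ hD
    (by linear_combination k₀) (by linear_combination k₁)
  refine ⟨ψ, B₀, ?_, h2', a1, a2, ?_, ?_⟩
  · rw [h1, show tr A = 0 from hA]
  · rw [a3]; simp only [tr, sl2_mul]; grind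
  · rw [a4]; simp only [tr]; grind

/-- A pair with traces `(t, 0, 1)` has a normal form, given a solution of its norm equation. -/
lemma icosahedral_normal_form [Finite F] {X Y : SL(2, F)} {t α β : F} (hX : tr X = t)
    (ht : t ^ 2 + t - 1 = 0) (hY : tr Y = 0) (hXY : tr (X * Y) = 1)
    (hαβ : α ^ 2 + t * α * β + β ^ 2 - β + 1 = 0) :
    ∃ (ψ : PSL(2, F) ≃* PSL(2, F)) (Y₀ : SL(2, F)), ψ (π X) = π (comp t) ∧ ψ (π Y) = π Y₀ ∧
      Y₀ 0 0 = -α ∧ Y₀ 1 0 = -β ∧ Y₀ 0 1 = 1 - β - t * α ∧ Y₀ 1 1 = α := by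
  have dX := sl2_det X
  have dY := sl2_det Y
  simp only [tr, sl2_mul] at hX hY hXY
  obtain ⟨v₀, v₁, hv, k₀, k₁⟩ := exists_kernel_vec
    (a := α + β * X 0 0 + Y 0 0) (b := β * X 0 1 + Y 0 1) (c := β * X 1 0 + Y 1 0)
    (d := α + β * X 1 1 + Y 1 1) (by grind)
  have hD : v₀ * (X 1 0 * v₀ + X 1 1 * v₁) - v₁ * (X 0 0 * v₀ + X 0 1 * v₁) ≠ 0 := by
    intro hD
    obtain ⟨l, m₀, m₁⟩ : ∃ l, X 0 0 * v₀ + X 0 1 * v₁ = l * v₀ ∧
        X 1 0 * v₀ + X 1 1 * v₁ = l * v₁ := by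
      by_cases h0 : v₀ = 0
      · have h1 : v₁ ≠ 0 := fun e => hv ⟨h0, e⟩
        refine ⟨X 1 1, ?_, by rw [h0]; ring⟩
        rw [h0] at hD
        have h01 : X 0 1 * (v₁ * v₁) = 0 := by linear_combination (-1 : F) * hD
        rw [h0, (mul_eq_zero.1 h01).resolve_right (mul_ne_zero h1 h1)]
        ring
      · exact ⟨(X 0 0 * v₀ + X 0 1 * v₁) / v₀, by field_simp, by field_simp; linear_combination hD⟩
    set μ := -α - β * l with hμdef
    have n₀ : Y 0 0 * v₀ + Y 0 1 * v₁ = μ * v₀ := by rw [hμdef]; linear_combination k₀ - β * m₀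
    have n₁ : Y 1 0 * v₀ + Y 1 1 * v₁ = μ * v₁ := by rw [hμdef]; linear_combination k₁ - β * m₁
    clear_value μ
    have hμ : μ * μ = -1 := by
      by_cases h0 : v₀ = 0
      · have h1 : v₁ ≠ 0 := fun e => hv ⟨h0, e⟩
        apply mul_right_cancel₀ h1; grind
      · apply mul_right_cancel₀ h0; grind
    have hl : l * l - t * l + 1 = 0 := by
      by_cases h0 : v₀ = 0
      · have h1 : v₁ ≠ 0 := fun e => hv ⟨h0, e⟩
        apply mul_right_cancel₀ h1; grind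
      · apply mul_right_cancel₀ h0; grind
    have hmix : μ * (2 * l - t) = 1 := by
      by_cases h0 : v₀ = 0
      · have h1 : v₁ ≠ 0 := fun e => hv ⟨h0, e⟩
        apply mul_right_cancel₀ h1; grind
      · apply mul_right_cancel₀ h0; grind
    have h3 : t ^ 2 = 3 := by
      linear_combination -(1 + μ * (2 * l - t)) * hmix + (2 * l - t) ^ 2 * hμ - 4 * hl
    exact one_ne_zero (α := F) (by linear_combination (t - 1) * h3 - (t - 2) * ht)
  obtain ⟨ψ, Y₀, h1, h2', a1, a2, a3, a4⟩ := pair_normal_form X Y (-α) (-β) v₀ v₁ hD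
    (by linear_combination k₀) (by linear_combination k₁)
  refine ⟨ψ, Y₀, ?_, h2', a1, a2, ?_, ?_⟩
  · rw [h1, show tr X = t from hX]
  · rw [a3]; simp only [tr, sl2_mul]; grind
  · rw [a4]; simp only [tr]; grind

end Cfsg.Agent.H79.PSLTwoMax
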