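import Cfsg.Agent.H79.PSLTwoMax.Classify

/-!
# Maximal subgroups of `PGL₂(q)` not containing `PSL₂(q)`: basic tools
-/

set_option autoImplicit false

open Matrix MatrixGroups

namespace Cfsg.Agent.H79.PSLTwoMax

open Cfsg.Agent.H6

variable {F : Type*} [Field F]

/-- The image of `SL₂` in `PGL₂`. -/
def LL (F : Type*) [Field F] : Subgroup PGL(2, F) :=
  (Matrix.ProjGenLinGroup.mk.comp Matrix.SpecialLinearGroup.toGL).range

/-- `PSL₂ → PGL₂`. -/
def ε : PSL(2, F) →* PGL(2, F) := ProjectiveSpecialLinearGroup.toPGL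

lemma ε_π (s : SL(2, F)) :
    ε (π s) = Matrix.ProjGenLinGroup.mk (SpecialLinearGroup.toGL s) := rfl

lemma ε_injective : Function.Injective (ε : PSL(2, F) → PGL(2, F)) :=
  ProjectiveSpecialLinearGroup.toPGL_injective

lemma LL_eq : LL F = (ε : PSL(2, F) →* PGL(2, F)).range := by
  ext x
  constructor
  · rintro ⟨s, rfl⟩; exact ⟨π s, rfl⟩
  · rintro ⟨y, rfl⟩
    obtain ⟨s, rfl⟩ := π_surjective y
    exact ⟨s, rfl⟩

lemma ε_mem_LL (x : PSL(2, F)) : ε x ∈ LL F := LL_eq (F := F) ▸ ⟨x, rfl⟩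

lemma ε_conj (g : GL (Fin 2) F) (x : PSL(2, F)) :
    Matrix.ProjGenLinGroup.mk g * ε x * (Matrix.ProjGenLinGroup.mk g)⁻¹ = ε (conjGP g x) := by
  obtain ⟨s, rfl⟩ := π_surjective x
  rw [conjGP_π, ε_π, ε_π, ← map_inv, ← map_mul, ← map_mul]
  congr 1
  exact Units.ext rfl

lemma conjGP_self_inv (g : GL (Fin 2) F) (x : PSL(2, F)) : conjGP g (conjGP g⁻¹ x) = x := by
  rw [← conjGP_mul, mul_inv_cancel, conjGP_one]

/-- Invariance of a subgroup of `PSL₂` under a subgroup of `PGL₂`. -/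
def Inv (M : Subgroup PGL(2, F)) (X : Subgroup PSL(2, F)) : Prop :=
  ∀ g : GL (Fin 2) F, Matrix.ProjGenLinGroup.mk g ∈ M → ∀ x ∈ X, conjGP g x ∈ X

lemma inv_normalizer {M : Subgroup PGL(2, F)} {X : Subgroup PSL(2, F)} (h : Inv M X) :
    Inv M (Subgroup.normalizer (X : Set PSL(2, F))) := by
  intro g hg x hx
  rw [Subgroup.mem_normalizer_iff]
  intro z
  have hg' : Matrix.ProjGenLinGroup.mk g⁻¹ ∈ M := by rw [map_inv]; exact inv_mem hg
  have key : ∀ z, z ∈ X ↔ conjGP g⁻¹ z ∈ X := fun z =>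
    ⟨fun hz => h _ hg' z hz, fun hz => by
      have := h _ hg _ hz
      rwa [conjGP_self_inv] at this⟩
  rw [key z, key (conjGP g x * z * (conjGP g x)⁻¹), map_mul, map_mul, map_inv,
    show conjGP g⁻¹ (conjGP g x) = x by rw [← conjGP_mul, inv_mul_cancel, conjGP_one]]
  exact Subgroup.mem_normalizer_iff.1 hx _

lemma le_normalizer_of_inv {M : Subgroup PGL(2, F)} {X : Subgroup PSL(2, F)} (h : Inv M X) :
    M ≤ Subgroup.normalizer ((X.map ε : Subgroup PGL(2, F)) : Set PGL(2, F)) := by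
  intro m hm
  obtain ⟨g, rfl⟩ := Matrix.ProjGenLinGroup.mk_surjective m
  have key : ∀ g : GL (Fin 2) F, Matrix.ProjGenLinGroup.mk g ∈ M → ∀ z ∈ X.map ε,
      Matrix.ProjGenLinGroup.mk g * z * (Matrix.ProjGenLinGroup.mk g)⁻¹ ∈ X.map ε := by
    rintro g hg _ ⟨x, hx, rfl⟩
    exact ⟨_, h g hg x hx, (ε_conj g x).symm⟩
  rw [Subgroup.mem_normalizer_iff]
  intro z
  refine ⟨key g hm z, fun hz => ?_⟩
  have := key g⁻¹ (by rw [map_inv]; exact inv_mem hm) _ hz
  simpa [mul_assoc] using this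

lemma inv_of_le_normalizer {M : Subgroup PGL(2, F)} {X : Subgroup PSL(2, F)}
    (h : M ≤ Subgroup.normalizer ((X.map ε : Subgroup PGL(2, F)) : Set PGL(2, F))) : Inv M X := by
  intro g hg x hx
  have := (Subgroup.mem_normalizer_iff.1 (h hg) (ε x)).1 (Subgroup.mem_map_of_mem ε hx)
  rw [ε_conj] at this
  exact (Subgroup.mem_map_iff_mem ε_injective).1 this

lemma inv_comap (M : Subgroup PGL(2, F)) : Inv M (M.comap ε) := by
  intro g hg x hx
  rw [Subgroup.mem_comap] at hx ⊢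
  rw [← ε_conj]
  exact mul_mem (mul_mem hg hx) (inv_mem hg)

/-- A subgroup containing an element whose torus is preserved. -/
lemma inv_tor {M : Subgroup PGL(2, F)} {g₀ : SL(2, F)} (hns : ¬ IsScal g₀)
    (h : ∀ g : GL (Fin 2) F, Matrix.ProjGenLinGroup.mk g ∈ M → conjGP g (π g₀) ∈ tor g₀) :
    Inv M (tor g₀) := by
  intro g hg z hz
  obtain ⟨s, hs, rfl⟩ := hz
  have h1 := h g hg
  rw [conjGP_π, mem_tor] at h1
  have hns' : ¬ IsScal (conjGSL g g₀) := by
    intro hc
    apply hns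
    have := π_eq_one_iff_isScal.2 hc
    rw [← conjGP_π, ← map_one (conjGP g)] at this
    exact π_eq_one_iff_isScal.1 (conjGP_injective g this)
  rw [conjGP_π, mem_tor, ← cent_eq_of_mem hns h1 hns', mem_cent, ← map_mul, ← map_mul]
  exact congrArg (conjGSL g) (mem_cent.1 hs)

variable [Fintype F] {q : ℕ}

instance finite_pgl2 : Finite PGL(2, F) :=
  Finite.of_surjective _ Matrix.ProjGenLinGroup.mk_surjective

lemma card_pgl2 (hF : Fintype.card F = q) : Nat.card PGL(2, F) = q * (q ^ 2 - 1) := by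
  rw [Cfsg.Agent.H1.card_PGL, card_sl2 hF]

lemma card_LL : Nat.card (LL F) = Nat.card PSL(2, F) := by
  rw [LL_eq]; exact Nat.card_congr (MonoidHom.ofInjective ε_injective).symm.toEquiv

lemma index_LL (hF : Fintype.card F = q) (hodd : q % 2 = 1) : (LL F).index = 2 := by
  have h := (LL F).card_mul_index
  rw [card_LL, card_pgl2 hF, ← two_mul_card_psl hF hodd, mul_comm 2] at h
  exact Nat.eq_of_mul_eq_mul_left Nat.card_pos h

lemma LL_ne_top (hF : Fintype.card F = q) (hodd : q % 2 = 1) : LL F ≠ ⊤ := fun e => by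
  have := index_LL hF hodd
  rw [e, Subgroup.index_top] at this
  omega

/-- A subgroup with an element outside `LL` is twice as large as its part in `PSL₂`. -/
lemma card_of_outer (hF : Fintype.card F = q) (hodd : q % 2 = 1) {S : Subgroup PGL(2, F)}
    {a : PGL(2, F)} (ha : a ∈ S) (haL : a ∉ LL F) : Nat.card S = 2 * Nat.card (S.comap ε) := by
  have hL := index_LL hF hodd
  have hi : ((LL F).subgroupOf S).index = 2 := by
    rw [Subgroup.index_eq_two_iff]
    refine ⟨⟨a, ha⟩, fun b => ?_⟩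
    simp only [Subgroup.mem_subgroupOf, Subgroup.coe_mul]
    have := Subgroup.mul_mem_iff_of_index_two hL (a := (b : PGL(2, F))) (b := a)
    by_cases hb : (b : PGL(2, F)) ∈ LL F
    · exact Or.inr ⟨hb, fun h => haL ((this.1 h).1 hb)⟩
    · exact Or.inl ⟨this.2 (iff_of_false hb haL), hb⟩
  have h := ((LL F).subgroupOf S).card_mul_index
  rw [hi] at h
  rw [← h, mul_comm]
  congr 1
  symm
  refine Nat.card_congr (Equiv.ofBijective
    (fun x => ⟨⟨ε x.1, x.2⟩, Subgroup.mem_subgroupOf.2 (ε_mem_LL x.1)⟩) ⟨fun x y e => ?_, ?_⟩)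
  · exact Subtype.ext (ε_injective (congrArg (fun z => (z.1 : PGL(2, F))) e))
  · rintro ⟨⟨z, hz⟩, hzL⟩
    rw [Subgroup.mem_subgroupOf, LL_eq] at hzL
    obtain ⟨x, rfl⟩ := hzL
    exact ⟨⟨x, hz⟩, rfl⟩

/-- The data of a maximal subgroup of `PGL₂` not containing `PSL₂`. -/
structure MaxData (M : Subgroup PGL(2, F)) : Prop where
  coatom : IsCoatom M
  notLe : ¬ LL F ≤ M
  odd : Fintype.card F % 2 = 1
  three : 3 < Fintype.card F

namespace MaxData

variable {M : Subgroup PGL(2, F)}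

lemma exists_outer (h : MaxData M) : ∃ g : GL (Fin 2) F,
    Matrix.ProjGenLinGroup.mk g ∈ M ∧ Matrix.ProjGenLinGroup.mk g ∉ LL F := by
  by_contra hc
  push Not at hc
  have hle : M ≤ LL F := fun m hm => by
    obtain ⟨g, rfl⟩ := Matrix.ProjGenLinGroup.mk_surjective m
    exact hc g hm
  exact h.notLe (eq_of_coatom_le h.coatom hle (LL_ne_top rfl h.odd)).ge

lemma card_eq (h : MaxData M) : Nat.card M = 2 * Nat.card (M.comap ε) := by
  obtain ⟨g, hg, hgL⟩ := h.exists_outer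
  exact card_of_outer rfl h.odd hg hgL

lemma T_ne_top (h : MaxData M) : M.comap ε ≠ ⊤ := fun e => h.notLe (by
  rw [LL_eq]
  rintro _ ⟨x, rfl⟩
  have : x ∈ M.comap ε := e ▸ Subgroup.mem_top x
  exact this)

/-- The only invariant proper overgroup is the intersection itself. -/
lemma eq_of_inv (h : MaxData M) {X : Subgroup PSL(2, F)} (hTX : M.comap ε ≤ X) (hX : Inv M X)
    (hne : X ≠ ⊤) : X = M.comap ε := by
  refine le_antisymm (fun x hx => ?_) hTX
  set S := M ⊔ X.map ε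
  rcases eq_or_lt_of_le (le_sup_left : M ≤ S) with e | hlt
  · exact (e.ge (Subgroup.mem_sup_right (Subgroup.mem_map_of_mem ε hx)) : ε x ∈ M)
  · exfalso
    apply hne
    rw [eq_top_iff]
    intro y _
    have hy : ε y ∈ S := (h.coatom.2 S hlt) ▸ Subgroup.mem_top _
    rw [← SetLike.mem_coe, Subgroup.coe_mul_of_left_le_normalizer_right M _ (le_normalizer_of_inv hX)]
      at hy
    obtain ⟨m, hm, _, ⟨z, hz, rfl⟩, e⟩ := hy
    have hm' : m = ε (y * z⁻¹) := by
      rw [map_mul, map_inv, ← (show m * ε z = ε y from e), mul_inv_cancel_right]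
    have hyz : y * z⁻¹ ∈ X := hTX (show ε (y * z⁻¹) ∈ M from hm' ▸ hm)
    simpa using mul_mem hyz hz

lemma T_ne_bot (h : MaxData M) : M.comap ε ≠ ⊥ := by
  intro hbot
  obtain ⟨hs, hn⟩ := S0810.isSimple (F := F) rfl h.three
  obtain ⟨g, hg, hgL⟩ := h.exists_outer
  have hgg : conjGP g ∘ conjGP g = id := by
    funext x
    show conjGP g (conjGP g x) = x
    have h1 : Matrix.ProjGenLinGroup.mk (g * g) ∈ LL F := by
      rw [map_mul]
      exact (Subgroup.mul_mem_iff_of_index_two (index_LL rfl h.odd)).2 Iff.rfl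
    have h1' := h1
    rw [LL_eq] at h1'
    obtain ⟨z, hz⟩ := h1'
    have hzT : z ∈ M.comap ε := by
      rw [Subgroup.mem_comap, hz, map_mul]; exact mul_mem hg hg
    rw [hbot, Subgroup.mem_bot] at hzT
    apply ε_injective
    rw [← conjGP_mul, ← ε_conj, ← hz, hzT, map_one, one_mul, inv_one, mul_one]
  obtain ⟨u, hu1, hu⟩ : ∃ u, u ≠ 1 ∧ conjGP g u = u := by
    by_contra hc
    push Not at hc
    have hfpf : MonoidHom.FixedPointFree (conjGP g) := fun u hu => by
      by_contra h1; exact hc u h1 hu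
    exact hn ⟨⟨fun a b => MonoidHom.FixedPointFree.commute_all_of_involutive hfpf
      (fun x => congrFun hgg x) a b⟩⟩
  have hM2 : Nat.card M = 2 := by rw [h.card_eq, hbot, Subgroup.card_bot]
  have hinv : Inv M (Subgroup.zpowers u) := by
    intro g' hg' x hx
    obtain ⟨i, rfl⟩ := hx
    have key : conjGP g' u = u := by
      by_cases h1 : Matrix.ProjGenLinGroup.mk g' ∈ LL F
      · have h1' := h1
        rw [LL_eq] at h1'
        obtain ⟨z, hz⟩ := h1'
        have hzT : z ∈ M.comap ε := by rw [Subgroup.mem_comap, hz]; exact hg'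
        rw [hbot, Subgroup.mem_bot] at hzT
        apply ε_injective
        rw [← ε_conj, ← hz, hzT, map_one, one_mul, inv_one, mul_one]
      · have h2 : Matrix.ProjGenLinGroup.mk g' * (Matrix.ProjGenLinGroup.mk g)⁻¹ ∈ LL F :=
          (Subgroup.mul_mem_iff_of_index_two (index_LL rfl h.odd)).2
            (iff_of_false h1 (fun h' => hgL (inv_mem_iff.1 h')))
        rw [LL_eq] at h2
        obtain ⟨z, hz⟩ := h2
        have hzT : z ∈ M.comap ε := by
          rw [Subgroup.mem_comap, hz]; exact mul_mem hg' (inv_mem hg)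
        rw [hbot, Subgroup.mem_bot] at hzT
        rw [hzT, map_one] at hz
        apply ε_injective
        rw [← ε_conj, mul_inv_eq_one.1 hz.symm, ε_conj, hu]
    exact ⟨i, by rw [map_zpow, key]⟩
  have htop : Subgroup.zpowers u ≠ ⊤ := fun e => hn ⟨⟨fun a b => by
    obtain ⟨i, rfl⟩ := (e ▸ Subgroup.mem_top a : a ∈ Subgroup.zpowers u)
    obtain ⟨j, rfl⟩ := (e ▸ Subgroup.mem_top b : b ∈ Subgroup.zpowers u)
    exact (Commute.refl u).zpow_zpow i j⟩⟩
  have := h.eq_of_inv (X := Subgroup.zpowers u) (hbot ▸ bot_le) hinv htop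
  exact hu1 (Subgroup.mem_bot.1 (hbot ▸ this ▸ Subgroup.mem_zpowers u))

lemma normalizer_T (h : MaxData M) :
    Subgroup.normalizer ((M.comap ε : Subgroup PSL(2, F)) : Set PSL(2, F)) = M.comap ε := by
  refine h.eq_of_inv Subgroup.le_normalizer (inv_normalizer (inv_comap M)) fun e => ?_
  have hs := (S0810.isSimple (F := F) rfl h.three).1
  have hN : (M.comap ε).Normal := Subgroup.normalizer_eq_top_iff.1 e
  rcases hN.eq_bot_or_eq_top with e' | e'
  · exact h.T_ne_bot e'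
  · exact h.T_ne_top e'

/-- Conjugation by an element of `PSL₂`. -/
lemma conj (h : MaxData M) (c : PSL(2, F)) :
    MaxData (M.map (MulAut.conj (ε c)).toMonoidHom) ∧
      (M.map (MulAut.conj (ε c)).toMonoidHom).comap ε = cj c (M.comap ε) := by
  have hT : (M.map (MulAut.conj (ε c)).toMonoidHom).comap ε = cj c (M.comap ε) := by
    ext x
    rw [Subgroup.mem_comap, Subgroup.mem_map_equiv, MulAut.conj_symm_apply, mem_cj]
    show _ ↔ ε (c⁻¹ * x * c) ∈ M
    rw [map_mul, map_mul, map_inv]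
  refine ⟨⟨isCoatom_map _ h.coatom, fun hle => ?_, h.odd, h.three⟩, hT⟩
  apply h.notLe
  rw [LL_eq]
  rintro _ ⟨x, rfl⟩
  have hx : c * x * c⁻¹ ∈ (M.map (MulAut.conj (ε c)).toMonoidHom).comap ε :=
    hle (ε_mem_LL _)
  rw [hT, mem_cj] at hx
  rw [show c⁻¹ * (c * x * c⁻¹) * c = x by group] at hx
  exact hx

end MaxData

end Cfsg.Agent.H79.PSLTwoMax
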