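import Cfsg.Agent.H79.PSLTwoMax.PGLPoly
import Cfsg.Agent.H6.DihedralMax

/-!
# Maximal subgroups of `PGL₂(q)` and their intersections with `PSL₂(q)`
-/

set_option autoImplicit false

open Matrix MatrixGroups

namespace Cfsg.Agent.H79.PSLTwoMax

open Cfsg.Agent.H6

variable {F : Type*} [Field F] [Fintype F]

/-- The types of maximal subgroups of `PGL₂(q)`, `q` odd. -/
theorem pgl_types {M : Subgroup PGL(2, F)} (h : MaxData M) :
    Nat.card M = Fintype.card F * (Fintype.card F - 1) ∨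
    (Fintype.card F ≠ 5 ∧ Nonempty (M ≃* DihedralGroup (Fintype.card F - 1))) ∨
    Nonempty (M ≃* DihedralGroup (Fintype.card F + 1)) ∨
    ((Fintype.card F).Prime ∧ (Fintype.card F % 8 = 3 ∨ Fintype.card F % 8 = 5) ∧
      Nonempty (M ≃* Equiv.Perm (Fin 4))) ∨
    (∃ (F₀ : Type) (_ : Field F₀) (_ : Fintype F₀) (r : ℕ), r.Prime ∧ Odd r ∧
        Fintype.card F = Fintype.card F₀ ^ r ∧ Nonempty (M ≃* PGL(2, F₀))) := by
  classical
  obtain ⟨p, hpc⟩ := CharP.exists F
  have := Fact.mk (CharP.char_is_prime F p)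
  obtain ⟨c, hc⟩ := h.classification p
  rcases hc with ⟨-, h1⟩ | ⟨g, ht, -, hn3, hiso⟩ | ⟨-, h1, h2, h3⟩ |
    ⟨F₀, _, _, r, hr, hro, hF, hiso, -⟩
  · exact Or.inl h1
  · have h2 := card_tor_mul (F := F) rfl g
    have := h.odd
    have := h.three
    rw [Nat.gcd_eq_left (show 2 ∣ Fintype.card F - 1 by omega), mul_comm] at h2
    rcases card_cent_ss ht with ⟨-, e⟩ | ⟨-, e⟩ <;> rw [e] at h2 <;> rw [h2] at hiso
    · exact Or.inr (Or.inl ⟨by omega, hiso⟩)
    · exact Or.inr (Or.inr (Or.inl hiso))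
  · exact Or.inr (Or.inr (Or.inr (Or.inl ⟨h1, h2, h3⟩)))
  · exact Or.inr (Or.inr (Or.inr (Or.inr ⟨F₀, inferInstance, inferInstance, r, hr, hro, hF, hiso⟩)))

/-- The Borel subgroup is maximal. -/
lemma isCoatom_borel (p : ℕ) [Fact p.Prime] [CharP F p] {q : ℕ} (hF : Fintype.card F = q)
    (hodd : q % 2 = 1) (h5 : 5 ≤ q) (h7 : q ≠ 7) : IsCoatom (H6.borel F) := by
  refine isCoatom_of_outcome p (borel_ne_top hF) fun c M hle hc => ?_
  have hb := card_borel_mul (F := F) hF
  rw [Nat.gcd_eq_left (show 2 ∣ q - 1 by omega)] at hb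
  have hd : Nat.card (H6.borel F) ∣ Nat.card M := card_cj c (H6.borel F) ▸ Subgroup.card_dvd_of_le hle
  have hge := Nat.le_of_dvd Nat.card_pos hd
  by_cases hlt : Nat.card M ≤ Nat.card (H6.borel F)
  · exact Or.inr hlt
  left
  have hqd : q ∣ 2 * Nat.card M := by
    refine dvd_trans ?_ (Nat.mul_dvd_mul_left 2 hd)
    rw [mul_comm 2, hb]; exact dvd_mul_right q _
  have hqodd : Nat.Coprime q 2 := by
    rw [Nat.coprime_two_right]; exact Nat.odd_iff.2 hodd
  have hqM : q ∣ Nat.card M := hqodd.dvd_of_dvd_mul_left hqd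
  cases hc with
  | triv h =>
    have : 0 < Nat.card (H6.borel F) := Nat.card_pos
    omega
  | dih h =>
    exfalso
    obtain ⟨g, ht, hg⟩ := h
    have h1 := hqM.trans (Subgroup.card_dvd_of_le hg)
    rw [card_torDih ht] at h1
    have h2 := card_tor_mul hF g
    rw [Nat.gcd_eq_left (show 2 ∣ q - 1 by omega), mul_comm] at h2
    rw [h2] at h1
    rcases card_cent_ss ht with ⟨-, e⟩ | ⟨-, e⟩ <;> rw [e, hF] at h1
    · have := Nat.le_of_dvd (by omega) h1; omega
    · have h3 : q ∣ 1 := by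
        have := Nat.dvd_sub h1 (dvd_refl q)
        rwa [Nat.add_sub_cancel_left] at this
      have := Nat.le_of_dvd one_pos h3; omega
  | bor h =>
    obtain ⟨d, hd'⟩ := h
    have := Subgroup.card_le_of_le hd'
    rw [card_cj] at this
    omega
  | a4 h _ =>
    exfalso
    have h21 : 5 * 4 ≤ q * (q - 1) := Nat.mul_le_mul h5 (by omega)
    rw [h] at hd hqM
    have := Nat.le_of_dvd (by norm_num) hqM
    interval_cases q <;> omega
  | s4 h _ _ =>
    exfalso
    rw [h] at hd hqM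
    have := Nat.le_of_dvd (by norm_num) hqM
    interval_cases q <;> omega
  | a5 h _ _ =>
    rw [h] at hd hqM
    have := Nat.le_of_dvd (by norm_num) hqM
    have h21 : q * (q - 1) ≤ 120 := by omega
    have hq11 : q < 12 := by
      by_contra hq
      have : 12 * 11 ≤ q * (q - 1) := Nat.mul_le_mul (by omega) (by omega)
      omega
    have hq5 : q = 5 := by interval_cases q <;> omega
    subst hq5
    refine Subgroup.eq_top_of_le_card _ ?_
    have := two_mul_card_psl hF (by norm_num)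
    norm_num [-Nat.card_eq_fintype_card] at this
    omega
  | gen h =>
    obtain ⟨r, k, hG⟩ := h
    obtain ⟨K, -, hrm, hm, -, hdvd, -, htop⟩ := gen_facts hG hF
    refine htop ?_
    have hr0 : r ≠ 0 := fun e => by rw [e, zero_pow (by omega)] at hrm; omega
    have hcop : Nat.Coprime q (r ^ 2 - 1) := by
      rw [← hrm]
      refine Nat.Coprime.pow_left _ (Nat.Coprime.coprime_dvd_left (dvd_pow_self r two_ne_zero) ?_)
      have h1 : 1 ≤ r ^ 2 := Nat.one_le_pow _ _ (by omega)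
      have := Nat.coprime_self_add_right (m := r ^ 2 - 1) (n := 1)
      rw [Nat.sub_add_cancel h1] at this
      exact Nat.Coprime.symm (this.2 (Nat.coprime_one_right _))
    exact le_antisymm (by rw [← hrm]; exact Nat.le_self_pow (by omega) r)
      (Nat.le_of_dvd (Nat.pos_of_ne_zero hr0) (hcop.dvd_of_dvd_mul_right (hqM.trans hdvd)))

/-- The maximal subgroups of `PGL₂(q)` meet `PSL₂(q)` in maximal subgroups, `q` odd. -/
theorem pgl_meets_coatom {M : Subgroup PGL(2, F)} (h : MaxData M) (h7 : Fintype.card F ≠ 7)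
    (h9 : Fintype.card F ≠ 9) (h11 : Fintype.card F ≠ 11)
    (h40 : (Fintype.card F).Prime → Fintype.card F % 40 ∉ ({11, 19, 21, 29} : Finset ℕ)) :
    IsCoatom (M.comap ε) := by
  classical
  obtain ⟨p, hpc⟩ := CharP.exists F
  have := Fact.mk (CharP.char_is_prime F p)
  have hodd := h.odd
  have h5 : 5 ≤ Fintype.card F := by have := h.three; omega
  obtain ⟨c, hc⟩ := h.classification p
  have hcj : ∀ {S : Subgroup PSL(2, F)}, IsCoatom (cj c S) → IsCoatom S := fun {S} hS =>
    ((MulAut.conj c).mapSubgroup.isCoatom_iff S).1 hS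
  rcases hc with ⟨h1, -⟩ | ⟨g, ht, h1, hn3, -⟩ | ⟨hT, hprime, h8, -⟩ |
    ⟨F₀, _, _, r, -, -, -, -, hco⟩
  · exact hcj (h1 ▸ isCoatom_borel p rfl hodd h5 h7)
  · refine hcj (h1 ▸ isCoatom_torDih rfl ht (by omega) hn3 fun _ => ?_)
    have h2 := card_tor_mul (F := F) rfl g
    rw [Nat.gcd_eq_left (show 2 ∣ Fintype.card F - 1 by omega)] at h2
    rcases card_cent_ss ht with ⟨-, e⟩ | ⟨-, e⟩ <;> rw [e] at h2 <;> omega
  · have hF : Fintype.card F = p := by
      obtain ⟨a, hp, ha⟩ := FiniteField.card F p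
      rw [ha] at hprime ⊢
      rw [hprime.eq_one_of_pow, pow_one]
    rw [hF] at h8 h5 h40 hprime
    have h10 : p % 10 ≠ 1 ∧ p % 10 ≠ 9 := by
      have := h40 hprime
      simp only [Finset.mem_insert, Finset.mem_singleton, not_or] at this
      omega
    obtain ⟨H, hH, hHiso⟩ := exists_alt_four_coatom p hF h5 h8 h10
    have h2 : (2 : F) ≠ 0 := two_ne_of_odd rfl (Nat.odd_iff.2 hodd)
    have key : ∀ S : Subgroup PSL(2, F), Nonempty (S ≃* alternatingGroup (Fin 4)) →
        ∃ V : Subgroup PSL(2, F), IsKleinFour V ∧ S = Subgroup.normalizer (V : Set PSL(2, F)) := by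
      intro S hS
      obtain ⟨V, hV, hle⟩ := exists_four_alt hS
      exact ⟨V, hV, Subgroup.eq_of_le_of_card_ge hle (by
        rw [card_alt_four hS, card_normalizer_four_three h2 hF h8 hV])⟩
    obtain ⟨V, hV, hSV⟩ := key _ hT
    obtain ⟨W, hW, hHW⟩ := key H hHiso
    obtain ⟨d, hd⟩ := fours_conj h2 hF h8 W V hW hV
    rw [hSV, hd, ← Subgroup.map_equiv_normalizer_eq W (MulAut.conj d), ← hHW]
    exact isCoatom_map (MulAut.conj d) hH
  · exact hco


omit [Fintype F] in
lemma isCoatom_subgroupOf {M : Subgroup PGL(2, F)} (hT : IsCoatom (M.comap ε)) :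
    IsCoatom ((M ⊓ LL F).subgroupOf (LL F)) := by
  let e : PSL(2, F) ≃* LL F := (MonoidHom.ofInjective ε_injective).trans
    (MulEquiv.subgroupCongr LL_eq.symm)
  have he : ∀ x, ((e x : LL F) : PGL(2, F)) = ε x := fun _ => rfl
  convert isCoatom_map e hT using 1
  ext y
  obtain ⟨x, rfl⟩ := e.surjective y
  rw [Subgroup.mem_subgroupOf, Subgroup.mem_map_equiv, MulEquiv.symm_apply_apply, Subgroup.mem_comap,
    Subgroup.mem_inf, he]
  exact ⟨fun h => h.1, fun h => ⟨h, ε_mem_LL x⟩⟩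

/-- In characteristic two `PSL₂` is all of `PGL₂`. -/
lemma LL_eq_top_of_even (h : Fintype.card F % 2 = 0) : LL F = ⊤ := by
  refine Subgroup.eq_top_of_card_eq _ ?_
  have h1 := card_psl2_mul (F := F) rfl
  have : 1 < Fintype.card F := Fintype.one_lt_card
  rw [(Nat.prime_two.coprime_iff_not_dvd).2 (by omega), mul_one] at h1
  rw [card_LL, card_pgl2 rfl, h1]

/-- The maximal subgroups of `PGL₂(q)` meet `PSL₂(q)` in maximal subgroups. -/
theorem pgl_meets (h4 : 4 ≤ Fintype.card F) (h7 : Fintype.card F ≠ 7)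
    (h9 : Fintype.card F ≠ 9) (h11 : Fintype.card F ≠ 11)
    (h40 : (Fintype.card F).Prime → Fintype.card F % 40 ∉ ({11, 19, 21, 29} : Finset ℕ))
    (M : Subgroup PGL(2, F)) (hM : IsCoatom M) (hML : ¬ LL F ≤ M) :
    IsCoatom ((M ⊓ LL F).subgroupOf (LL F)) := by
  apply isCoatom_subgroupOf
  rcases Nat.mod_two_eq_zero_or_one (Fintype.card F) with he | ho
  · have htop := LL_eq_top_of_even he
    have hs : Function.Surjective (ε : PSL(2, F) → PGL(2, F)) :=
      MonoidHom.range_eq_top.1 (LL_eq (F := F) ▸ htop)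
    let e := MulEquiv.ofBijective ε ⟨ε_injective, hs⟩
    convert isCoatom_map e.symm hM using 1
    ext x
    rw [Subgroup.mem_comap, Subgroup.mem_map_equiv]
    rfl
  · exact pgl_meets_coatom ⟨hM, hML, ho, by omega⟩ h7 h9 h11 h40

end Cfsg.Agent.H79.PSLTwoMax
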