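import Cfsg.Agent.H79.PSLTwoMax.PGLTypes

/-!
# Maximal subgroups of `PGL₂(q)`: polyhedral and subfield types
-/

set_option autoImplicit false

open Matrix MatrixGroups

namespace Cfsg.Agent.H79.PSLTwoMax

open Cfsg.Agent.H6

variable {F : Type*} [Field F] [Fintype F]

lemma card_filter_sq_alt_four :
    (Finset.univ.filter fun x : alternatingGroup (Fin 4) => x * x = 1).card = 4 := by decide

lemma sq_set_perm_four : ∀ x : Equiv.Perm (Fin 4),
    (x = 1 ∨ x = Equiv.swap 0 1 * Equiv.swap 2 3 ∨ x = Equiv.swap 0 2 * Equiv.swap 1 3 ∨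
      x = Equiv.swap 0 1 * Equiv.swap 2 3 * (Equiv.swap 0 2 * Equiv.swap 1 3)) ↔
    ((∃ y, y * y = x) ∧ x * x = 1) := by decide

omit [Fintype F] in
/-- The characteristic four-group of a copy of `S₄`. -/
lemma char_four_perm {T : Subgroup PSL(2, F)} (h : Nonempty (T ≃* Equiv.Perm (Fin 4))) :
    ∃ V : Subgroup PSL(2, F), IsKleinFour V ∧ T ≤ Subgroup.normalizer (V : Set PSL(2, F)) ∧
      ∀ x, x ∈ V ↔ ((∃ y ∈ T, y * y = x) ∧ x * x = 1) := by
  obtain ⟨e⟩ := h
  let W : Subgroup (Equiv.Perm (Fin 4)) :=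
    H29.fourSubgroup (Equiv.swap 0 1 * Equiv.swap 2 3) (Equiv.swap 0 2 * Equiv.swap 1 3)
      (by decide) (by decide) (by decide)
  have hW : IsKleinFour W := H29.isKleinFour_fourSubgroup (by decide) (by decide) (by decide)
  have hWmem : ∀ x, x ∈ W ↔ ((∃ y, y * y = x) ∧ x * x = 1) := fun x =>
    H29.mem_fourSubgroup.trans (sq_set_perm_four x)
  have : W.Normal := ⟨fun x hx g => (hWmem _).2 (by
    obtain ⟨⟨y, rfl⟩, h2⟩ := (hWmem x).1 hx
    refine ⟨⟨g * y * g⁻¹, by group⟩, ?_⟩
    calc g * (y * y) * g⁻¹ * (g * (y * y) * g⁻¹) = g * (y * y * (y * y)) * g⁻¹ := by group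
      _ = 1 := by rw [h2]; group)⟩
  let f : Equiv.Perm (Fin 4) →* PSL(2, F) := T.subtype.comp e.symm.toMonoidHom
  have hf : Function.Injective f := Subtype.val_injective.comp e.symm.injective
  refine ⟨W.map f, H29.isKleinFour_map f hf hW, ?_, fun x => ⟨?_, ?_⟩⟩
  · intro x hx
    refine Subgroup.le_normalizer_map (H := W) f (Subgroup.mem_map.2 ⟨e ⟨x, hx⟩, ?_, by simp [f]⟩)
    rw [Subgroup.normalizer_eq_top]
    trivial
  · rintro ⟨w, hw, rfl⟩
    obtain ⟨⟨y, rfl⟩, h2⟩ := (hWmem w).1 hw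
    exact ⟨⟨f y, (e.symm y).2, (map_mul f y y).symm⟩, by rw [← map_mul, h2, map_one]⟩
  · rintro ⟨⟨y, hy, rfl⟩, h2⟩
    refine ⟨e ⟨y, hy⟩ * e ⟨y, hy⟩, (hWmem _).2 ⟨⟨_, rfl⟩, ?_⟩, by simp [f]⟩
    apply hf
    simp only [map_mul, map_one]
    simpa [f] using h2

lemma field_le_of_trace_GL {K : Type*} [Field K] [Finite K] (κ : K →+* F) (L : Subfield F)
    (P : GL (Fin 2) F) {M : Subgroup PSL(2, F)} (hle : ((pslMap κ).range).map (conjGP P) ≤ M)
    (htr : ∀ g : SL(2, F), π g ∈ M → tr g ^ 2 ∈ L) (x : K) : κ x ∈ L := by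
  have hsq : ∀ x : K, κ x ^ 2 ∈ L := by
    intro x
    have hmem : π (conjGSL P (SpecialLinearGroup.map κ (H6.comp x))) ∈ M :=
      hle ⟨_, ⟨π (H6.comp x), pslMap_π _ _⟩, conjGP_π _ _⟩
    have h := htr _ hmem
    rw [tr_conjGSL] at h
    have e : tr (SpecialLinearGroup.map κ (H6.comp x)) = κ x := by simp [tr, H6.comp]
    rwa [e] at h
  by_cases h2 : (2 : K) = 0
  · have : CharP K 2 := (CharP.charP_iff_prime_eq_zero Nat.prime_two).2 (by exact_mod_cast h2)
    have := Fintype.ofFinite K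
    obtain ⟨y, rfl⟩ := (bijective_frobenius K 2).surjective x
    rw [frobenius_def, map_pow]
    exact hsq y
  · have e : x = ((x + 1) ^ 2 - x ^ 2 - 1) / 2 := by field_simp; ring
    rw [e, map_div₀, map_sub, map_sub, map_one, map_pow, map_pow, map_ofNat]
    exact div_mem (sub_mem (sub_mem (hsq _) (hsq _)) (one_mem _)) (ofNat_mem _ 2)

variable (p : ℕ) [Fact p.Prime] [CharP F p] {M : Subgroup PGL(2, F)}

include p in
lemma MaxData.p_ne_two (h : MaxData M) : p ≠ 2 := fun e => by
  obtain ⟨a, -, hq⟩ := FiniteField.card F p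
  have ho := h.odd
  have : 2 ∣ Fintype.card F := hq ▸ e ▸ dvd_pow_self p a.ne_zero
  omega

include p in
/-- `S₄` does not occur as an intersection. -/
lemma MaxData.not_perm_four (h : MaxData M) (hT : Nonempty (M.comap ε ≃* Equiv.Perm (Fin 4))) :
    False := by
  obtain ⟨V, hV, -, hVmem⟩ := char_four_perm hT
  obtain ⟨a, -, hq⟩ := FiniteField.card F p
  obtain ⟨F', _, _, _, ι, J, hJi, hJ, hc⟩ := exists_quad (F := F) p a hq a.ne_zero
  have h2 := two_ne_of_ne (F := F') p (h.p_ne_two p)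
  have hinv : Inv M V := by
    intro g hg x hx
    obtain ⟨⟨y, hy, e⟩, h2⟩ := (hVmem x).1 hx
    exact (hVmem _).2 ⟨⟨conjGP g y, inv_comap M g hg y hy, by rw [← map_mul, e]⟩,
      by rw [← map_mul, h2, map_one]⟩
  have hV' := H29.isKleinFour_map (pslMap ι) (pslMap_injective ι) hV
  have hle := Subgroup.card_dvd_of_le (map_le_normalizer_of_inv hJ hinv)
  have h8 : Fintype.card F' % 8 = 1 := by
    rw [hc, Nat.pow_mod]
    have := h.odd
    rcases (show Fintype.card F % 8 = 1 ∨ Fintype.card F % 8 = 3 ∨ Fintype.card F % 8 = 5 ∨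
      Fintype.card F % 8 = 7 by omega) with e | e | e | e <;> rw [e]
  rw [card_normalizer_four_one h2 rfl (Or.inl h8) hV', Subgroup.card_map_of_injective hJi, h.card_eq,
    card_perm_four hT] at hle
  norm_num at hle

include p in
/-- `A₅` does not occur as an intersection. -/
lemma MaxData.not_alt_five (h : MaxData M) (hp5 : p ≠ 5)
    (hT : Nonempty (M.comap ε ≃* alternatingGroup (Fin 5))) : False := by
  obtain ⟨a, -, hq⟩ := FiniteField.card F p
  obtain ⟨F', _, _, _, ι, J, hJi, hJ, -⟩ := exists_quad (F := F) p a hq a.ne_zero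
  have hT60 : Nat.card (M.comap ε) = 60 := by
    obtain ⟨e⟩ := hT
    rw [Nat.card_congr e.toEquiv, nat_card_alternatingGroup, Nat.card_eq_fintype_card,
      Fintype.card_fin]
    rfl
  have hA4 : HasA4 (M.map J) := by
    refine hasA4_mono ?_ (hasA4_map (pslMap ι) (pslMap_injective ι) (hasA4_alt_five hT))
    rintro _ ⟨x, hx, rfl⟩
    exact ⟨ε x, hx, hJ x⟩
  have hcard : Nat.card (M.map J) = 120 := by
    rw [Subgroup.card_map_of_injective hJi, h.card_eq, hT60]
  obtain ⟨c, hc⟩ := exists_outcome p (M.map J)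
  have hA4' : HasA4 (cj c (M.map J)) :=
    hasA4_map (MulAut.conj c).toMonoidHom (MulEquiv.injective _) hA4
  cases hc with
  | triv h' => rw [card_cj, hcard] at h'; omega
  | dih h' => obtain ⟨g, ht, hg⟩ := h'; exact not_le_torDih hA4' ht hg
  | bor h' => obtain ⟨d, hd⟩ := h'; exact not_cj_le_borel p (h.p_ne_two p) hA4' d hd
  | a4 h' _ => rw [card_cj, hcard] at h'; omega
  | s4 h' _ _ => rw [card_cj, hcard] at h'; omega
  | a5 h' _ _ => rw [card_cj, hcard] at h'; omega
  | gen h' =>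
    obtain ⟨r, k, hG⟩ := h'
    obtain ⟨K, hK, hrm, hm, -, -, -, -⟩ := gen_facts hG (rfl : Fintype.card F' = _)
    obtain ⟨b, -, hb⟩ := FiniteField.card F' p
    have hr : r ∣ p ^ (b : ℕ) := hb ▸ hrm ▸ dvd_pow_self r (by omega)
    obtain ⟨i, -, hi⟩ := (Nat.dvd_prime_pow Fact.out).1 hr
    obtain ⟨-, -, -, hk1, hkr, hcard', -, -⟩ := hG
    rw [card_cj, hcard] at hcard'
    have hr8 : r ≤ 8 := by
      by_contra hlt
      have : 10 * (9 * 2) ≤ (r + 1) * (r * k) :=
        Nat.mul_le_mul (by omega) (Nat.mul_le_mul (by omega) (by omega))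
      omega
    have hro : r % 2 = 1 := by
      rw [hi]; exact Nat.odd_iff.1 ((Fact.out : p.Prime).odd_of_ne_two (h.p_ne_two p)).pow
    have hr5 : r = 5 := by
      interval_cases r <;> omega
    rw [hr5] at hi
    exact hp5 ((Nat.prime_dvd_prime_iff_eq (by norm_num) Fact.out).1
      ((show Nat.Prime 5 by norm_num).dvd_of_dvd_pow (n := i) (hi ▸ dvd_refl 5))).symm

lemma pglField_injective {K : Type*} [Field K] (ι : K →+* F) :
    Function.Injective (Matrix.ProjGenLinGroup.map (n := Fin 2) ι) := by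
  refine (injective_iff_map_eq_one _).2 fun x hx => ?_
  obtain ⟨g, rfl⟩ := Matrix.ProjGenLinGroup.mk_surjective x
  rw [Matrix.ProjGenLinGroup.map_mk, Matrix.ProjGenLinGroup.mk_eq_one,
    Matrix.GeneralLinearGroup.center_eq_range_scalar] at hx
  obtain ⟨u, hu⟩ := hx
  have e := fun i j => congrArg (fun z : GL (Fin 2) F => z i j) hu
  have e01 := e 0 1
  have e10 := e 1 0
  have e00 := e 0 0
  have e11 := e 1 1
  simp [Matrix.GeneralLinearGroup.coe_scalar, Matrix.GeneralLinearGroup.map] at e01 e10 e00 e11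
  have h01 : g 0 1 = 0 := ι.injective (by rw [map_zero]; exact e01.symm)
  have h10 : g 1 0 = 0 := ι.injective (by rw [map_zero]; exact e10.symm)
  have hd : g 0 0 = g 1 1 := ι.injective (e00.symm.trans e11)
  have hne : g 0 0 ≠ 0 := fun e => (Matrix.GeneralLinearGroup.det g).ne_zero (by
    rw [Matrix.GeneralLinearGroup.val_det_apply, Matrix.det_fin_two]; simp [e, h01])
  rw [show (1 : PGL(2, K)) = Matrix.ProjGenLinGroup.mk (.scalar (Fin 2) (Units.mk0 _ hne)) from
    (Matrix.ProjGenLinGroup.mk_scalar _).symm]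
  congr 1
  refine Units.ext (Matrix.ext fun i j => ?_)
  fin_cases i <;> fin_cases j <;> simp [Matrix.GeneralLinearGroup.coe_scalar, h01, h10, ← hd]

omit [Fintype F] in
lemma pglField_ε {K : Type*} [Field K] (ι : K →+* F) (x : PSL(2, K)) :
    Matrix.ProjGenLinGroup.map ι (ε x) = ε (pslMap ι x) := by
  obtain ⟨s, rfl⟩ := π_surjective x
  rw [ε_π, pslMap_π, ε_π, Matrix.ProjGenLinGroup.map_mk]
  congr 1
  exact Units.ext (Matrix.ext fun _ _ => rfl)

/-- The range of the change of field on `PGL₂`. -/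
lemma card_pglField_range {K : Type*} [Field K] [Fintype K] (ι : K →+* F) :
    Nat.card (Matrix.ProjGenLinGroup.map (n := Fin 2) ι).range =
      Fintype.card K * (Fintype.card K ^ 2 - 1) := by
  rw [Nat.card_congr (MonoidHom.ofInjective (pglField_injective ι)).symm.toEquiv, card_pgl2 rfl]

lemma pglField_not_ge {K : Type*} [Field K] [Fintype K] (ι : K →+* F) {r : ℕ} (hr : 2 ≤ r)
    (hodd : Fintype.card F % 2 = 1) (hFK : Fintype.card F = Fintype.card K ^ r) :
    (Matrix.ProjGenLinGroup.map (n := Fin 2) ι).range ≠ ⊤ ∧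
      Nat.card (Matrix.ProjGenLinGroup.map (n := Fin 2) ι).range < Nat.card (LL F) := by
  have h : Nat.card (Matrix.ProjGenLinGroup.map (n := Fin 2) ι).range < Nat.card (LL F) := by
    rw [card_pglField_range, card_LL]
    have h1 := two_mul_card_psl (F := F) rfl hodd
    rcases lt_pow_card (q₀ := Fintype.card K) Fintype.one_lt_card hr with h' | h'
    · rw [← hFK] at h'; omega
    · exfalso
      obtain ⟨i, rfl⟩ : ∃ i, r = i + 1 := ⟨r - 1, by omega⟩
      rw [hFK, h', pow_succ, Nat.mul_mod_left] at hodd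
      omega
  refine ⟨fun e => ?_, h⟩
  rw [e] at h
  exact absurd h (Subgroup.card_le_of_le le_top).not_gt

/-- In `PGL₂` a four-group of `PSL₂` has a normaliser outside `PSL₂`. -/
lemma outer_normalizer_four {L : Type*} [Field L] [Fintype L]
    (h8 : Fintype.card L % 8 = 3 ∨ Fintype.card L % 8 = 5) {V : Subgroup PSL(2, L)}
    (hV : IsKleinFour V) :
    Nat.card (Subgroup.normalizer ((V.map ε : Subgroup PGL(2, L)) : Set PGL(2, L))) =
      2 * Nat.card ((Subgroup.normalizer ((V.map ε : Subgroup PGL(2, L)) : Set PGL(2, L))).comap ε) ∧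
    (Subgroup.normalizer ((V.map ε : Subgroup PGL(2, L)) : Set PGL(2, L))).comap ε =
      Subgroup.normalizer (V : Set PSL(2, L)) := by
  have hodd : Fintype.card L % 2 = 1 := by omega
  have h2 : (2 : L) ≠ 0 := two_ne_of_odd rfl (Nat.odd_iff.2 hodd)
  set N := Subgroup.normalizer ((V.map ε : Subgroup PGL(2, L)) : Set PGL(2, L))
  have hcomap : N.comap ε = Subgroup.normalizer (V : Set PSL(2, L)) := by
    ext x
    rw [Subgroup.mem_comap, Subgroup.mem_normalizer_iff, Subgroup.mem_normalizer_iff]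
    constructor
    · intro h z
      have := h (ε z)
      rw [← map_inv, ← map_mul, ← map_mul, Subgroup.mem_map_iff_mem ε_injective,
        Subgroup.mem_map_iff_mem ε_injective] at this
      exact this
    · intro h z
      constructor
      · rintro ⟨v, hv, rfl⟩
        exact ⟨x * v * x⁻¹, (h v).1 hv, by rw [map_mul, map_mul, map_inv]⟩
      · rintro ⟨v, hv, e⟩
        refine ⟨x⁻¹ * v * x, (h _).2 (by simpa [mul_assoc] using hv), ?_⟩
        rw [map_mul, map_mul, map_inv, e]
        simp [mul_assoc]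
  refine ⟨?_, hcomap⟩
  obtain ⟨u, hu⟩ : ∃ u, u ∉ LL L := by
    by_contra hc
    push Not at hc
    exact LL_ne_top rfl hodd (eq_top_iff.2 fun x _ => hc x)
  obtain ⟨g, rfl⟩ := Matrix.ProjGenLinGroup.mk_surjective u
  obtain ⟨k, hk⟩ := fours_conj h2 rfl h8 _ _ (H29.isKleinFour_map _ (conjGP_injective g) hV) hV
  refine card_of_outer rfl hodd (a := ε k * Matrix.ProjGenLinGroup.mk g) ?_ fun h => hu ?_
  · show ε k * Matrix.ProjGenLinGroup.mk g ∈ N
    refine cj_eq_iff_mem_normalizer.1 ?_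
    refine Subgroup.eq_of_le_of_card_ge ?_ (Subgroup.card_map_of_injective (MulEquiv.injective _)).ge
    rintro _ ⟨_, ⟨v, hv, rfl⟩, rfl⟩
    refine ⟨k * conjGP g v * k⁻¹, ?_, ?_⟩
    · rw [hk]
      exact ⟨_, Subgroup.mem_map_of_mem _ hv, rfl⟩
    · rw [map_mul, map_mul, map_inv, ← ε_conj]
      simp [mul_assoc]
  · have := mul_mem (inv_mem (ε_mem_LL k)) h
    rwa [inv_mul_cancel_left] at this

include p in
/-- The type `A₄`. -/
theorem MaxData.alt_four_type (h : MaxData M) (hT : Nonempty (M.comap ε ≃* alternatingGroup (Fin 4))) :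
    ((Fintype.card F).Prime ∧ (Fintype.card F % 8 = 3 ∨ Fintype.card F % 8 = 5) ∧
      Nonempty (M ≃* Equiv.Perm (Fin 4))) ∨
    ∃ (F₀ : Type) (_ : Field F₀) (_ : Fintype F₀) (r : ℕ), r.Prime ∧ Odd r ∧
      Fintype.card F = Fintype.card F₀ ^ r ∧ Nonempty (M ≃* PGL(2, F₀)) ∧ IsCoatom (M.comap ε) := by
  classical
  have hp : p.Prime := Fact.out
  have hp2 := h.p_ne_two p
  have h2 := two_ne_of_ne (F := F) p hp2
  obtain ⟨a, -, hq⟩ := FiniteField.card F p
  obtain ⟨V, hV, hle⟩ := exists_four_alt hT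
  have hc := card_alt_four hT
  have hn := h.normalizer_T
  set T := M.comap ε with hTdef
  have h8 : Fintype.card F % 8 = 3 ∨ Fintype.card F % 8 = 5 := by
    by_contra h8
    set N := Subgroup.normalizer (V : Set PSL(2, F))
    have hN : Nat.card N = 24 := card_normalizer_four_one h2 rfl (by have := h.odd; omega) hV
    have hidx : (T.subgroupOf N).index = 2 := by
      have h1 := (T.subgroupOf N).card_mul_index
      rw [Nat.card_congr (Subgroup.subgroupOfEquivOfLe hle).toEquiv, hc, hN] at h1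
      omega
    have := Subgroup.normal_of_index_eq_two hidx
    have hNT := (Subgroup.normal_subgroupOf_iff_le_normalizer hle).1 this
    rw [hn] at hNT
    have := Subgroup.card_le_of_le hNT
    omega
  have hN : T = Subgroup.normalizer (V : Set PSL(2, F)) := Subgroup.eq_of_le_of_card_ge hle (by
    rw [hc, card_normalizer_four_three h2 rfl h8 hV])
  have hVT : V ≤ T := hN ▸ Subgroup.le_normalizer
  have hVmem : ∀ x, x ∈ V ↔ x ∈ T ∧ x * x = 1 := by
    have hsub : (V : Set PSL(2, F)) ⊆ {x | x ∈ T ∧ x * x = 1} := fun x hx =>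
      ⟨hVT hx, by rw [← sq]; exact H29.sq_eq_one_of_mem_kleinFour hx⟩
    have hcard : Nat.card {x : PSL(2, F) | x ∈ T ∧ x * x = 1} = 4 := by
      obtain ⟨e⟩ := hT
      rw [← card_filter_sq_alt_four, ← Fintype.card_subtype, ← Nat.card_eq_fintype_card]
      refine Nat.card_congr ((Equiv.subtypeSubtypeEquivSubtypeInter (fun x => x ∈ T)
        (fun x => x * x = 1)).symm.trans (Equiv.subtypeEquiv e.toEquiv fun x => ?_))
      show (x : PSL(2, F)) * x = 1 ↔ e x * e x = 1
      rw [← map_mul, ← map_one e, e.injective.eq_iff]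
      exact ⟨fun h => Subtype.ext h, fun h => congrArg Subtype.val h⟩
    have := Set.eq_of_subset_of_ncard_le hsub (by
      rw [← Nat.card_coe_set_eq, ← Nat.card_coe_set_eq, hcard]; exact hV.card_four.ge) (Set.toFinite _)
    intro x
    exact Set.ext_iff.1 this x
  have hinv : Inv M V := fun g hg x hx =>
    (hVmem _).2 ⟨inv_comap M g hg x ((hVmem x).1 hx).1, by rw [← map_mul, ((hVmem x).1 hx).2, map_one]⟩
  by_cases ha1 : (a : ℕ) = 1
  · left
    refine ⟨by rw [hq, ha1, pow_one]; exact hp, h8, ?_⟩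
    obtain ⟨F', _, _, _, ι, J, hJi, hJ, hc'⟩ := exists_quad (F := F) p a hq a.ne_zero
    have h2' := two_ne_of_ne (F := F') p hp2
    have h8' : Fintype.card F' % 8 = 1 := by
      rw [hc', Nat.pow_mod]
      rcases h8 with e | e <;> rw [e]
    have hV' := H29.isKleinFour_map (pslMap ι) (pslMap_injective ι) hV
    have e1 := Subgroup.eq_of_le_of_card_ge (map_le_normalizer_of_inv hJ hinv) (by
      rw [card_normalizer_four_one h2' rfl (Or.inl h8') hV', Subgroup.card_map_of_injective hJi,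
        h.card_eq, ← hTdef, hc])
    obtain ⟨e2⟩ := (normalizer_four_iso rfl h2' hV').1 (Or.inl h8')
    exact ⟨((M.equivMapOfInjective J hJi).trans (MulEquiv.subgroupCongr e1)).trans e2⟩
  right
  obtain ⟨r, hr, j, hj'⟩ := Nat.exists_prime_and_dvd ha1
  have hj : j ≠ 0 := fun e => a.ne_zero (by rw [hj', e, mul_zero])
  obtain ⟨_, κ, hK⟩ := exists_galois_emb (F := F) p hq ⟨r, by rw [hj', mul_comm]⟩ hj a.ne_zero
  have hFK : Fintype.card F = Fintype.card (GaloisField p j) ^ r := by
    rw [hq, hK, ← pow_mul, hj', mul_comm]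
  have hKo : Fintype.card (GaloisField p j) % 2 = 1 := by
    rw [hK]; exact Nat.odd_iff.1 (hp.odd_of_ne_two hp2).pow
  have hr2 : r % 2 = 1 := by
    rcases hr.eq_two_or_odd with e | e
    · exfalso
      have : Fintype.card F % 8 = 1 := by
        rw [hFK, e, Nat.pow_mod]
        rcases (show Fintype.card (GaloisField p j) % 8 = 1 ∨ Fintype.card (GaloisField p j) % 8 = 3 ∨
          Fintype.card (GaloisField p j) % 8 = 5 ∨ Fintype.card (GaloisField p j) % 8 = 7 by omega)
          with e' | e' | e' | e' <;> rw [e']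
      omega
    · exact e
  have hK8 : Fintype.card (GaloisField p j) % 8 = 3 ∨ Fintype.card (GaloisField p j) % 8 = 5 := by
    rw [← mod_eight_pow_odd hr2 hKo, ← hFK]; exact h8
  have h2K : (2 : GaloisField p j) ≠ 0 := two_ne_of_ne p hp2
  obtain ⟨V₀, hV₀⟩ := exists_four (F := GaloisField p j) h2K
  set V₁ := V₀.map (pslMap κ)
  have hV₁ : IsKleinFour V₁ := H29.isKleinFour_map _ (pslMap_injective κ) hV₀
  obtain ⟨c, hcV⟩ := fours_conj h2 rfl h8 V V₁ hV hV₁
  obtain ⟨h', hT'⟩ := h.conj c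
  set M' := M.map (MulAut.conj (ε c)).toMonoidHom
  -- `M'` is the normaliser of `V₁`
  obtain ⟨hN1, hN2⟩ := outer_normalizer_four h8 hV₁
  obtain ⟨hK1, hK2⟩ := outer_normalizer_four hK8 hV₀
  rw [hN2, card_normalizer_four_three h2 rfl h8 hV₁] at hN1
  rw [hK2, card_normalizer_four_three h2K rfl hK8 hV₀] at hK1
  have hinv' : Inv M' V₁ := by
    apply inv_of_le_normalizer
    have h1 := (Subgroup.map_mono (f := (MulAut.conj (ε c)).toMonoidHom)
      (le_normalizer_of_inv hinv)).trans (Subgroup.le_normalizer_map _)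
    have e : (V.map ε).map (MulAut.conj (ε c)).toMonoidHom = V₁.map ε := by
      rw [hcV, Subgroup.map_map, Subgroup.map_map]
      congr 1
      ext z
      simp
    exact e ▸ h1
  set N₁ := Subgroup.normalizer ((V₁.map ε : Subgroup PGL(2, F)) : Set PGL(2, F))
  have hM' : M' = N₁ := Subgroup.eq_of_le_of_card_ge (le_normalizer_of_inv hinv') (by
    rw [hN1, h'.card_eq, hT', card_cj, hc])
  set R := (Matrix.ProjGenLinGroup.map (n := Fin 2) κ).range
  have hN₁R : N₁ ≤ R := by
    have hmap : (Subgroup.normalizer ((V₀.map ε : Subgroup PGL(2, GaloisField p j)) :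
        Set PGL(2, GaloisField p j))).map (Matrix.ProjGenLinGroup.map κ) ≤ N₁ := by
      refine (Subgroup.le_normalizer_map _).trans (le_of_eq ?_)
      congr 1
      rw [Subgroup.map_map, show V₁ = V₀.map (pslMap κ) from rfl, Subgroup.map_map]
      congr 1
      congr 1
      exact MonoidHom.ext (pglField_ε κ)
    rw [← Subgroup.eq_of_le_of_card_ge hmap (by
      rw [Subgroup.card_map_of_injective (pglField_injective κ), hK1, hN1])]
    exact Subgroup.map_le_range _ _
  obtain ⟨hRtop, -⟩ := pglField_not_ge κ hr.two_le h.odd hFK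
  have hMR : M' = R := eq_of_coatom_le h'.coatom (hM' ▸ hN₁R) hRtop
  obtain ⟨e'⟩ := nonempty_equiv_map (MulAut.conj (ε c)) M
  refine ⟨GaloisField p j, inferInstance, inferInstance, r, hr, Nat.odd_iff.2 hr2, hFK,
    ⟨(e'.symm.trans (MulEquiv.subgroupCongr hMR)).trans
      (MonoidHom.ofInjective (pglField_injective κ)).symm⟩, ?_⟩
  have hTc : cj c T = (pslMap κ).range := by
    refine (Subgroup.eq_of_le_of_card_ge ?_ ?_).symm
    · rintro _ ⟨x, rfl⟩
      rw [← hT', Subgroup.mem_comap, hMR]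
      exact ⟨ε x, pglField_ε κ x⟩
    · rw [card_cj, hc, card_pslMap_range]
      have hle' : Nat.card M' = Nat.card R := by rw [hMR]
      rw [h'.card_eq, hT', card_cj, hc, card_pglField_range,
        ← two_mul_card_psl (F := GaloisField p j) rfl hKo] at hle'
      omega
  have hco : IsCoatom (pslMap κ).range :=
    isCoatom_pslMap_range_odd κ rfl hFK (Nat.odd_iff.2 hKo) hr (by omega)
  rw [← hTc] at hco
  exact ((MulAut.conj c).mapSubgroup.isCoatom_iff T).1 hco

include p in
/-- The subfield type. -/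
theorem MaxData.gen_type (h : MaxData M) {r k : ℕ} (hG : Gen (M.comap ε) r k) :
    ∃ (F₀ : Type) (_ : Field F₀) (_ : Fintype F₀) (m : ℕ), m.Prime ∧ Odd m ∧
      Fintype.card F = Fintype.card F₀ ^ m ∧ Nonempty (M ≃* PGL(2, F₀)) ∧ IsCoatom (M.comap ε) := by
  classical
  have hp : p.Prime := Fact.out
  have hp2 := h.p_ne_two p
  obtain ⟨a, -, hq⟩ := FiniteField.card F p
  obtain ⟨K, ψ, P, hKr, hψ, hK⟩ := gen_range_GL hG
  obtain ⟨-, -, -, hk1, hkr, hcardT, -, -⟩ := id hG
  have := Fintype.ofFinite K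
  have hKc : Fintype.card K = r := by rw [← hKr, Nat.card_eq_fintype_card]
  set m := Module.finrank K F with hmdef
  have hFm : Fintype.card F = r ^ m := by rw [Module.card_eq_pow_finrank (K := K), hKc]
  have hm0 : m ≠ 0 := fun e => by
    rw [e, pow_zero] at hFm
    have : 1 < Fintype.card F := Fintype.one_lt_card
    omega
  have hr : r % 2 = 1 := by
    by_contra hr
    have : 2 ∣ Fintype.card F := hFm ▸ (show 2 ∣ r by omega).trans (dvd_pow_self r hm0)
    have := h.odd
    omega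
  have : CharP K p := (RingHom.charP_iff K.subtype K.subtype.injective p).2 inferInstance
  have hr3 : 3 ≤ r := by omega
  have hm1 : m ≠ 1 := fun e => h.T_ne_top ((gen_facts hG rfl).elim fun K' h' =>
    h'.2.2.2.2.2.2 (by rw [hFm, e, pow_one]))
  have hr21 : 8 ≤ r ^ 2 - 1 := by have := Nat.pow_le_pow_left hr3 2; omega
  have hψ' : ∀ S : Subgroup PSL(2, F), S.map ψ.toMonoidHom = S.map (conjGP P) := fun S => by
    congr 1; exact MonoidHom.ext hψ
  rcases hK with ⟨hk, hTeq⟩ | ⟨hk, hsq, hTeq⟩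
  · -- `T` is a conjugate of `PSL₂(K)`
    have hcT : 2 * Nat.card (M.comap ε) = r * (r ^ 2 - 1) := by
      rw [hcardT, sq_sub_one_eq, show r - 1 = 2 * k by omega]; ring
    set Pm : PGL(2, F) := Matrix.ProjGenLinGroup.mk P
    have hconj : ∀ (L : Type u_1) [Field L] (κ : L →+* F) (z : PGL(2, F)),
        z ∈ cj Pm (Matrix.ProjGenLinGroup.map (n := Fin 2) κ).range →
        ∀ x ∈ ((pslMap κ).range).map (conjGP P), ∀ g, Matrix.ProjGenLinGroup.mk g = z →
        conjGP g x ∈ ((pslMap κ).range).map (conjGP P) := by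
      rintro L _ κ _ ⟨_, ⟨u, rfl⟩, rfl⟩ _ ⟨_, ⟨x, rfl⟩, rfl⟩ g hg
      obtain ⟨u, rfl⟩ := Matrix.ProjGenLinGroup.mk_surjective u
      refine ⟨pslMap κ (conjGP u x), ⟨_, rfl⟩, ε_injective ?_⟩
      rw [← ε_conj, ← ε_conj g, hg, ← pglField_ε, ← ε_conj u, ← ε_conj P, map_mul, map_mul,
        map_inv, pglField_ε]
      simp [Pm, mul_assoc]
    have hmodd : m % 2 = 1 := by
      by_contra hev
      have hsq := isSquare_of_even_degree (i := m / 2) K.subtype
        (by rw [hFm, hKc]; congr 1; omega)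
      set R := ((pglMap K.subtype hsq).range).map ψ.toMonoidHom with hR
      have hle : M.comap ε ≤ R := hTeq ▸ Subgroup.map_mono (pslMap_range_le_pglMap _ hsq)
      have hRc : Nat.card R = r * (r ^ 2 - 1) := by
        rw [hR, Subgroup.card_map_of_injective ψ.injective, card_pglMap_range, hKc]
      have hidx : ((M.comap ε).subgroupOf R).index = 2 := by
        have h1 := ((M.comap ε).subgroupOf R).card_mul_index
        rw [Nat.card_congr (Subgroup.subgroupOfEquivOfLe hle).toEquiv, hRc, ← hcT, mul_comm 2] at h1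
        exact Nat.eq_of_mul_eq_mul_left Nat.card_pos h1
      have := Subgroup.normal_of_index_eq_two hidx
      have hNT := (Subgroup.normal_subgroupOf_iff_le_normalizer hle).1 this
      rw [h.normalizer_T] at hNT
      have := Subgroup.card_le_of_le hNT
      have : 0 < Nat.card (M.comap ε) := Nat.card_pos
      omega
    set R := cj Pm (Matrix.ProjGenLinGroup.map (n := Fin 2) K.subtype).range
    have hRinv : Inv R (M.comap ε) := by
      intro g hg x hx
      rw [hTeq, hψ'] at hx ⊢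
      exact hconj _ K.subtype _ hg x hx g rfl
    set N := Subgroup.normalizer (((M.comap ε).map ε : Subgroup PGL(2, F)) : Set PGL(2, F))
    have hMN : M = N := eq_of_coatom_le h.coatom (le_normalizer_of_inv (inv_comap M)) fun e => by
      refine h.T_ne_top ?_
      rw [← h.normalizer_T, eq_top_iff]
      intro y _
      rw [Subgroup.mem_normalizer_iff]
      intro z
      have := Subgroup.mem_normalizer_iff.1 (show ε y ∈ N from e ▸ Subgroup.mem_top _) (ε z)
      rw [← map_inv, ← map_mul, ← map_mul, Subgroup.mem_map_iff_mem ε_injective,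
        Subgroup.mem_map_iff_mem ε_injective] at this
      exact this
    have hRM : R = M := Subgroup.eq_of_le_of_card_ge (hMN ▸ le_normalizer_of_inv hRinv) (by
      rw [h.card_eq, hcT, card_cj, card_pglField_range, hKc])
    have hprime : m.Prime := by
      by_contra hne
      obtain ⟨s, hs, u, hu⟩ := Nat.exists_prime_and_dvd hm1
      have hu1 : u ≠ 1 := fun e => hne (by rw [hu, e, mul_one]; exact hs)
      have hu0 : u ≠ 0 := fun e => hm0 (by rw [hu, e, mul_zero])
      obtain ⟨f, -, hf⟩ := FiniteField.card K p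
      rw [hKc] at hf
      have hfm : (f : ℕ) * m = a := by
        have hFm' := hFm
        rw [hq, hf, ← pow_mul] at hFm'
        exact (Nat.pow_right_injective hp.two_le hFm').symm
      obtain ⟨_, κ, hL⟩ := exists_galois_emb (F := F) p hq (j := (f : ℕ) * u)
        ⟨s, by rw [← hfm, hu]; ring⟩ (Nat.mul_ne_zero f.ne_zero hu0) a.ne_zero
      have hLr : Fintype.card (GaloisField p ((f : ℕ) * u)) = r ^ u := by rw [hL, hf, ← pow_mul]
      obtain ⟨τ, hτ⟩ := exists_factor K.subtype κ fun x => mem_range_of_pow κ (by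
        rw [hLr, ← hKc, ← map_pow, FiniteField.pow_card_pow])
      set R' := cj Pm (Matrix.ProjGenLinGroup.map (n := Fin 2) κ).range
      have hle : M ≤ R' := hRM ▸ Subgroup.map_mono (by
        rintro _ ⟨z, rfl⟩
        refine ⟨Matrix.ProjGenLinGroup.map τ z, ?_⟩
        rw [← MonoidHom.comp_apply, ← Matrix.ProjGenLinGroup.map_comp,
          show κ.comp τ = K.subtype from RingHom.ext hτ])
      obtain ⟨hne', -⟩ := pglField_not_ge κ hs.two_le h.odd (by rw [hFm, hLr, hu, ← pow_mul, mul_comm])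
      have := eq_of_coatom_le h.coatom hle fun e => hne' (cj_injective Pm (e.trans (cj_top Pm).symm))
      have h1 := congrArg (fun S : Subgroup PGL(2, F) => Nat.card S) (hRM.trans this)
      simp only [card_cj, R, R', card_pglField_range, hKc, hLr] at h1
      have h2 : r < r ^ u := lt_self_pow₀ (by omega) (by omega)
      have := Nat.mul_lt_mul_of_lt_of_le h2
        (Nat.sub_le_sub_right (Nat.pow_le_pow_left h2.le 2) 1) (by
          have := Nat.pow_le_pow_left (show 3 ≤ r ^ u by omega) 2; omega)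
      omega
    obtain ⟨F₀, _, _, ⟨φ⟩⟩ := exists_ringEquiv_type (K := K)
    have hF₀ : Fintype.card F₀ = r := (Fintype.card_congr φ.toEquiv).symm.trans hKc
    refine ⟨F₀, inferInstance, inferInstance, m, hprime, Nat.odd_iff.2 hmodd, by rw [hF₀, hFm],
      ⟨(((MulEquiv.subgroupCongr hRM.symm).trans
        (Subgroup.equivMapOfInjective _ (MulAut.conj Pm).toMonoidHom (MulEquiv.injective _)).symm).trans
          (MonoidHom.ofInjective (pglField_injective K.subtype)).symm).trans (pglEquiv φ)⟩, ?_⟩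
    rw [hTeq]
    exact isCoatom_map ψ (isCoatom_pslMap_range_odd K.subtype hKc hFm (Nat.odd_iff.2 hr) hprime
      (by omega))
  · -- `T` cannot be a conjugate of `PGL₂(K)`
    exfalso
    have hcT : Nat.card (M.comap ε) = r * (r ^ 2 - 1) := by
      rw [hcardT, sq_sub_one_eq, show r - 1 = k by omega]; ring
    obtain ⟨F', _, _, _, ι, J, hJi, hJ, -⟩ := exists_quad (F := F) p a hq a.ne_zero
    set κ := ι.comp K.subtype
    set P' := Matrix.GeneralLinearGroup.map ι P
    set f := (conjGP P').comp (pslMap κ)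
    have hf : Function.Injective f := (conjGP_injective P').comp (pslMap_injective κ)
    have hfle : f.range ≤ M.map J := by
      rintro _ ⟨x, rfl⟩
      refine ⟨ε (conjGP P (pslMap K.subtype x)), ?_, ?_⟩
      · show conjGP P (pslMap K.subtype x) ∈ M.comap ε
        rw [hTeq, hψ']
        exact Subgroup.mem_map_of_mem _ (pslMap_range_le_pglMap _ hsq ⟨x, rfl⟩)
      · rw [hJ, conjGP_map, pslMap_comp_apply]
        rfl
    have hcard : Nat.card (M.map J) = 2 * (r * (r ^ 2 - 1)) := by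
      rw [Subgroup.card_map_of_injective hJi, h.card_eq, hcT]
    have hbig : 24 ≤ r * (r ^ 2 - 1) := le_trans (by norm_num) (Nat.mul_le_mul hr3 hr21)
    obtain ⟨c, hc⟩ := exists_outcome p (M.map J)
    cases hc with
    | triv h' => rw [card_cj] at h'; omega
    | dih h' =>
      obtain ⟨g, ht, hg⟩ := h'
      have hpr : p ∣ r := by
        obtain ⟨f, -, hf⟩ := FiniteField.card K p
        rw [hKc] at hf
        exact hf ▸ dvd_pow_self p f.ne_zero
      have hd : p ∣ 2 * Nat.card (tor g) := by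
        rw [← card_torDih ht]
        refine dvd_trans ?_ (Subgroup.card_dvd_of_le hg)
        rw [card_cj, hcard]
        exact (hpr.mul_right _).mul_left 2
      rcases hp.dvd_mul.1 hd with e | e
      · exact hp2 ((Nat.prime_dvd_prime_iff_eq hp Nat.prime_two).1 e)
      · exact not_dvd_card_mx p (isSS_π.2 ht) (by rw [mx_π]; exact e)
    | bor h' =>
      obtain ⟨d, hd⟩ := h'
      rw [cj_cj] at hd
      exact psl_range_not_borel p f hf (d * c) ((cj_mono _ hfle).trans hd)
    | a4 h' _ => rw [card_cj] at h'; omega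
    | s4 h' _ _ => rw [card_cj] at h'; omega
    | a5 h' _ _ =>
      rw [card_cj, hcard] at h'
      by_cases h5 : r = 3
      · subst h5; norm_num at h'
      · have : 5 * 24 ≤ r * (r ^ 2 - 1) :=
          Nat.mul_le_mul (show 5 ≤ r by omega) (by
            have := Nat.pow_le_pow_left (show 5 ≤ r by omega) 2; omega)
        omega
    | gen h' =>
      obtain ⟨r', k', hG'⟩ := h'
      obtain ⟨L, hLr, -, -, htr, -, hMle, -⟩ := gen_facts hG' (rfl : Fintype.card F' = _)
      obtain ⟨-, -, -, hk1', hkr', hcard', -, -⟩ := hG'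
      obtain ⟨cs, hcs⟩ := π_surjective c
      have hsub : ((pslMap κ).range).map (conjGP (SpecialLinearGroup.toGL cs * P')) ≤
          cj c (M.map J) := by
        rintro _ ⟨_, ⟨x, rfl⟩, rfl⟩
        rw [conjGP_mul, conjGP_toGL, hcs]
        exact Subgroup.mem_map_of_mem (MulAut.conj c).toMonoidHom (hfle ⟨x, rfl⟩)
      have hKL : ∀ x, κ x ∈ L := field_le_of_trace_GL κ L _ hsub htr
      have := Fintype.ofFinite L
      let τ : K →+* L := κ.codRestrict L hKL
      let := τ.toAlgebra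
      have hr' : r' = r ^ Module.finrank K L := by
        rw [← hLr, Nat.card_eq_fintype_card, Module.card_eq_pow_finrank (K := K), hKc]
      rw [card_cj, hcard] at hMle hcard'
      set i := Module.finrank K L
      rcases (show i = 0 ∨ i = 1 ∨ 2 ≤ i by omega) with hi | hi | hi
      · rw [hi, pow_zero] at hr'; omega
      · rw [hi, pow_one] at hr'; subst hr'; omega
      · have h1 : r * r ≤ r' := by rw [hr', ← sq]; exact Nat.pow_le_pow_right (by omega) hi
        have h2 : r' - 1 ≤ 2 * k' := by omega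
        have h3 : r * r * (r * r - 1) ≤ r' * (2 * k') := Nat.mul_le_mul h1 (by omega)
        have h4 : (r * r + 1) * (r * r * (r * r - 1)) ≤ (r' + 1) * (r' * (2 * k')) :=
          Nat.mul_le_mul (by omega) h3
        have h5 : 9 * 3 ≤ (r * r + 1) * r :=
          Nat.mul_le_mul (by have := Nat.mul_le_mul hr3 hr3; omega) hr3
        have h6 : 4 * (r * (r ^ 2 - 1)) < (r * r + 1) * (r * r * (r * r - 1)) := by
          rw [sq, show (r * r + 1) * (r * r * (r * r - 1)) = ((r * r + 1) * r) * (r * (r * r - 1)) by ring]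
          exact Nat.mul_lt_mul_of_pos_right (by omega) (by rw [← sq]; omega)
        have e : (r' + 1) * (r' * (2 * k')) = 2 * ((r' + 1) * (r' * k')) := by ring
        omega

include p in
/-- Maximal subgroups of `PGL₂(q)` not containing `PSL₂(q)`, up to conjugacy. -/
theorem MaxData.classification (h : MaxData M) :
    ∃ c : PSL(2, F),
      (cj c (M.comap ε) = H6.borel F ∧ Nat.card M = Fintype.card F * (Fintype.card F - 1)) ∨
      (∃ g : SL(2, F), tr g ^ 2 ≠ 4 ∧ cj c (M.comap ε) = torDih g ∧ 3 ≤ Nat.card (tor g) ∧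
        Nonempty (M ≃* DihedralGroup (2 * Nat.card (tor g)))) ∨
      (Nonempty (M.comap ε ≃* alternatingGroup (Fin 4)) ∧ (Fintype.card F).Prime ∧
        (Fintype.card F % 8 = 3 ∨ Fintype.card F % 8 = 5) ∧ Nonempty (M ≃* Equiv.Perm (Fin 4))) ∨
      (∃ (F₀ : Type) (_ : Field F₀) (_ : Fintype F₀) (r : ℕ), r.Prime ∧ Odd r ∧
        Fintype.card F = Fintype.card F₀ ^ r ∧ Nonempty (M ≃* PGL(2, F₀)) ∧
        IsCoatom (M.comap ε)) := by
  classical
  obtain ⟨c, hc⟩ := exists_outcome p (M.comap ε)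
  obtain ⟨h', hT'⟩ := h.conj c
  obtain ⟨e⟩ := nonempty_equiv_map (MulAut.conj (ε c)) M
  obtain ⟨eT⟩ := cjEquiv_exists c (M.comap ε)
  have hco : ∀ {S : Subgroup PSL(2, F)}, IsCoatom (cj c S) → IsCoatom S := fun {S} hS =>
    ((MulAut.conj c).mapSubgroup.isCoatom_iff S).1 hS
  rw [← hT'] at hc
  cases hc with
  | triv h1 =>
    rw [hT', card_cj] at h1
    exact absurd (Subgroup.card_eq_one.1 h1) h.T_ne_bot
  | dih h1 =>
    obtain ⟨g, ht, hle⟩ := h1
    obtain ⟨h2, h3, ⟨e2⟩⟩ := h'.dih_type p ht hle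
    exact ⟨c, Or.inr (Or.inl ⟨g, ht, hT' ▸ h2, h3, ⟨e.symm.trans e2⟩⟩)⟩
  | bor h1 =>
    obtain ⟨d, hd⟩ := h1
    obtain ⟨h'', hT''⟩ := h'.conj d
    obtain ⟨h2, h3⟩ := h''.borel_type (hT''.trans_le hd)
    rw [hT''] at h2
    refine ⟨d * c, Or.inl ⟨?_, ?_⟩⟩
    · rw [← cj_cj, ← hT']; exact h2
    · rw [← h3, Subgroup.card_map_of_injective (MulEquiv.injective _),
        Subgroup.card_map_of_injective (MulEquiv.injective _)]
  | a4 _ h1 =>
    rcases h'.alt_four_type p h1 with ⟨h2, h3, ⟨e2⟩⟩ | ⟨F₀, _, _, r, hr, hr', hF, ⟨e2⟩, h5⟩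
    · exact ⟨c, Or.inr (Or.inr (Or.inl ⟨(hT' ▸ h1).map eT.trans, h2, h3, ⟨e.symm.trans e2⟩⟩))⟩
    · exact ⟨c, Or.inr (Or.inr (Or.inr ⟨F₀, inferInstance, inferInstance, r, hr, hr', hF,
        ⟨e.symm.trans e2⟩, hco (hT' ▸ h5)⟩))⟩
  | s4 _ h1 _ => exact (h'.not_perm_four p h1).elim
  | a5 h0 h1 hp3 =>
    exact (h'.not_alt_five p (fun e5 => by
      have := hp3 (by rw [h0, e5]; norm_num); omega) h1).elim
  | gen h1 =>
    obtain ⟨r, k, hG⟩ := h1
    obtain ⟨F₀, _, _, m, hm, hm', hF, ⟨e2⟩, h5⟩ := h'.gen_type p hG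
    exact ⟨c, Or.inr (Or.inr (Or.inr ⟨F₀, inferInstance, inferInstance, m, hm, hm', hF,
        ⟨e.symm.trans e2⟩, hco (hT' ▸ h5)⟩))⟩

end Cfsg.Agent.H79.PSLTwoMax
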