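import Cfsg.Agent.H79.PSLTwoMax.PGLBasic

/-!
# Maximal subgroups of `PGL₂(q)` not containing `PSL₂(q)`: the types
-/

set_option autoImplicit false

open Matrix MatrixGroups

namespace Cfsg.Agent.H79.PSLTwoMax

open Cfsg.Agent.H6

variable {F : Type*} [Field F] [Fintype F]

lemma mem_Uinf_of_mem_borel {x : PSL(2, F)} (hx : x ∈ H6.borel F) (hs : ¬ IsSS x) : x ∈ Uinf F := by
  obtain ⟨g, rfl⟩ := π_surjective x
  have h10 := mem_borel.1 hx
  have ht : tr g ^ 2 = 4 := by
    by_contra h; exact hs (isSS_π.2 h)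
  have d := sl2_det g
  rw [h10, mul_zero, sub_zero] at d
  have h0 : (g 0 0 - g 1 1) ^ 2 = 0 := by simp only [tr] at ht; linear_combination ht - 4 * d
  have e := sub_eq_zero.1 (pow_eq_zero_iff two_ne_zero |>.1 h0)
  exact π_eq_up_of_chi h10 (by rw [sq]; nth_rewrite 2 [e]; exact d)

lemma conjGSL_map {K : Type*} [Field K] (ι : K →+* F) (P : GL (Fin 2) K) (s : SL(2, K)) :
    conjGSL (Matrix.GeneralLinearGroup.map ι P) (SpecialLinearGroup.map ι s) =
      SpecialLinearGroup.map ι (conjGSL P s) := by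
  apply Subtype.ext
  show (P : Matrix (Fin 2) (Fin 2) K).map ι * (s.1).map ι *
      (((Matrix.GeneralLinearGroup.map ι P)⁻¹ : GL (Fin 2) F) : Matrix (Fin 2) (Fin 2) F) =
    ((P : Matrix (Fin 2) (Fin 2) K) * s.1 * ((P⁻¹ : GL (Fin 2) K) : Matrix (Fin 2) (Fin 2) K)).map ι
  rw [← map_inv, Matrix.map_mul, Matrix.map_mul]
  rfl

lemma conjGP_map {K : Type*} [Field K] (ι : K →+* F) (P : GL (Fin 2) K) (x : PSL(2, K)) :
    pslMap ι (conjGP P x) = conjGP (Matrix.GeneralLinearGroup.map ι P) (pslMap ι x) := by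
  obtain ⟨s, rfl⟩ := π_surjective x
  rw [conjGP_π, pslMap_π, pslMap_π, conjGP_π, conjGSL_map]

lemma tr_conjGSL (P : GL (Fin 2) F) (g : SL(2, F)) : tr (conjGSL P g) = tr g := by
  have e : ∀ h : SL(2, F), tr h = Matrix.trace h.1 := fun h => (Matrix.trace_fin_two h.1).symm
  rw [e, e]
  show Matrix.trace ((P : Matrix (Fin 2) (Fin 2) F) * g.1 *
    ((P⁻¹ : GL (Fin 2) F) : Matrix (Fin 2) (Fin 2) F)) = _
  rw [Matrix.trace_units_conj]

/-- The image of `PSL₂` is in no Borel subgroup. -/
lemma psl_range_not_borel (p : ℕ) [Fact p.Prime] [CharP F p] {K : Type*} [Field K] [Finite K]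
    (f : PSL(2, K) →* PSL(2, F)) (hf : Function.Injective f)
    [CharP K p] (c : PSL(2, F)) : ¬ cj c f.range ≤ H6.borel F := by
  intro hle
  have := Fintype.ofFinite K
  have key : ∀ x : PSL(2, K), x ≠ 1 → x ^ p = 1 → c * f x * c⁻¹ ∈ Uinf F := by
    intro x hx1 hxp
    have hne : c * f x * c⁻¹ ≠ 1 := fun e => hx1 (hf (by
      rw [map_one]; simpa using e))
    have hpow : (c * f x * c⁻¹) ^ p = 1 := by rw [conj_pow, ← map_pow, hxp, map_one]; group
    refine mem_Uinf_of_mem_borel (hle ⟨f x, ⟨x, rfl⟩, rfl⟩) fun hs => ?_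
    apply not_dvd_card_mx p hs
    rw [← orderOf_eq_prime hpow hne]
    exact Subgroup.orderOf_dvd_natCard _ (self_mem_mx _)
  have hu : ∀ s : SL(2, K), tr s = 2 → π s ≠ 1 → c * f (π s) * c⁻¹ ∈ Uinf F := fun s hs h1 =>
    key _ h1 (by rw [← map_pow, pow_char_of_tr_two p hs, map_one])
  obtain ⟨a, ha⟩ := mem_Uinf.1 (hu (up (1 : K)) (tr_up _) (fun e => one_ne_zero (π_up_eq_one_iff.1 e)))
  obtain ⟨b, hb⟩ := mem_Uinf.1 (hu (lo (1 : K)) (by simp [tr, lo]; norm_num) (by
    rw [Ne, π_eq_one_iff_isScal]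
    exact fun h => one_ne_zero (α := K) (by simpa [lo] using h.2.1)))
  have hcomm : π (up (1 : K)) * π (lo 1) = π (lo 1) * π (up 1) := by
    apply hf
    have : c * f (π (up (1 : K))) * c⁻¹ * (c * f (π (lo (1 : K))) * c⁻¹) =
        c * f (π (lo (1 : K))) * c⁻¹ * (c * f (π (up (1 : K))) * c⁻¹) := by
      rw [← ha, ← hb, ← map_mul, ← map_mul, ← up_add, ← up_add, add_comm]
    rw [map_mul, map_mul]
    exact mul_right_cancel (b := c⁻¹) (by simpa [mul_assoc] using this)
  rw [← map_mul, ← map_mul, π_eq_iff] at hcomm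
  rcases hcomm with e | e
  · have := congrArg (fun z : SL(2, K) => z 0 0) e
    simp [up, lo, sl2_mul] at this
  · have h00 := congrArg (fun z : SL(2, K) => z 0 0) e
    have h01 := congrArg (fun z : SL(2, K) => z 0 1) e
    simp [up, lo, sl2_mul, sl2_neg] at h00 h01
    exact one_ne_zero (α := K) (by linear_combination h00 - h01)

/-- A quadratic extension with the two maps into `PSL₂` of it. -/
lemma exists_quad (p a : ℕ) [Fact p.Prime] (hF : Fintype.card F = p ^ a) (ha : a ≠ 0) :
    ∃ (F' : Type) (_ : Field F') (_ : Fintype F') (_ : CharP F' p) (ι : F →+* F')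
      (J : PGL(2, F) →* PSL(2, F')), Function.Injective J ∧ (∀ x, J (ε x) = pslMap ι x) ∧
      Fintype.card F' = Fintype.card F ^ 2 := by
  let : Fintype (GaloisField p (2 * a)) := Fintype.ofFinite _
  have hc : Fintype.card (GaloisField p (2 * a)) = Fintype.card F ^ 2 := by
    rw [← Nat.card_eq_fintype_card, GaloisField.card p _ (by omega), hF, ← pow_mul, mul_comm]
  obtain ⟨ι⟩ := S0805.exists_ringHom (F := GaloisField p (2 * a)) (K := F) (m := 2) (by norm_num) hc.symm
  have hsq := isSquare_of_even_degree (i := 1) ι (by rw [mul_one]; exact hc)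
  exact ⟨_, inferInstance, inferInstance, inferInstance, ι, pglMap ι hsq, pglMap_injective ι hsq,
    pglMap_toPGL ι hsq, hc⟩

/-- Invariant subgroups give normalised images. -/
lemma map_le_normalizer_of_inv {F' : Type*} [Field F'] {ι : F →+* F'} {J : PGL(2, F) →* PSL(2, F')}
    (hJ : ∀ x, J (ε x) = pslMap ι x) {M : Subgroup PGL(2, F)} {X : Subgroup PSL(2, F)}
    (h : Inv M X) :
    M.map J ≤ Subgroup.normalizer ((X.map (pslMap ι) : Subgroup PSL(2, F')) : Set PSL(2, F')) := by
  have e : (X.map ε).map J = X.map (pslMap ι) := by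
    rw [Subgroup.map_map]; congr 1; exact MonoidHom.ext hJ
  exact e ▸ (Subgroup.map_mono (le_normalizer_of_inv h)).trans (Subgroup.le_normalizer_map J)

variable (p : ℕ) [Fact p.Prime] [CharP F p] {M : Subgroup PGL(2, F)}

/-- A torus never contains the whole intersection. -/
lemma MaxData.not_le_tor (h : MaxData M) {g : SL(2, F)} (ht : tr g ^ 2 ≠ 4) :
    ¬ M.comap ε ≤ tor g := by
  intro hle
  have := tor_cyclic ht
  let := IsCyclic.commGroup (α := tor g)
  have hle' : tor g ≤ M.comap ε := by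
    rw [← h.normalizer_T]
    intro z hz
    rw [Subgroup.mem_normalizer_iff]
    intro x
    have hcomm : ∀ x ∈ M.comap ε, z * x * z⁻¹ = x := fun x hx => by
      have := congrArg Subtype.val (mul_comm (⟨z, hz⟩ : tor g) ⟨x, hle hx⟩)
      simp only [Subgroup.coe_mul] at this
      rw [this, mul_inv_cancel_right]
    refine ⟨fun hx => by rw [hcomm x hx]; exact hx, fun hx => ?_⟩
    have h1 := hcomm _ hx
    have : x = z * x * z⁻¹ := (mul_left_cancel (mul_right_cancel h1)).symm
    rw [this]; exact hx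
  have heq : M.comap ε = tor g := le_antisymm hle hle'
  have hn := normalizer_tor ht
  rw [← heq, h.normalizer_T, heq] at hn
  have h1 := card_torDih ht
  rw [← hn] at h1
  have : 0 < Nat.card (tor g) := Nat.card_pos
  omega

/-- The Borel type. -/
lemma MaxData.borel_type (h : MaxData M) (hle : M.comap ε ≤ H6.borel F) :
    M.comap ε = H6.borel F ∧ Nat.card M = Fintype.card F * (Fintype.card F - 1) := by
  by_cases hU : ∃ u ∈ M.comap ε, u ∈ Uinf F ∧ u ≠ 1
  · obtain ⟨u, hu, huU, hu1⟩ := hU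
    obtain ⟨a, rfl⟩ := mem_Uinf.1 huU
    have ha : a ≠ 0 := fun e => hu1 (π_up_eq_one_iff.2 e)
    have hinv : Inv M (Uinf F) := by
      rw [← tor_up ha]
      refine inv_tor (not_isScal_up ha) fun g hg => ?_
      rw [tor_up ha]
      refine mem_Uinf_of_mem_borel (hle (inv_comap M g hg _ hu)) ?_
      rw [conjGP_π, isSS_π, tr_conjGSL, tr_up, not_not]
      norm_num
    have hinv' := inv_normalizer hinv
    rw [normalizer_Uinf] at hinv'
    have hT := h.eq_of_inv hle hinv' (borel_ne_top rfl)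
    refine ⟨hT.symm, ?_⟩
    rw [h.card_eq, ← hT]
    have h1 := card_borel_mul (F := F) rfl
    rw [Nat.gcd_eq_left (show 2 ∣ Fintype.card F - 1 by have := h.odd; omega)] at h1
    rw [← h1, mul_comm]
  · exfalso
    push Not at hU
    -- then the intersection is cyclic, inside a torus
    let f : M.comap ε →* Fˣ := chiB.comp (Subgroup.inclusion hle)
    have hf : Function.Injective f := by
      refine (injective_iff_map_eq_one _).2 fun x hx => ?_
      have := (chiB_eq_one_iff _).1 hx
      exact Subtype.ext (hU x.1 x.2 this)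
    have : IsCyclic (M.comap ε) := isCyclic_of_injective f hf
    obtain ⟨x, hx⟩ := IsCyclic.exists_generator (α := M.comap ε)
    have hx1 : (x : PSL(2, F)) ≠ 1 := fun e => h.T_ne_bot (by
      rw [Subgroup.eq_bot_iff_forall]
      intro y hy
      obtain ⟨i, hi⟩ := hx ⟨y, hy⟩
      have hi' : (x : PSL(2, F)) ^ i = y := congrArg Subtype.val hi
      rw [← hi', e, _root_.one_zpow])
    obtain ⟨g, hg⟩ := π_surjective (x : PSL(2, F))
    have hss : IsSS (x : PSL(2, F)) := by
      by_contra hs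
      exact hx1 (hU _ x.2 (mem_Uinf_of_mem_borel (hle x.2) hs))
    have ht : tr g ^ 2 ≠ 4 := isSS_π.1 (hg ▸ hss)
    refine h.not_le_tor ht fun y hy => ?_
    obtain ⟨i, hi⟩ := hx ⟨y, hy⟩
    have hi' : (x : PSL(2, F)) ^ i = y := congrArg Subtype.val hi
    rw [← hi', ← hg]
    exact Subgroup.zpow_mem _ (self_mem_tor g) i

include p in
/-- The dihedral type. -/
lemma MaxData.dih_type (h : MaxData M) {g : SL(2, F)} (ht : tr g ^ 2 ≠ 4)
    (hle : M.comap ε ≤ torDih g) :
    M.comap ε = torDih g ∧ 3 ≤ Nat.card (tor g) ∧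
      Nonempty (M ≃* DihedralGroup (2 * Nat.card (tor g))) := by
  classical
  have h2 : (2 : F) ≠ 0 := two_ne_of_odd rfl (Nat.odd_iff.2 h.odd)
  set T := M.comap ε with hTdef
  set C := T ⊓ tor g
  obtain ⟨w, hw, hwt⟩ : ∃ w ∈ T, w ∉ tor g := by
    by_contra hc
    push Not at hc
    exact h.not_le_tor ht hc
  obtain ⟨hw2, hw1, hwinv⟩ := outside_torDih ht (hle hw) hwt
  have hmem : ∀ x ∈ T, x ∈ tor g ∨ w * x ∈ C := by
    intro x hx
    by_cases hxt : x ∈ tor g
    · exact Or.inl hxt
    · exact Or.inr ⟨mul_mem hw hx, mul_mem_tor ht (hle hw) hwt (hle hx) hxt⟩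
  have := tor_cyclic ht
  have : IsCyclic C :=
    isCyclic_of_injective (Subgroup.inclusion inf_le_right) (Subgroup.inclusion_injective inf_le_right)
  obtain ⟨c, hc⟩ := IsCyclic.exists_ofOrder_eq_natCard (α := C)
  have hgen : ∀ z ∈ C, ∃ i : ℤ, (c : PSL(2, F)) ^ i = z := by
    intro z hz
    have hz' : (⟨z, hz⟩ : C) ∈ Subgroup.zpowers c := by
      rw [Subgroup.eq_top_of_card_eq (Subgroup.zpowers c) (by rw [Nat.card_zpowers, hc])]
      trivial
    obtain ⟨i, hi⟩ := hz'
    exact ⟨i, congrArg Subtype.val hi⟩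
  set x0 : PSL(2, F) := c.1 with hx0
  have hx0o : orderOf x0 = Nat.card C := by rw [hx0, Subgroup.orderOf_coe, hc]
  have hx0T : x0 ∈ T := c.2.1
  have hx0t : x0 ∈ tor g := c.2.2
  -- `T` is not of order at most four
  by_cases hsmall : Nat.card C ≤ 2
  · exfalso
    have hsq : ∀ z ∈ C, z * z = 1 := by
      intro z hz
      obtain ⟨i, rfl⟩ := hgen z hz
      have : x0 ^ 2 = 1 := orderOf_dvd_iff_pow_eq_one.1 (by
        rw [hx0o]
        have : 0 < Nat.card C := Nat.card_pos
        interval_cases Nat.card C <;> norm_num)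
      rw [← _root_.zpow_add, ← two_mul, _root_.zpow_mul, zpow_two, ← sq, this, _root_.one_zpow]
    by_cases hC1 : x0 = 1
    · -- `T = ⟨w⟩`
      obtain ⟨W, hW⟩ := π_surjective w
      have ho : orderOf w = 2 := orderOf_eq_prime (by rw [sq, hw2]) hw1
      have htW : tr W = 0 := (orderOf_π_eq_two_iff h2).1 (hW ▸ ho)
      refine h.not_le_tor (ss_of_tr_zero h2 htW) fun z hz => ?_
      rcases hmem z hz with hzt | hzC
      · obtain ⟨i, hi⟩ := hgen z ⟨hz, hzt⟩
        rw [← hi, hC1, _root_.one_zpow]; exact one_mem _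
      · obtain ⟨i, hi⟩ := hgen _ hzC
        rw [hC1, _root_.one_zpow] at hi
        rw [show z = w by rw [← inv_eq_of_mul_eq_one_right hi.symm]; exact inv_eq_of_mul_eq_one_right hw2,
          ← hW]
        exact self_mem_tor W
    · -- `T` would be a four-group
      have hwz : ∀ z ∈ tor g, z * z = 1 → w * z = z * w := by
        intro z hz hzz
        have := hwinv z hz
        rw [inv_eq_of_mul_eq_one_right hzz] at this
        exact mul_inv_eq_iff_eq_mul.1 this
      have hTsq : ∀ z ∈ T, z ^ 2 = 1 := by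
        intro z hz
        rw [sq]
        rcases hmem z hz with hzt | hzC
        · exact hsq z ⟨hz, hzt⟩
        · have hzt : z ∉ tor g ∨ z ∈ tor g := by tauto
          rcases hzt with hzt | hzt
          · exact (outside_torDih ht (hle hz) hzt).1
          · exact hsq z ⟨hz, hzt⟩
      have hcardT : Nat.card T = 4 := by
        have hx01 : x0 ^ 2 = 1 := hTsq x0 hx0T
        have hw' : w ^ 2 = 1 := hTsq w hw
        have hcomm := hwz x0 hx0t (by rw [← sq]; exact hx01)
        have hV : IsKleinFour (H29.fourSubgroup w x0 hw' hx01 hcomm) :=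
          H29.isKleinFour_fourSubgroup hw1 hC1 (fun e => hwt (e ▸ hx0t))
        have heq : T = H29.fourSubgroup w x0 hw' hx01 hcomm := by
          refine le_antisymm (fun z hz => H29.mem_fourSubgroup.2 ?_) (fun z hz => ?_)
          · have hC : ∀ y ∈ C, y = 1 ∨ y = x0 := by
              intro y hy
              obtain ⟨i, rfl⟩ := hgen y hy
              rcases Int.even_or_odd i with ⟨j, rfl⟩ | ⟨j, rfl⟩
              · left; rw [← two_mul, _root_.zpow_mul, zpow_two, ← sq, hx01, _root_.one_zpow]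
              · right
                rw [_root_.zpow_add, _root_.zpow_mul, zpow_two, ← sq, hx01, _root_.one_zpow, one_mul, zpow_one]
            rcases hmem z hz with hzt | hzC
            · rcases hC z ⟨hz, hzt⟩ with e | e
              · exact Or.inl e
              · exact Or.inr (Or.inr (Or.inl e))
            · have hz' : z = w * (w * z) := by rw [← mul_assoc, hw2, one_mul]
              rcases hC _ hzC with e | e <;> rw [e] at hz'
              · exact Or.inr (Or.inl (by rw [hz', mul_one]))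
              · exact Or.inr (Or.inr (Or.inr hz'))
          · rcases H29.mem_fourSubgroup.1 hz with rfl | rfl | rfl | rfl
            exacts [one_mem _, hw, hx0T, mul_mem hw hx0T]
        rw [heq, hV.card_four]
      have hV := H29.isKleinFour_of_card_four hcardT hTsq
      have hn := h.normalizer_T
      rcases (show (Fintype.card F % 8 = 3 ∨ Fintype.card F % 8 = 5) ∨
        (Fintype.card F % 8 = 1 ∨ Fintype.card F % 8 = 7) by have := h.odd; omega) with h8 | h8
      · have := card_normalizer_four_three h2 rfl h8 hV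
        rw [hn, hcardT] at this; omega
      · have := card_normalizer_four_one h2 rfl h8 hV
        rw [hn, hcardT] at this; omega
  push Not at hsmall
  -- the torus is invariant
  have hx1 : x0 ≠ 1 := fun e => by rw [e, orderOf_one] at hx0o; omega
  obtain ⟨g₀, hg₀⟩ := π_surjective x0
  have hns : ¬ IsScal g₀ := not_isScal_of_π_ne (hg₀ ▸ hx1)
  have htor : tor g₀ = tor g := tor_eq_of_mem (not_isScal_of_ss ht) (hg₀ ▸ hx0t) (hg₀ ▸ hx1)
  have hmove : ∀ k : GL (Fin 2) F, Matrix.ProjGenLinGroup.mk k ∈ M → conjGP k x0 ∈ tor g := by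
    intro k hk
    by_contra hnot
    obtain ⟨h1, -, -⟩ := outside_torDih ht (hle (inv_comap M k hk _ hx0T)) hnot
    have h3 : orderOf (conjGP k x0) ≤ 2 := orderOf_le_of_pow_eq_one two_pos (by rw [sq, h1])
    rw [orderOf_injective _ (conjGP_injective k), hx0o] at h3
    omega
  have hinv : Inv M (tor g) := htor ▸ inv_tor hns fun k hk => by
    rw [hg₀, htor]; exact hmove k hk
  have hinv' := inv_normalizer hinv
  rw [normalizer_tor ht] at hinv'
  have hT : torDih g = T := h.eq_of_inv hle hinv' (torDih_ne_top rfl (by have := h.three; omega) ht)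
  have hn3 : 3 ≤ Nat.card (tor g) := by
    have := Subgroup.card_le_of_le (show C ≤ tor g from inf_le_right); omega
  refine ⟨hT.symm, hn3, ?_⟩
  have hcardM : Nat.card M = 2 * (2 * Nat.card (tor g)) := by
    rw [h.card_eq, ← hTdef, ← hT, card_torDih ht]
  -- go up to the quadratic extension
  obtain ⟨a, -, hq⟩ := FiniteField.card F p
  obtain ⟨F', _, _, _, ι, J, hJi, hJ, -⟩ := exists_quad (F := F) p a hq a.ne_zero
  set g' := SpecialLinearGroup.map ι g
  have ht' : tr g' ^ 2 ≠ 4 := fun e => ht (ι.injective (by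
    rw [map_pow, map_ofNat, show ι (tr g) = tr g' by simp [g', tr]]; exact e))
  have htormap : (tor g).map (pslMap ι) ≤ tor g' := by
    rintro _ ⟨_, ⟨s, hs, rfl⟩, rfl⟩
    rw [pslMap_π, mem_tor, mem_cent, ← map_mul, ← map_mul]
    exact congrArg (SpecialLinearGroup.map ι) (mem_cent.1 hs)
  have hx' : pslMap ι x0 ∈ tor g' := htormap (Subgroup.mem_map_of_mem _ hx0t)
  have hx'1 : pslMap ι x0 ≠ 1 := fun e => hx1 (pslMap_injective ι (e.trans (map_one _).symm))
  have hM' : M.map J ≤ torDih g' := by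
    rw [← normalizer_tor ht']
    intro z hz
    obtain ⟨m, hm, rfl⟩ := hz
    obtain ⟨k, rfl⟩ := Matrix.ProjGenLinGroup.mk_surjective m
    have hc' : J (Matrix.ProjGenLinGroup.mk k) * pslMap ι x0 * (J (Matrix.ProjGenLinGroup.mk k))⁻¹ =
        pslMap ι (conjGP k x0) := by
      rw [← hJ, ← hJ, ← ε_conj, map_mul, map_mul, map_inv]
    have hg'1 : π g' ≠ 1 := fun e => not_isScal_of_ss ht' (π_eq_one_iff_isScal.1 e)
    have e1 : mx (pslMap ι x0) = tor g' := by
      rw [mx_eq_of_mem hg'1 (by rw [mx_π]; exact hx') hx'1, mx_π]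
    have e2 : mx (pslMap ι (conjGP k x0)) = tor g' := by
      rw [mx_eq_of_mem hg'1 (by rw [mx_π]; exact htormap (Subgroup.mem_map_of_mem _ (hmove k hm)))
        (fun e => hx1 (conjGP_injective k ((pslMap_injective ι (e.trans (map_one _).symm)).trans
          (map_one _).symm))), mx_π]
    rw [← cj_eq_iff_mem_normalizer]
    have := mx_conj (J (Matrix.ProjGenLinGroup.mk k)) (pslMap ι x0)
    rw [hc', e1, e2] at this
    exact this.symm
  obtain ⟨e⟩ : Nonempty (M ≃* M.map J) := ⟨M.equivMapOfInjective J hJi⟩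
  obtain ⟨k, -, hk⟩ := cyclic_or_dihedral_of_le_torDih ht' hM'
  rcases hk with ⟨hcyc, -, -⟩ | ⟨⟨ed⟩⟩
  · exfalso
    let := IsCyclic.commGroup (α := M.map J)
    have hh : (e ⟨ε w, hw⟩) * e ⟨ε x0, hx0T⟩ = e ⟨ε x0, hx0T⟩ * e ⟨ε w, hw⟩ := mul_comm _ _
    rw [← map_mul, ← map_mul] at hh
    have h' := congrArg Subtype.val (e.injective hh)
    simp only [Subgroup.coe_mul] at h'
    rw [← map_mul, ← map_mul] at h'
    have h'' := ε_injective h'
    have h3 := hwinv x0 hx0t
    rw [h'', mul_inv_cancel_right] at h3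
    have : x0 ^ 2 = 1 := by rw [sq]; nth_rewrite 2 [h3]; exact mul_inv_cancel x0
    have := orderOf_le_of_pow_eq_one two_pos this
    omega
  · have hk2 : 2 * k = 2 * (2 * Nat.card (tor g)) := by
      rw [← DihedralGroup.nat_card (n := k), ← Nat.card_congr ed.toEquiv,
        ← Nat.card_congr e.toEquiv, hcardM]
    have hk3 : k = 2 * Nat.card (tor g) := by omega
    exact ⟨hk3 ▸ e.trans ed⟩

end Cfsg.Agent.H79.PSLTwoMax
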