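import Cfsg.Agent.H79.PSLTwoMax.Subfield

/-!
# Maximal polyhedral subgroups of `PSL₂(q)`
-/

set_option autoImplicit false

open Matrix MatrixGroups

namespace Cfsg.Agent.H79.PSLTwoMax

open Cfsg.Agent.H6

variable {F : Type*} [Field F] [Fintype F] {q : ℕ}

omit [Fintype F] in
/-- A normal four-group inside `S` transported along an injective map. -/
lemma exists_four_of_embedding {S : Type*} [Group S] {M : Subgroup PSL(2, F)} (e : M ≃* S)
    (W : Subgroup S) [W.Normal] (hW : IsKleinFour W) :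
    ∃ V : Subgroup PSL(2, F), IsKleinFour V ∧ M ≤ Subgroup.normalizer (V : Set PSL(2, F)) := by
  let f : S →* PSL(2, F) := M.subtype.comp e.symm.toMonoidHom
  refine ⟨W.map f, H29.isKleinFour_map f (Subtype.val_injective.comp e.symm.injective) hW, ?_⟩
  intro x hx
  have h := Subgroup.le_normalizer_map (H := W) f
  refine h (Subgroup.mem_map.2 ⟨e ⟨x, hx⟩, ?_, by simp [f]⟩)
  rw [Subgroup.normalizer_eq_top]
  trivial

omit [Fintype F] in
lemma exists_four_alt {M : Subgroup PSL(2, F)} (h : Nonempty (M ≃* alternatingGroup (Fin 4))) :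
    ∃ V : Subgroup PSL(2, F), IsKleinFour V ∧ M ≤ Subgroup.normalizer (V : Set PSL(2, F)) := by
  obtain ⟨e⟩ := h
  have := alternatingGroup.characteristic_kleinFour (α := Fin 4) (by simp)
  exact exists_four_of_embedding e (alternatingGroup.kleinFour (Fin 4))
    (alternatingGroup.kleinFour_isKleinFour (by simp))

omit [Fintype F] in
lemma exists_four_perm {M : Subgroup PSL(2, F)} (h : Nonempty (M ≃* Equiv.Perm (Fin 4))) :
    ∃ V : Subgroup PSL(2, F), IsKleinFour V ∧ M ≤ Subgroup.normalizer (V : Set PSL(2, F)) := by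
  obtain ⟨e⟩ := h
  have := alternatingGroup.characteristic_kleinFour (α := Fin 4) (by simp)
  exact exists_four_of_embedding e
    ((alternatingGroup.kleinFour (Fin 4)).map (alternatingGroup (Fin 4)).subtype)
    (H29.isKleinFour_map _ Subtype.val_injective (alternatingGroup.kleinFour_isKleinFour (by simp)))

lemma mod_eight_pow_odd {q₀ r : ℕ} (hr : r % 2 = 1) (h0 : q₀ % 2 = 1) : q₀ ^ r % 8 = q₀ % 8 := by
  obtain ⟨i, rfl⟩ := Nat.odd_iff.2 hr
  have h := (sq_sub_one_mod q₀)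
  have h1 : q₀ ^ 2 % 8 = 1 := by
    rw [Nat.pow_mod]
    rcases (show q₀ % 8 = 1 ∨ q₀ % 8 = 3 ∨ q₀ % 8 = 5 ∨ q₀ % 8 = 7 by omega) with h | h | h | h <;>
      rw [h]
  rw [pow_succ, pow_mul, Nat.mul_mod, Nat.pow_mod, h1, one_pow, Nat.one_mod, one_mul, Nat.mod_mod]

/-- The four-group normaliser is visible in any subfield of odd degree. -/
lemma normalizer_four_le_psl {K : Type*} [Field K] [Fintype K] (ι : K →+* F)
    (h2 : (2 : F) ≠ 0) (hmod : Fintype.card K % 8 = Fintype.card F % 8 ∨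
      (Fintype.card K % 8 = 1 ∨ Fintype.card K % 8 = 7) ∧
      (Fintype.card F % 8 = 1 ∨ Fintype.card F % 8 = 7)) :
    ∃ V : Subgroup PSL(2, F), IsKleinFour V ∧
      Subgroup.normalizer (V : Set PSL(2, F)) ≤ (pslMap ι).range := by
  have h2K : (2 : K) ≠ 0 := fun e => h2 (by rw [← map_ofNat ι 2, e, map_zero])
  obtain ⟨V₀, hV₀⟩ := exists_four (F := K) h2K
  have hV := H29.isKleinFour_map (pslMap ι) (pslMap_injective ι) hV₀
  refine ⟨_, hV, ?_⟩
  have hoF := odd_of_two_ne (rfl : Fintype.card F = _) h2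
  have hoK := odd_of_two_ne (rfl : Fintype.card K = _) h2K
  have hcard : Nat.card (Subgroup.normalizer (V₀ : Set PSL(2, K))) =
      Nat.card (Subgroup.normalizer ((V₀.map (pslMap ι) : Subgroup PSL(2, F)) : Set PSL(2, F))) := by
    by_cases h8 : Fintype.card K % 8 = 1 ∨ Fintype.card K % 8 = 7
    · rw [card_normalizer_four_one h2K rfl h8 hV₀, card_normalizer_four_one h2 rfl (by omega) hV]
    · rw [card_normalizer_four_three h2K rfl (by omega) hV₀,
        card_normalizer_four_three h2 rfl (by omega) hV]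
  have e := Subgroup.eq_of_le_of_card_ge (Subgroup.le_normalizer_map (H := V₀) (pslMap ι)) (by
    rw [Subgroup.card_map_of_injective (pslMap_injective ι)]; exact hcard.ge)
  exact e ▸ Subgroup.map_le_range _ _

/-- In a subfield of index two the `PGL₂` image sees the whole four-group normaliser. -/
lemma normalizer_four_le_pgl {K : Type*} [Field K] [Fintype K] (ι : K →+* F)
    (hsq : ∀ x : K, IsSquare (ι x)) (h2 : (2 : F) ≠ 0)
    (h8 : Fintype.card F % 8 = 1 ∨ Fintype.card F % 8 = 7) :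
    ∃ V : Subgroup PSL(2, F), IsKleinFour V ∧
      Subgroup.normalizer (V : Set PSL(2, F)) ≤ (pglMap ι hsq).range := by
  have h2K : (2 : K) ≠ 0 := fun e => h2 (by rw [← map_ofNat ι 2, e, map_zero])
  have hoK := odd_of_two_ne (rfl : Fintype.card K = _) h2K
  by_cases hK8 : Fintype.card K % 8 = 1 ∨ Fintype.card K % 8 = 7
  · obtain ⟨V, hV, hle⟩ := normalizer_four_le_psl ι h2 (Or.inr ⟨hK8, h8⟩)
    exact ⟨V, hV, hle.trans (pslMap_range_le_pglMap ι hsq)⟩
  have hK3 : Fintype.card K % 8 = 3 ∨ Fintype.card K % 8 = 5 := by omega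
  obtain ⟨V₀, hV₀⟩ := exists_four (F := K) h2K
  set V := V₀.map (pslMap ι)
  have hV : IsKleinFour V := H29.isKleinFour_map (pslMap ι) (pslMap_injective ι) hV₀
  refine ⟨V, hV, ?_⟩
  set N := Subgroup.normalizer (V : Set PSL(2, F))
  set P := (pslMap ι).range
  set R := (pglMap ι hsq).range
  have hlt : Nat.card P < Nat.card R := by
    rw [card_pslMap_range, Nat.card_congr (MonoidHom.ofInjective (pglMap_injective ι hsq)).symm.toEquiv,
      Cfsg.Agent.H1.card_PGL, card_sl2 rfl, ← two_mul_card_psl (F := K) rfl hoK]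
    have : 0 < Nat.card PSL(2, K) := Nat.card_pos
    omega
  obtain ⟨u, huR, huP⟩ : ∃ u ∈ R, u ∉ P := by
    by_contra hc
    push Not at hc
    exact hlt.not_ge (Subgroup.card_le_of_le (show R ≤ P from hc))
  -- `u` normalises the image of `PSL₂`
  obtain ⟨g, hg⟩ := huR
  obtain ⟨g, rfl⟩ := Matrix.ProjGenLinGroup.mk_surjective g
  have hconj : ∀ x : PSL(2, K), ∃ y : PSL(2, K), u * pslMap ι x * u⁻¹ = pslMap ι y ∧
      y = conjGP g x := by
    intro x
    refine ⟨_, ?_, rfl⟩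
    rw [← hg, ← pglMap_toPGL ι hsq, ← pglMap_toPGL ι hsq (conjGP g x), ← map_inv, ← map_mul,
      ← map_mul]
    congr 1
    obtain ⟨s, rfl⟩ := π_surjective x
    rw [conjGP_π]
    show Matrix.ProjGenLinGroup.mk g * Matrix.ProjGenLinGroup.mk (SpecialLinearGroup.toGL s) *
      (Matrix.ProjGenLinGroup.mk g)⁻¹ = Matrix.ProjGenLinGroup.mk (SpecialLinearGroup.toGL (conjGSL g s))
    rw [← map_inv, ← map_mul, ← map_mul]
    congr 1
    exact Units.ext rfl
  have hV' : IsKleinFour (V₀.map (conjGP g)) := H29.isKleinFour_map _ (conjGP_injective g) hV₀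
  obtain ⟨k, hk⟩ := fours_conj h2K rfl hK3 _ _ hV' hV₀
  -- so `pslMap ι k * u` normalises `V` and is outside the image of `PSL₂`
  set w := pslMap ι k * u
  have hwR : w ∈ R := mul_mem (pslMap_range_le_pglMap ι hsq ⟨k, rfl⟩) ⟨_, hg⟩
  have hwP : w ∉ P := fun h => huP (by
    have := mul_mem (inv_mem (show pslMap ι k ∈ P from ⟨k, rfl⟩)) h
    simpa [w] using this)
  have hwN : w ∈ N := by
    rw [← inv_inv w]
    refine inv_mem ?_
    have hmap : ∀ v ∈ V, w * v * w⁻¹ ∈ V := by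
      rintro _ ⟨v₀, hv₀, rfl⟩
      obtain ⟨y, hy, rfl⟩ := hconj v₀
      refine ⟨k * conjGP g v₀ * k⁻¹, ?_, ?_⟩
      · rw [hk]
        exact ⟨_, Subgroup.mem_map_of_mem _ hv₀, rfl⟩
      · rw [map_mul, map_mul, map_inv, ← hy]
        simp [w, mul_assoc]
    have : V.map (MulAut.conj w).toMonoidHom = V := by
      refine Subgroup.eq_of_le_of_card_ge ?_ ?_
      · rintro _ ⟨v, hv, rfl⟩; exact hmap v hv
      · exact (Subgroup.card_map_of_injective (MulEquiv.injective _)).ge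
    exact inv_mem (cj_eq_iff_mem_normalizer.1 this)
  have h12 : (Subgroup.normalizer (V₀ : Set PSL(2, K))).map (pslMap ι) ≤ N ⊓ R :=
    le_inf (Subgroup.le_normalizer_map (pslMap ι))
      ((Subgroup.map_le_range _ _).trans (pslMap_range_le_pglMap ι hsq))
  have hlt' : (Subgroup.normalizer (V₀ : Set PSL(2, K))).map (pslMap ι) < N ⊓ R :=
    lt_of_le_of_ne h12 fun e => hwP ((Subgroup.map_le_range _ _) (e.ge ⟨hwN, hwR⟩))
  have hd1 := Subgroup.card_dvd_of_le h12
  rw [Subgroup.card_map_of_injective (pslMap_injective ι), card_normalizer_four_three h2K rfl hK3 hV₀]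
    at hd1
  have hne12 : Nat.card (N ⊓ R : Subgroup PSL(2, F)) ≠ 12 := fun e =>
    hlt'.ne (Subgroup.eq_of_le_of_card_ge h12 (by
      rw [e, Subgroup.card_map_of_injective (pslMap_injective ι),
        card_normalizer_four_three h2K rfl hK3 hV₀]))
  have hd2 : Nat.card (N ⊓ R : Subgroup PSL(2, F)) ∣ 24 :=
    card_normalizer_four_one h2 rfl h8 hV ▸ Subgroup.card_dvd_of_le inf_le_left
  have hN24 : Nat.card N = 24 := card_normalizer_four_one h2 rfl h8 hV
  have hpos : 0 < Nat.card (N ⊓ R : Subgroup PSL(2, F)) := Nat.card_pos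
  have hle24 := Nat.le_of_dvd (by norm_num) hd2
  have e : (N ⊓ R : Subgroup PSL(2, F)) = N := Subgroup.eq_of_le_of_card_ge inf_le_left (by
    rw [hN24]; omega)
  exact e ▸ inf_le_right

lemma isSquare_of_even_degree {K : Type*} [Field K] [Fintype K] (ι : K →+* F) {i : ℕ}
    (hF : Fintype.card F = Fintype.card K ^ (2 * i)) (x : K) : IsSquare (ι x) := by
  by_cases hx : x = 0
  · simp [hx]
  by_cases h2 : (2 : F) = 0
  · exact FiniteField.isSquare_of_char_two
      (CharP.ringChar_of_prime_eq_zero Nat.prime_two (by exact_mod_cast h2)) _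
  have hchar : ringChar F ≠ 2 := fun hc => h2 (by
    have := ringChar.Nat.cast_ringChar (R := F)
    rw [hc] at this
    exact_mod_cast this)
  have hqo := odd_of_two_ne (rfl : Fintype.card F = _) h2
  rw [FiniteField.isSquare_iff hchar (by simpa using hx)]
  have hrodd : Odd (Fintype.card K) := by
    rcases Nat.even_or_odd (Fintype.card K) with h | h
    · exfalso
      have hi : i ≠ 0 := fun e => by
        rw [e] at hF
        have : 1 < Fintype.card F := Fintype.one_lt_card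
        simp at hF; omega
      have : Even (Fintype.card F) := hF ▸ Nat.even_pow.2 ⟨h, by omega⟩
      exact Nat.not_even_iff_odd.2 (Nat.odd_iff.2 hqo) this
    · exact h
  obtain ⟨t, ht, -⟩ := S0805.exists_sub_one hrodd i
  obtain ⟨u, hu⟩ : ∃ u, Fintype.card K + 1 = 2 * u :=
    ⟨(Fintype.card K + 1) / 2, by have := Nat.odd_iff.1 hrodd; omega⟩
  have hq1 : Fintype.card F - 1 = (Fintype.card K - 1) * u * t * 2 := by
    rw [hF, pow_mul, ht, sq_sub_one_eq, hu]; ring
  have he : Fintype.card F / 2 = (Fintype.card K - 1) * (u * t) := by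
    rw [← mul_assoc]; omega
  rw [← map_pow, he, pow_mul, FiniteField.pow_card_sub_one_eq_one x hx, one_pow, map_one]

lemma card_pglMap_range {K : Type*} [Field K] [Fintype K] (ι : K →+* F)
    (hsq : ∀ x : K, IsSquare (ι x)) :
    Nat.card (pglMap ι hsq).range = Fintype.card K * (Fintype.card K ^ 2 - 1) := by
  rw [Nat.card_congr (MonoidHom.ofInjective (pglMap_injective ι hsq)).symm.toEquiv,
    Cfsg.Agent.H1.card_PGL, card_sl2 rfl]

lemma lt_pow_card {q₀ r : ℕ} (h : 2 ≤ q₀) (hr : 2 ≤ r) :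
    2 * (q₀ * (q₀ ^ 2 - 1)) < q₀ ^ r * ((q₀ ^ r) ^ 2 - 1) ∨ q₀ = 2 := by
  by_cases h3 : q₀ = 2
  · exact Or.inr h3
  left
  have h1 : 3 ≤ q₀ := by omega
  have h2 : q₀ * q₀ ≤ q₀ ^ r := by rw [← sq]; exact Nat.pow_le_pow_right (by omega) hr
  have h4 : 3 * q₀ ≤ q₀ * q₀ := Nat.mul_le_mul_right _ h1
  have h5 : q₀ ^ 2 - 1 ≤ (q₀ ^ r) ^ 2 - 1 :=
    Nat.sub_le_sub_right (Nat.pow_le_pow_left (by omega) 2) 1
  have h6 : 8 ≤ q₀ ^ 2 - 1 := by have := Nat.pow_le_pow_left h1 2; omega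
  calc 2 * (q₀ * (q₀ ^ 2 - 1)) = (2 * q₀) * (q₀ ^ 2 - 1) := by ring
    _ < q₀ ^ r * (q₀ ^ 2 - 1) := Nat.mul_lt_mul_of_pos_right (by omega) (by omega)
    _ ≤ _ := Nat.mul_le_mul_left _ h5

lemma pglMap_range_ne_top {K : Type*} [Field K] [Fintype K] (ι : K →+* F)
    (hsq : ∀ x : K, IsSquare (ι x)) {r : ℕ} (hr : 2 ≤ r) (h2 : (2 : F) ≠ 0)
    (hF : Fintype.card F = Fintype.card K ^ r) : (pglMap ι hsq).range ≠ ⊤ := by
  have hq := Fintype.one_lt_card (α := K)
  have h := two_mul_card_psl (F := F) rfl (odd_of_two_ne rfl h2)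
  apply ne_top_of_card_lt
  rw [card_pglMap_range]
  rcases lt_pow_card (q₀ := Fintype.card K) hq hr with h' | h'
  · rw [← hF] at h'; omega
  · exfalso
    have ho := odd_of_two_ne (rfl : Fintype.card F = _) h2
    obtain ⟨i, rfl⟩ : ∃ i, r = i + 1 := ⟨r - 1, by omega⟩
    rw [hF, h', pow_succ, Nat.mul_mod_left] at ho
    omega

lemma pslMap_range_ne_top {K : Type*} [Field K] [Fintype K] (ι : K →+* F) {r : ℕ} (hr : 2 ≤ r)
    (h2 : (2 : F) ≠ 0) (hF : Fintype.card F = Fintype.card K ^ r) : (pslMap ι).range ≠ ⊤ := by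
  have h2K : (2 : K) ≠ 0 := fun e => h2 (by rw [← map_ofNat ι 2, e, map_zero])
  have h := two_mul_card_psl (F := F) rfl (odd_of_two_ne rfl h2)
  have h' := two_mul_card_psl (F := K) rfl (odd_of_two_ne rfl h2K)
  apply ne_top_of_card_lt
  rw [card_pslMap_range]
  rcases lt_pow_card (q₀ := Fintype.card K) Fintype.one_lt_card hr with h'' | h''
  · rw [← hF] at h''; omega
  · exfalso
    have := odd_of_two_ne (rfl : Fintype.card K = _) h2K
    omega

variable (p : ℕ) [Fact p.Prime] [CharP F p]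

lemma two_ne_of_ne (hp2 : p ≠ 2) : (2 : F) ≠ 0 := fun h2 => hp2
  ((Nat.prime_dvd_prime_iff_eq Fact.out Nat.prime_two).1
    ((CharP.cast_eq_zero_iff F p 2).1 (by exact_mod_cast h2)))

/-- A maximal `A₄` lives over a prime field or is `PSL₂(K)` with `[F : K]` an odd prime. -/
theorem maximal_alt_four {a : ℕ} (hF : Fintype.card F = p ^ a) (hp2 : p ≠ 2)
    (h5 : 5 ≤ p ^ a) {M : Subgroup PSL(2, F)} (hM : IsCoatom M)
    (hiso : Nonempty (M ≃* alternatingGroup (Fin 4))) :
    (a = 1 ∧ (p % 8 = 3 ∨ p % 8 = 5) ∧ ¬ (p % 10 = 1 ∨ p % 10 = 9)) ∨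
    ∃ (F₀ : Type) (_ : Field F₀) (_ : Fintype F₀) (r : ℕ), r.Prime ∧ Odd r ∧
      Fintype.card F = Fintype.card F₀ ^ r ∧ Nonempty (M ≃* PSL(2, F₀)) := by
  classical
  have hp : p.Prime := Fact.out
  have h2 : (2 : F) ≠ 0 := two_ne_of_ne p hp2
  obtain ⟨V, hV, hle⟩ := exists_four_alt hiso
  have hc := card_alt_four hiso
  have hodd := odd_of_two_ne hF h2
  have ha : a ≠ 0 := fun e => by rw [e] at h5; simp at h5
  have h8 : p ^ a % 8 = 3 ∨ p ^ a % 8 = 5 := by
    by_contra h8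
    have hn := card_normalizer_four_one h2 hF (by omega) hV
    have hne : Subgroup.normalizer (V : Set PSL(2, F)) ≠ ⊤ :=
      ne_top_of_card_lt (hn ▸ lt_card_psl hF hodd (show 7 ≤ p ^ a by omega) (by norm_num))
    have := eq_of_coatom_le hM hle hne
    rw [this, hn] at hc
    omega
  have hN : M = Subgroup.normalizer (V : Set PSL(2, F)) := Subgroup.eq_of_le_of_card_ge hle (by
    rw [hc, card_normalizer_four_three h2 hF h8 hV])
  have hpo : p % 2 = 1 := Nat.odd_iff.1 (hp.odd_of_ne_two hp2)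
  have hao : a % 2 = 1 := by
    by_contra h
    obtain ⟨i, rfl⟩ : ∃ i, a = 2 * i := ⟨a / 2, by omega⟩
    have : (p ^ i) ^ 2 % 8 = 1 := by
      rw [Nat.pow_mod]
      have : p ^ i % 2 = 1 := Nat.odd_iff.1 (hp.odd_of_ne_two hp2).pow
      rcases (show p ^ i % 8 = 1 ∨ p ^ i % 8 = 3 ∨ p ^ i % 8 = 5 ∨ p ^ i % 8 = 7 by omega) with
        h | h | h | h <;> rw [h]
    rw [mul_comm 2 i, pow_mul] at h8
    omega
  by_cases ha1 : a = 1
  · left
    subst ha1
    rw [pow_one] at h8 hF h5 hodd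
    refine ⟨rfl, h8, fun h10 => ?_⟩
    -- `A₄` lies in an `A₅`
    have h5d : 5 ∣ p * (p ^ 2 - 1) := by
      rw [sq_sub_one_eq]
      refine Dvd.dvd.mul_left ?_ _
      rcases h10 with h | h
      · exact dvd_mul_of_dvd_right (by omega) _
      · exact dvd_mul_of_dvd_left (by omega) _
    obtain ⟨H, hH, ⟨e⟩⟩ := exists_alt_five hF h5d
    let σ : Fin 4 ↪ Fin 5 := Fin.castSuccEmb
    let f : Equiv.Perm (Fin 4) →* Equiv.Perm (Fin 5) := Equiv.Perm.viaEmbeddingHom σ
    let A : Subgroup (alternatingGroup (Fin 5)) :=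
      ((alternatingGroup (Fin 4)).map f).subgroupOf (alternatingGroup (Fin 5))
    have hfle : (alternatingGroup (Fin 4)).map f ≤ alternatingGroup (Fin 5) := by
      rintro _ ⟨s, hs, rfl⟩
      rw [SetLike.mem_coe] at hs
      rw [Equiv.Perm.mem_alternatingGroup] at hs ⊢
      rw [← hs]
      simp [f, Equiv.Perm.viaEmbeddingHom_apply, Equiv.Perm.viaEmbedding]
    let eA : A ≃* alternatingGroup (Fin 4) := (Subgroup.subgroupOfEquivOfLe hfle).trans
      ((alternatingGroup (Fin 4)).equivMapOfInjective f (Equiv.Perm.viaEmbeddingHom_injective σ)).symm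
    let g : alternatingGroup (Fin 5) →* PSL(2, F) := H.subtype.comp e.symm.toMonoidHom
    have hg : Function.Injective g := Subtype.val_injective.comp e.symm.injective
    set A' := A.map g
    have hA' : Nonempty (A' ≃* alternatingGroup (Fin 4)) :=
      ⟨((A.equivMapOfInjective g hg).symm).trans eA⟩
    obtain ⟨W, hW, hWle⟩ := exists_four_alt hA'
    have hA'N : A' = Subgroup.normalizer (W : Set PSL(2, F)) := Subgroup.eq_of_le_of_card_ge hWle (by
      rw [card_alt_four hA', card_normalizer_four_three h2 hF h8 hW])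
    obtain ⟨ψ, hψ⟩ := four_conj_aut h2 hW hV
    have hMH : M ≤ H.map ψ.toMonoidHom := by
      rw [hN, ← hψ, ← Subgroup.map_equiv_normalizer_eq W ψ, ← hA'N]
      refine Subgroup.map_mono ?_
      rintro _ ⟨z, -, rfl⟩
      exact (e.symm z).2
    have hcard : Nat.card (H.map ψ.toMonoidHom) = 60 := by
      rw [Subgroup.card_map_of_injective ψ.injective, hH]
    have hne : H.map ψ.toMonoidHom ≠ ⊤ := ne_top_of_card_lt
      (hcard ▸ lt_card_psl hF hodd (show 11 ≤ p by omega) (by norm_num))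
    rw [eq_of_coatom_le hM hMH hne, hcard] at hc
    omega
  · right
    obtain ⟨r, hr, hra⟩ := Nat.exists_prime_and_dvd ha1
    obtain ⟨j, rfl⟩ := hra
    have hj : j ≠ 0 := fun e => ha (by rw [e, mul_zero])
    obtain ⟨_, ι, hK⟩ := exists_galois_emb (F := F) p hF (dvd_mul_left j r) hj ha
    have hr2 : r % 2 = 1 := by
      rcases hr.eq_two_or_odd with h | h
      · subst h; omega
      · exact h
    have hFK : Fintype.card F = Fintype.card (GaloisField p j) ^ r := by
      rw [hF, hK, ← pow_mul, mul_comm]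
    obtain ⟨V₁, hV₁, hN₁⟩ := normalizer_four_le_psl ι h2 (Or.inl (by
      rw [hFK, mod_eight_pow_odd hr2 (hK ▸ Nat.odd_iff.1 (hp.odd_of_ne_two hp2).pow)]))
    obtain ⟨ψ, hψ⟩ := four_conj_aut h2 hV₁ hV
    have hMR : M ≤ ((pslMap ι).range).map ψ.toMonoidHom := by
      rw [hN, ← hψ, ← Subgroup.map_equiv_normalizer_eq V₁ ψ]
      exact Subgroup.map_mono hN₁
    have hne := pslMap_range_ne_top ι hr.two_le h2 hFK
    have hMR' := eq_of_coatom_le hM hMR fun e => hne (Subgroup.map_injective ψ.injective (e.trans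
      (Subgroup.map_top_of_surjective ψ.toMonoidHom ψ.surjective).symm))
    obtain ⟨e'⟩ := nonempty_equiv_map ψ (pslMap ι).range
    exact ⟨GaloisField p j, inferInstance, inferInstance, r, hr, Nat.odd_iff.2 hr2, hFK,
      ⟨((MulEquiv.subgroupCongr hMR').trans e').trans
        (MonoidHom.ofInjective (pslMap_injective ι)).symm⟩⟩

/-- A maximal `S₄` lives over a prime field or is of subfield type. -/
theorem maximal_perm_four {a : ℕ} (hF : Fintype.card F = p ^ a) (hp2 : p ≠ 2)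
    (ha : a ≠ 0) {M : Subgroup PSL(2, F)} (hM : IsCoatom M)
    (hiso : Nonempty (M ≃* Equiv.Perm (Fin 4))) :
    (a = 1 ∧ (p % 8 = 1 ∨ p % 8 = 7)) ∨
    (∃ (F₀ : Type) (_ : Field F₀) (_ : Fintype F₀), Fintype.card F = Fintype.card F₀ ^ 2 ∧
      Nonempty (M ≃* PGL(2, F₀))) ∨
    ∃ (F₀ : Type) (_ : Field F₀) (_ : Fintype F₀) (r : ℕ), r.Prime ∧ Odd r ∧
      Fintype.card F = Fintype.card F₀ ^ r ∧ Nonempty (M ≃* PSL(2, F₀)) := by
  classical
  have hp : p.Prime := Fact.out
  have h2 : (2 : F) ≠ 0 := two_ne_of_ne p hp2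
  obtain ⟨V, hV, hle⟩ := exists_four_perm hiso
  have hc := card_perm_four hiso
  have hodd := odd_of_two_ne hF h2
  have h8 : p ^ a % 8 = 1 ∨ p ^ a % 8 = 7 := by
    by_contra h8
    have := Subgroup.card_dvd_of_le hle
    rw [hc, card_normalizer_four_three h2 hF (by omega) hV] at this
    norm_num at this
  have hN : M = Subgroup.normalizer (V : Set PSL(2, F)) := Subgroup.eq_of_le_of_card_ge hle (by
    rw [hc, card_normalizer_four_one h2 hF h8 hV])
  by_cases ha1 : a = 1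
  · exact Or.inl ⟨ha1, by rw [ha1, pow_one] at h8; exact h8⟩
  right
  obtain ⟨r, hr, hra⟩ := Nat.exists_prime_and_dvd ha1
  obtain ⟨j, rfl⟩ := hra
  have hj : j ≠ 0 := fun e => ha (by rw [e, mul_zero])
  obtain ⟨_, ι, hK⟩ := exists_galois_emb (F := F) p hF (dvd_mul_left j r) hj ha
  have hFK : Fintype.card F = Fintype.card (GaloisField p j) ^ r := by
    rw [hF, hK, ← pow_mul, mul_comm]
  have fin : ∀ (R : Subgroup PSL(2, F)) (V₁ : Subgroup PSL(2, F)), IsKleinFour V₁ →
      Subgroup.normalizer (V₁ : Set PSL(2, F)) ≤ R → R ≠ ⊤ → Nonempty (M ≃* R) := by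
    intro R V₁ hV₁ hN₁ hne
    obtain ⟨ψ, hψ⟩ := four_conj_aut h2 hV₁ hV
    have hMR : M ≤ R.map ψ.toMonoidHom := by
      rw [hN, ← hψ, ← Subgroup.map_equiv_normalizer_eq V₁ ψ]
      exact Subgroup.map_mono hN₁
    have hMR' := eq_of_coatom_le hM hMR fun e => hne (Subgroup.map_injective ψ.injective (e.trans
      (Subgroup.map_top_of_surjective ψ.toMonoidHom ψ.surjective).symm))
    obtain ⟨e'⟩ := nonempty_equiv_map ψ R
    exact ⟨(MulEquiv.subgroupCongr hMR').trans e'⟩
  rcases hr.eq_two_or_odd with hr2 | hr2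
  · subst hr2
    have hsq := isSquare_of_even_degree (i := 1) ι (by rw [hFK, mul_one])
    obtain ⟨V₁, hV₁, hN₁⟩ := normalizer_four_le_pgl ι hsq h2 (by rw [hF]; exact h8)
    obtain ⟨e⟩ := fin _ V₁ hV₁ hN₁ (pglMap_range_ne_top ι hsq le_rfl h2 hFK)
    exact Or.inl ⟨GaloisField p j, inferInstance, inferInstance, hFK,
      ⟨e.trans (MonoidHom.ofInjective (pglMap_injective ι hsq)).symm⟩⟩
  · obtain ⟨V₁, hV₁, hN₁⟩ := normalizer_four_le_psl ι h2 (Or.inl (by
      rw [hFK, mod_eight_pow_odd hr2 (hK ▸ Nat.odd_iff.1 (hp.odd_of_ne_two hp2).pow)]))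
    obtain ⟨e⟩ := fin _ V₁ hV₁ hN₁ (pslMap_range_ne_top ι hr.two_le h2 hFK)
    exact Or.inr ⟨GaloisField p j, inferInstance, inferInstance, r, hr, Nat.odd_iff.2 hr2, hFK,
      ⟨e.trans (MonoidHom.ofInjective (pslMap_injective ι)).symm⟩⟩

end Cfsg.Agent.H79.PSLTwoMax
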