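import Cfsg.Agent.H79.PSLTwoMax.Existence
import Cfsg.Agent.H79.PSLTwoMax.GLConj

/-!
# Descent to subfield subgroups
-/

set_option autoImplicit false

open Matrix MatrixGroups

namespace Cfsg.Agent.H79.PSLTwoMax

open Cfsg.Agent.H6

variable {F : Type*} [Field F]

lemma isCoatom_map {G G' : Type*} [Group G] [Group G'] (ψ : G ≃* G') {H : Subgroup G}
    (h : IsCoatom H) : IsCoatom (H.map ψ.toMonoidHom) :=
  (ψ.mapSubgroup.isCoatom_iff H).2 h

/-- A coatom inside a proper image is that image. -/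
lemma eq_of_coatom_le {G : Type*} [Group G] {M R : Subgroup G} (hM : IsCoatom M) (h : M ≤ R)
    (hR : R ≠ ⊤) : M = R :=
  (eq_or_lt_of_le h).elim id fun hlt => absurd (hM.2 R hlt) hR

/-- The equivalence of a subgroup with its image. -/
lemma nonempty_equiv_map {G G' : Type*} [Group G] [Group G'] (ψ : G ≃* G') (H : Subgroup G) :
    Nonempty (H.map ψ.toMonoidHom ≃* H) :=
  ⟨(H.equivMapOfInjective ψ.toMonoidHom ψ.injective).symm⟩

section Compare

variable {K L : Type*} [Field K] [Field L]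

lemma exists_factor (ι : K →+* F) (κ : L →+* F) (h : ∀ x, ∃ y, κ y = ι x) :
    ∃ τ : K →+* L, ∀ x, κ (τ x) = ι x := by
  refine ⟨{ toFun := fun x => (h x).choose, map_one' := κ.injective ?_, map_mul' := fun a b => κ.injective ?_,
            map_zero' := κ.injective ?_, map_add' := fun a b => κ.injective ?_ },
    fun x => (h x).choose_spec⟩
  · rw [(h 1).choose_spec, map_one, map_one]
  · rw [map_mul κ]
    exact (h (a * b)).choose_spec.trans ((map_mul ι a b).trans
      (congrArg₂ (· * ·) (h a).choose_spec.symm (h b).choose_spec.symm))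
  · rw [(h 0).choose_spec, map_zero, map_zero]
  · rw [map_add κ]
    exact (h (a + b)).choose_spec.trans ((map_add ι a b).trans
      (congrArg₂ (· + ·) (h a).choose_spec.symm (h b).choose_spec.symm))

lemma pslMap_range_mono (ι : K →+* F) (κ : L →+* F) (h : ∀ x, ∃ y, κ y = ι x) :
    (pslMap ι).range ≤ (pslMap κ).range := by
  obtain ⟨τ, hτ⟩ := exists_factor ι κ h
  rintro _ ⟨x, rfl⟩
  refine ⟨pslMap τ x, ?_⟩
  rw [pslMap_comp_apply, show κ.comp τ = ι from RingHom.ext hτ]

lemma pslMap_range_le_pglMap (ι : K →+* F) (hsq : ∀ x : K, IsSquare (ι x)) :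
    (pslMap ι).range ≤ (pglMap ι hsq).range := by
  rintro _ ⟨x, rfl⟩
  exact ⟨_, pglMap_toPGL ι hsq x⟩

lemma pglMap_range_le_pslMap (ι : K →+* F) (hsq : ∀ x : K, IsSquare (ι x)) (κ : L →+* F)
    (h : ∀ x, ∃ s, κ (s * s) = ι x) : (pglMap ι hsq).range ≤ (pslMap κ).range := by
  refine pgl_range_le ι hsq (pslMap_range_mono ι κ fun x => ?_) fun d r hr hr0 => ?_
  · obtain ⟨s, hs⟩ := h x; exact ⟨s * s, hs⟩
  · obtain ⟨s, hs⟩ := h (d : K)
    rw [← hr, map_mul] at hs
    have hs0 : s ≠ 0 := fun e => by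
      rw [e, map_zero, mul_zero] at hs
      exact mul_ne_zero hr0 hr0 hs.symm
    refine ⟨π (diagSL (Units.mk0 s hs0)), ?_⟩
    rw [pslMap_π, π_eq_iff]
    rcases mul_self_eq_mul_self_iff.1 hs with e | e
    · left; apply sl2_ext <;> simp [diagSL, e]
    · right; apply sl2_ext <;> simp [diagSL, e, sl2_neg, inv_neg]

end Compare

variable [Fintype F]

lemma exists_galois_emb (p : ℕ) [Fact p.Prime] {a j : ℕ} (hF : Fintype.card F = p ^ a)
    (hj : j ∣ a) (hj0 : j ≠ 0) (ha : a ≠ 0) :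
    ∃ (_ : Fintype (GaloisField p j)) (_ : GaloisField p j →+* F),
      Fintype.card (GaloisField p j) = p ^ j := by
  let : Fintype (GaloisField p j) := Fintype.ofFinite _
  have hc : Fintype.card (GaloisField p j) = p ^ j := by
    rw [← Nat.card_eq_fintype_card, GaloisField.card p j hj0]
  obtain ⟨m, hm⟩ := hj
  obtain ⟨ι⟩ := S0805.exists_ringHom (F := F) (K := GaloisField p j) (m := m)
    (Nat.one_le_iff_ne_zero.2 fun e => ha (by rw [hm, e, mul_zero])) (by rw [hc, ← pow_mul, ← hm, hF])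
  exact ⟨inferInstance, ι, hc⟩

/-- Fixed points of the power map of a subfield lie in it. -/
lemma mem_range_of_pow {K : Type*} [Field K] [Fintype K] (ι : K →+* F) {x : F}
    (hx : x ^ Fintype.card K = x) : ∃ y, ι y = x := by
  classical
  let f : Polynomial F := Polynomial.X ^ Fintype.card K - Polynomial.X
  have h1 : 1 < Fintype.card K := Fintype.one_lt_card
  have hf0 : f ≠ 0 := FiniteField.X_pow_card_sub_X_ne_zero F h1
  have hsub : Finset.univ.image ι ⊆ f.roots.toFinset := by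
    intro z hz
    obtain ⟨y, -, rfl⟩ := Finset.mem_image.1 hz
    rw [Multiset.mem_toFinset, Polynomial.mem_roots hf0]
    simp [f, ← map_pow, FiniteField.pow_card]
  have hle : f.roots.toFinset.card ≤ (Finset.univ.image ι).card := by
    rw [Finset.card_image_of_injective _ ι.injective, Finset.card_univ]
    refine (Multiset.toFinset_card_le _).trans ((Polynomial.card_roots' f).trans ?_)
    exact (FiniteField.X_pow_card_sub_X_natDegree_eq F h1).le
  have hmem : x ∈ f.roots.toFinset := by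
    rw [Multiset.mem_toFinset, Polynomial.mem_roots hf0]
    simp [f, hx]
  rw [← Finset.eq_of_subset_of_card_le hsub hle] at hmem
  obtain ⟨y, -, rfl⟩ := Finset.mem_image.1 hmem
  exact ⟨y, rfl⟩

/-- All Klein four-subgroups are equivalent under automorphisms. -/
theorem four_conj_aut (h2 : (2 : F) ≠ 0) {V W : Subgroup PSL(2, F)} (hV : IsKleinFour V)
    (hW : IsKleinFour W) : ∃ ψ : PSL(2, F) ≃* PSL(2, F), V.map ψ.toMonoidHom = W := by
  obtain ⟨x, y, hxy⟩ := exists_rep (1 : F) 0 1 (-1) (by simp) (Or.inl (by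
    intro e; exact h2 (mul_self_eq_zero.1 (by linear_combination (-1 : F) * e))))
  -- the standard four-group
  have key : ∀ U : Subgroup PSL(2, F), IsKleinFour U → ∃ (ψ : PSL(2, F) ≃* PSL(2, F)) (B : SL(2, F)),
      π (H6.comp (0 : F)) ∈ U.map ψ.toMonoidHom ∧ π B ∈ U.map ψ.toMonoidHom ∧
      (B 0 0 = x ∧ B 1 0 = y ∧ B 0 1 = y ∧ B 1 1 = -x) ∧ π B ≠ 1 ∧ π (H6.comp (0 : F)) ≠ 1 ∧
      π B ≠ π (H6.comp (0 : F)) := by
    intro U hU
    obtain ⟨a, ha, ha1⟩ := H29.exists_ne_one_of_one_lt_card (A := U) (by rw [hU.card_four]; norm_num)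
    obtain ⟨b, hb, hb1, hba⟩ := H29.exists_mem_ne_ne (A := U) (by rw [hU.card_four]; norm_num) a
    have hord : ∀ c ∈ U, c ≠ 1 → orderOf c = 2 := fun c hc hc1 =>
      orderOf_eq_prime (H29.sq_eq_one_of_mem_kleinFour hc) hc1
    obtain ⟨A, rfl⟩ := π_surjective a
    obtain ⟨B, rfl⟩ := π_surjective b
    have tA := (orderOf_π_eq_two_iff h2).1 (hord _ ha ha1)
    have tB := (orderOf_π_eq_two_iff h2).1 (hord _ hb hb1)
    have hc := H29.comm_of_mem_kleinFour ha hb
    rw [← map_mul, ← map_mul, π_eq_iff] at hc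
    have hc' : A * B = -(B * A) := hc.resolve_left fun e => hba
      (eq_of_involution_mem_tor h2 tA (mem_tor.2 (mem_cent.2 e)) (hord _ hb hb1))
    obtain ⟨ψ, B₀, e1, e2, a1, a2, a3, a4⟩ := four_normal_form h2 tA tB hc'
      (x := x) (y := y) (by linear_combination hxy)
    refine ⟨ψ, B₀, e1 ▸ Subgroup.mem_map_of_mem ψ.toMonoidHom ha,
      e2 ▸ Subgroup.mem_map_of_mem ψ.toMonoidHom hb, ⟨a1, a2, a3, a4⟩, fun e => hb1 ?_,
      fun e => ha1 ?_, fun e => hba ?_⟩
    · exact ψ.injective (e2.trans (e.trans (map_one ψ).symm))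
    · exact ψ.injective (e1.trans (e.trans (map_one ψ).symm))
    · exact ψ.injective (e2.trans (e.trans e1.symm))
  obtain ⟨ψ, B, v1, v2, ⟨b1, b2, b3, b4⟩, n1, n2, n3⟩ := key V hV
  obtain ⟨φ, B', w1, w2, ⟨c1, c2, c3, c4⟩, -, -, -⟩ := key W hW
  have hB : B' = B := sl2_ext (c1.trans b1.symm) (c3.trans b3.symm) (c2.trans b2.symm) (c4.trans b4.symm)
  subst hB
  have hV' := H29.isKleinFour_map ψ.toMonoidHom ψ.injective hV
  have hW' := H29.isKleinFour_map φ.toMonoidHom φ.injective hW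
  have hsq : π (H6.comp (0 : F)) ^ 2 = 1 ∧ π B' ^ 2 = 1 :=
    ⟨H29.sq_eq_one_of_mem_kleinFour v1, H29.sq_eq_one_of_mem_kleinFour v2⟩
  set S := H29.fourSubgroup _ _ hsq.1 hsq.2 (H29.comm_of_mem_kleinFour v1 v2)
  have hS : IsKleinFour S := H29.isKleinFour_fourSubgroup n2 n1 n3.symm
  have hsub : ∀ U : Subgroup PSL(2, F), IsKleinFour U → π (H6.comp (0 : F)) ∈ U → π B' ∈ U → S = U := by
    intro U hU h1 h2'
    refine Subgroup.eq_of_le_of_card_ge (fun z hz => ?_) (by rw [hU.card_four, hS.card_four])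
    rcases H29.mem_fourSubgroup.1 hz with rfl | rfl | rfl | rfl
    exacts [one_mem _, h1, h2', mul_mem h1 h2']
  refine ⟨ψ.trans φ.symm, ?_⟩
  have e := (hsub _ hV' v1 v2).symm.trans (hsub _ hW' w1 w2)
  rw [show (ψ.trans φ.symm).toMonoidHom = φ.symm.toMonoidHom.comp ψ.toMonoidHom from rfl,
    ← Subgroup.map_map, e, Subgroup.map_map,
    show φ.symm.toMonoidHom.comp φ.toMonoidHom = MonoidHom.id _ from
      MonoidHom.ext φ.symm_apply_apply, Subgroup.map_id]

/-- The shape of a subgroup of subfield type, up to conjugation in `GL₂`. -/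
theorem gen_range_GL {H : Subgroup PSL(2, F)} {r k : ℕ} (hG : Gen H r k) :
    ∃ (K : Subfield F) (ψ : PSL(2, F) ≃* PSL(2, F)) (P : GL (Fin 2) F), Nat.card K = r ∧
      (∀ x, ψ x = conjGP P x) ∧
      ((2 * k + 1 = r ∧ H = ((pslMap K.subtype).range).map ψ.toMonoidHom) ∨
       (k + 1 = r ∧ ∃ hsq : ∀ x : K, IsSquare (K.subtype x),
          H = ((pglMap K.subtype hsq).range).map ψ.toMonoidHom)) := by
  classical
  obtain ⟨d, s, c, h⟩ := gen_std hG
  obtain ⟨hU, hr, -, hk1, hkr, -, -, -⟩ := hG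
  obtain ⟨K, a, hKr, hK, hca, hT⟩ := h.field (by omega)
  have hinj := conjDP_injective a
  let δ := MulEquiv.ofBijective (conjDP a) ⟨hinj, Finite.injective_iff_surjective.1 hinj⟩
  have := Fintype.ofFinite K
  have hKcard : Fintype.card K = r := by rw [← hKr, Nat.card_eq_fintype_card]
  have hback : ∀ R : Subgroup PSL(2, F), R.map (conjDP a) = cj d H →
      H = R.map (δ.trans (MulAut.conj d⁻¹)).toMonoidHom := by
    intro R e
    apply cj_injective d
    rw [← e, cj, Subgroup.map_map]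
    congr 1
    ext z
    simp [δ, mul_assoc]
    rfl
  obtain ⟨dd, hdd⟩ := π_surjective d⁻¹
  refine ⟨K, δ.trans (MulAut.conj d⁻¹), SpecialLinearGroup.toGL dd * diagGL a, hKr, fun x => ?_, ?_⟩
  · rw [conjGP_mul, conjGP_toGL, conjGP_diagGL, hdd]
    rfl
  have hsq' : r ^ 2 - 1 = (r + 1) * (r - 1) := sq_sub_one_eq r
  rcases hkr with hk | hk
  · refine Or.inl ⟨hk, hback _ ?_⟩
    have hle : ((pslMap K.subtype).range).map (conjDP a) ≤ cj d H := by
      rw [← MonoidHom.range_comp]; exact h.psl_le hK hca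
    refine Subgroup.eq_of_le_of_card_ge hle ?_
    have hpsl := card_psl2_mul (F := K) hKcard
    rw [Nat.gcd_eq_left (show 2 ∣ r - 1 from ⟨k, by omega⟩), hsq', show r - 1 = 2 * k by omega,
      show r * ((r + 1) * (2 * k)) = ((r + 1) * (r * k)) * 2 by ring] at hpsl
    rw [h.hcard, Subgroup.card_map_of_injective hinj, card_pslMap_range,
      Nat.eq_of_mul_eq_mul_right two_pos hpsl]
  · have hTeq : ∀ x : K, x ≠ 0 → ∃ t ∈ Subgroup.zpowers (s ^ 2), ((t : Fˣ) : F) = x := by
      have hinj' : Function.Injective (fun t : Subgroup.zpowers (s ^ 2) =>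
          (⟨⟨((t : Fˣ) : F), hT _ t.2⟩, fun e => (t : Fˣ).ne_zero (congrArg Subtype.val e)⟩ :
            {x : K // x ≠ 0})) := fun t u e =>
        Subtype.ext (Units.ext (congrArg (fun z : {x : K // x ≠ 0} => ((z : K) : F)) e))
      have hb := hinj'.bijective_of_nat_card_le (by
        rw [Nat.card_zpowers, ← orderOf_π_diagSL, h.hso, Nat.card_eq_fintype_card,
          Fintype.card_subtype_compl, Fintype.card_subtype_eq, hKcard]
        omega)
      intro x hx
      obtain ⟨t, ht⟩ := hb.2 ⟨x, hx⟩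
      exact ⟨t, t.2, congrArg (fun z : {x : K // x ≠ 0} => ((z : K) : F)) ht⟩
    have hsqK : ∀ x : K, IsSquare (K.subtype x) := by
      intro x
      by_cases hx : x = 0
      · simp [hx]
      · obtain ⟨t, ⟨i, hi⟩, et⟩ := hTeq x hx
        refine ⟨((s ^ i : Fˣ) : F), ?_⟩
        rw [Subfield.subtype_apply, ← et, ← Units.val_mul, ← mul_zpow, ← sq]
        exact congrArg Units.val hi.symm
    refine Or.inr ⟨hk, hsqK, hback _ ?_⟩
    have hle : ((pglMap K.subtype hsqK).range).map (conjDP a) ≤ cj d H := by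
      refine Subgroup.map_le_iff_le_comap.2 (pgl_range_le _ _ ?_ ?_)
      · rintro _ ⟨x, rfl⟩
        exact h.psl_le hK hca ⟨x, rfl⟩
      · intro u ρ hρ hρ0
        rw [Subgroup.mem_comap, conjDP_π]
        have e : conjD a (diagSL (Units.mk0 ρ hρ0)) = diagSL (Units.mk0 ρ hρ0) := by
          apply sl2_ext <;> simp [conjD, diagSL]
        rw [e]
        refine h.diag_mem ?_
        obtain ⟨t, ht, et⟩ := hTeq u u.ne_zero
        convert ht using 1
        refine Units.ext ?_
        rw [et, Units.val_pow_eq_pow_val, Units.val_mk0, sq, hρ, Subfield.subtype_apply]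
    refine Subgroup.eq_of_le_of_card_ge hle (le_of_eq ?_)
    rw [h.hcard, Subgroup.card_map_of_injective hinj,
      Nat.card_congr (MonoidHom.ofInjective (pglMap_injective K.subtype hsqK)).symm.toEquiv,
      Cfsg.Agent.H1.card_PGL, card_sl2 hKcard, hsq', show r - 1 = k by omega]
    ring

/-- The shape of a subgroup of subfield type. -/
theorem gen_range {H : Subgroup PSL(2, F)} {r k : ℕ} (hG : Gen H r k) :
    ∃ (K : Subfield F) (ψ : PSL(2, F) ≃* PSL(2, F)), Nat.card K = r ∧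
      ((2 * k + 1 = r ∧ H = ((pslMap K.subtype).range).map ψ.toMonoidHom) ∨
       (k + 1 = r ∧ ∃ hsq : ∀ x : K, IsSquare (K.subtype x),
          H = ((pglMap K.subtype hsq).range).map ψ.toMonoidHom)) := by
  obtain ⟨K, ψ, -, h1, -, h2⟩ := gen_range_GL hG
  exact ⟨K, ψ, h1, h2⟩

end Cfsg.Agent.H79.PSLTwoMax
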